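import Cfsg.Agent.H776.ThCtx
import Mathlib.GroupTheory.Commutator.Basic
import Cfsg.Agent.H759.FusBasic
import Mathlib.GroupTheory.QuotientGroup.Basic
import Mathlib
set_option linter.all false

-- part: H776/ThBasic
section
/-!
Basic facts on the characteristic subgroups of the model group.
-/

set_option autoImplicit false
set_option linter.style.longLine false

namespace Cfsg.Agent.H776.ThS

open Subgroup

/-! ### inclusions -/

theorem Z1_le_Z2 : Z1 ≤ Z2 := fun _ h => ⟨h.1, h.2.1, h.2.2.1, h.2.2.2.1, h.2.2.2.2.1, h.2.2.2.2.2.1, h.2.2.2.2.2.2.1,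
  h.2.2.2.2.2.2.2.1⟩
theorem Z2_le_Z3 : Z2 ≤ Z3 := fun _ h => ⟨h.1, h.2.1, h.2.2.1, h.2.2.2.1, h.2.2.2.2.1, h.2.2.2.2.2.1, h.2.2.2.2.2.2.1⟩
theorem Z3_le_Z4 : Z3 ≤ Z4 := fun _ h => ⟨h.1, h.2.1, h.2.2.1, h.2.2.2.1, h.2.2.2.2.1, h.2.2.2.2.2.1⟩
theorem Z4_le_N5 : Z4 ≤ N5 := fun _ h => ⟨h.1, h.2.1, h.2.2.1, h.2.2.2.1, h.2.2.2.2.1⟩
theorem N5_le_X6 : N5 ≤ X6 := fun _ h => ⟨h.1, h.2.1, h.2.2.1, h.2.2.2.1⟩
theorem X6_le_Y7 : X6 ≤ Y7 := fun _ h => ⟨h.1, h.2.1, h.2.2.1⟩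
theorem Y7_le_Z6 : Y7 ≤ Z6 := fun _ h => ⟨h.1, h.2.1⟩
theorem Z6_le_E1 : Z6 ≤ E1 := fun _ h => h.1
theorem Z6_le_E2 : Z6 ≤ E2 := fun _ h => h.2
theorem Z3_le_N5 : Z3 ≤ N5 := Z3_le_Z4.trans Z4_le_N5
theorem Z2_le_N5 : Z2 ≤ N5 := Z2_le_Z3.trans Z3_le_N5
theorem Z1_le_N5 : Z1 ≤ N5 := Z1_le_Z2.trans Z2_le_N5
theorem X6_le_E1 : X6 ≤ E1 := fun _ h => h.1
theorem Y7_le_E1 : Y7 ≤ E1 := fun _ h => h.1
theorem N5_le_E1 : N5 ≤ E1 := fun _ h => h.1
theorem Z2_le_E1 : Z2 ≤ E1 := fun _ h => h.1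

/-- conjugation of elements of `N5` -/
theorem N5_comm {c x : P} (hc : c ∈ N5) : c * x = x * c ↔ cx c x = c := by
  rw [N5_mul c x hc]
  exact mul_right_inj x

theorem N5_conj' (c x : P) (hc : c ∈ N5) : x * c * x⁻¹ = cx c x⁻¹ := by
  rw [← N5_conj c x⁻¹ hc, inv_inv]

theorem inv_x1 (x : P) : x⁻¹.x1 = -x.x1 := by
  have h := mul_x1 x x⁻¹
  rw [mul_inv_cancel, one_x1] at h
  linear_combination -h

theorem inv_x2 (x : P) : x⁻¹.x2 = -x.x2 := by
  have h := mul_x2 x x⁻¹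
  rw [mul_inv_cancel, one_x2] at h
  linear_combination -h

/-- products of elements of `N5` -/
theorem N5_mul_eq {m n : P} (hm : m ∈ N5) (hn : n ∈ N5) : m * n = ⟨0, 0, 0, 0, 0, m.x6 + n.x6, m.x7 + n.x7, m.x8 + n.x8,
    m.x9 + n.x9, m.x10 + n.x10⟩ := by
  rw [mulN m n hn, hm.1, hm.2.1, hm.2.2.1, hm.2.2.2.1, hm.2.2.2.2]

theorem N5_commute {m n : P} (hm : m ∈ N5) (hn : n ∈ N5) : m * n = n * m := by
  rw [N5_mul_eq hm hn, N5_mul_eq hn hm]
  ext <;> simp [add_comm]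

/-- elements of `N5` by their coordinates -/
theorem N5_ext {m n : P} (hm : m ∈ N5) (hn : n ∈ N5) (h6 : m.x6 = n.x6) (h7 : m.x7 = n.x7) (h8 : m.x8 = n.x8)
    (h9 : m.x9 = n.x9) (h10 : m.x10 = n.x10) : m = n := by
  obtain ⟨a1, a2, a3, a4, a5⟩ := hm
  obtain ⟨b1, b2, b3, b4, b5⟩ := hn
  ext
  · rw [a1, b1]
  · rw [a2, b2]
  · rw [a3, b3]
  · rw [a4, b4]
  · rw [a5, b5]
  · exact h6
  · exact h7
  · exact h8
  · exact h9
  · exact h10

/-- powers in `N5` -/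
theorem N5_pow {m : P} (hm : m ∈ N5) (k : ℕ) : m ^ k = ⟨0, 0, 0, 0, 0, k * m.x6, k * m.x7, k * m.x8, k * m.x9,
    k * m.x10⟩ := by
  induction k with
  | zero =>
    rw [pow_zero]
    apply N5_ext (one_mem N5) ⟨rfl, rfl, rfl, rfl, rfl⟩ <;> simp [one_x6, one_x7, one_x8, one_x9, one_x10]
  | succ k ih =>
    rw [pow_succ, ih, N5_mul_eq ⟨rfl, rfl, rfl, rfl, rfl⟩ hm]
    ext <;> simp <;> ring

theorem N5_cube {m : P} (hm : m ∈ N5) : m ^ 3 = 1 := by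
  rw [N5_pow hm]
  have h3 : ((3 : ℕ) : ZMod 3) = 0 := rfl
  rw [h3]
  apply N5_ext ⟨rfl, rfl, rfl, rfl, rfl⟩ (one_mem N5) <;> simp [one_x6, one_x7, one_x8, one_x9, one_x10]

theorem N5_inv {m : P} (hm : m ∈ N5) : m⁻¹ = ⟨0, 0, 0, 0, 0, -m.x6, -m.x7, -m.x8, -m.x9, -m.x10⟩ := by
  rw [inv_eq_iff_mul_eq_one, N5_mul_eq hm ⟨rfl, rfl, rfl, rfl, rfl⟩]
  apply N5_ext ⟨rfl, rfl, rfl, rfl, rfl⟩ (one_mem N5) <;> simp [one_x6, one_x7, one_x8, one_x9, one_x10]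

theorem u10_mem : u10 ∈ Z1 := ⟨rfl, rfl, rfl, rfl, rfl, rfl, rfl, rfl, rfl⟩
theorem u9_mem : u9 ∈ Z2 := ⟨rfl, rfl, rfl, rfl, rfl, rfl, rfl, rfl⟩
theorem u9_not_mem : u9 ∉ Z1 := fun h => absurd h.2.2.2.2.2.2.2.2 (by decide)
theorem u10_ne_one : u10 ≠ 1 := fun h => absurd (congrArg V.x10 h) (by decide)
theorem u8_mem : u8 ∈ Z3 := ⟨rfl, rfl, rfl, rfl, rfl, rfl, rfl⟩

theorem zmod3_cast (a : ZMod 3) : ((a.val : ℕ) : ZMod 3) = a := ZMod.natCast_zmod_val a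

theorem mem_Z1_pow {x : P} (hx : x ∈ Z1) : x = u10 ^ x.x10.val := by
  rw [N5_pow (Z1_le_N5 u10_mem), zmod3_cast]
  obtain ⟨a1, a2, a3, a4, a5, a6, a7, a8, a9⟩ := hx
  ext <;> simp [u10, a1, a2, a3, a4, a5, a6, a7, a8, a9]

theorem mem_Z2_pow {x : P} (hx : x ∈ Z2) : x = u9 ^ x.x9.val * u10 ^ x.x10.val := by
  rw [N5_pow (Z1_le_N5 u10_mem), zmod3_cast, N5_pow (Z2_le_N5 u9_mem), zmod3_cast,
    N5_mul_eq ⟨rfl, rfl, rfl, rfl, rfl⟩ ⟨rfl, rfl, rfl, rfl, rfl⟩]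
  obtain ⟨a1, a2, a3, a4, a5, a6, a7, a8⟩ := hx
  ext <;> simp [u10, u9, a1, a2, a3, a4, a5, a6, a7, a8]

theorem mem_Z3_pow {x : P} (hx : x ∈ Z3) : x = u8 ^ x.x8.val * u9 ^ x.x9.val * u10 ^ x.x10.val := by
  have e : u8 ^ x.x8.val * u9 ^ x.x9.val = ⟨0, 0, 0, 0, 0, 0, 0, x.x8, x.x9, 0⟩ := by
    rw [N5_pow (Z2_le_N5 u9_mem), zmod3_cast, N5_pow (Z3_le_N5 u8_mem),
      zmod3_cast, N5_mul_eq ⟨rfl, rfl, rfl, rfl, rfl⟩ ⟨rfl, rfl, rfl, rfl, rfl⟩]
    ext <;> simp [u9, u8]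
  rw [e, N5_pow (Z1_le_N5 u10_mem), zmod3_cast, N5_mul_eq ⟨rfl, rfl, rfl, rfl, rfl⟩ ⟨rfl, rfl, rfl, rfl, rfl⟩]
  obtain ⟨a1, a2, a3, a4, a5, a6, a7⟩ := hx
  ext <;> simp [u10, a1, a2, a3, a4, a5, a6, a7]

/-- `Z1` is central -/
theorem Z1_comm {z : P} (hz : z ∈ Z1) (x : P) : z * x = x * z := by
  rw [N5_comm (Z1_le_N5 hz)]
  obtain ⟨a1, a2, a3, a4, a5, a6, a7, a8, a9⟩ := hz
  ext <;> simp [cx, a1, a2, a3, a4, a5, a6, a7, a8, a9]

/-- action on `Z2` -/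
theorem Z2_mul {z : P} (hz : z ∈ Z2) (x : P) : z * x = x * z * ⟨0, 0, 0, 0, 0, 0, 0, 0, 0, x.x1 * z.x9⟩ := by
  rw [N5_mul z x (Z2_le_N5 hz), mul_assoc]
  congr 1
  obtain ⟨a1, a2, a3, a4, a5, a6, a7, a8⟩ := hz
  rw [N5_mul_eq ⟨a1, a2, a3, a4, a5⟩ ⟨rfl, rfl, rfl, rfl, rfl⟩]
  ext <;> simp [cx, a6, a7, a8]

theorem Z2_conj {z : P} (hz : z ∈ Z2) (x : P) : x * z * x⁻¹ * z⁻¹ ∈ Z1 := by
  have h := Z2_mul hz x⁻¹
  have h2 : x * z * x⁻¹ * z⁻¹ = x * (z * x⁻¹) * z⁻¹ := by group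
  rw [h2, h]
  have h3 : x * (x⁻¹ * z * (⟨0, 0, 0, 0, 0, 0, 0, 0, 0, x⁻¹.x1 * z.x9⟩ : P)) * z⁻¹ =
      z * (⟨0, 0, 0, 0, 0, 0, 0, 0, 0, x⁻¹.x1 * z.x9⟩ : P) * z⁻¹ := by group
  have h4 : (⟨0, 0, 0, 0, 0, 0, 0, 0, 0, x⁻¹.x1 * z.x9⟩ : P) ∈ Z1 := ⟨rfl, rfl, rfl, rfl, rfl, rfl, rfl, rfl, rfl⟩
  rw [h3, ← Z1_comm h4 z, mul_inv_cancel_right]
  exact h4

/-- `E1` centralizes `Z2` -/
theorem Z2_comm {z x : P} (hz : z ∈ Z2) (hx : x ∈ E1) : z * x = x * z := by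
  rw [mem_E1] at hx
  rw [Z2_mul hz x, hx, zero_mul]
  exact mul_one _

theorem mem_E1_of_comm {x : P} (h : u9 * x = x * u9) : x ∈ E1 := by
  rw [N5_comm (Z2_le_N5 u9_mem)] at h
  have h2 := congrArg V.x10 h
  simp [cx, u9] at h2
  exact h2

/-- an element of `E1` commuting with `E1` is in `Z2` -/
theorem center_E1 {x : P} (hx : x ∈ E1) (h : ∀ y ∈ E1, x * y = y * x) : x ∈ Z2 := by
  have hu : ∀ c ∈ N5, cx c x = c := fun c hc => (N5_comm hc).1 (h c (N5_le_E1 hc)).symm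
  rw [mem_E1] at hx
  have h8 := hu u8 (Z3_le_N5 u8_mem)
  have h7 := hu u7 ⟨rfl, rfl, rfl, rfl, rfl⟩
  have h6 := hu u6 ⟨rfl, rfl, rfl, rfl, rfl⟩
  have a2 := congrArg V.x9 h8
  have a3 := congrArg V.x10 h8
  have a4 := congrArg V.x10 h7
  have a5 := congrArg V.x10 h6
  simp only [cx, u8, u7, u6, hx] at a2 a3 a4 a5
  have b2 : x.x2 = 0 := by linear_combination -a2
  have b3 : x.x3 = 0 := by linear_combination -a3
  rw [b2, b3] at a4 a5
  have b4 : x.x4 = 0 := by linear_combination -a4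
  rw [b4] at a5
  have b5 : x.x5 = 0 := by linear_combination a5
  have hN : x ∈ N5 := ⟨hx, b2, b3, b4, b5⟩
  have c5 := congrArg V.x10 ((N5_comm hN).1 (h u5 rfl))
  have c4 := congrArg V.x10 ((N5_comm hN).1 (h u4 rfl))
  have c3 := congrArg V.x10 ((N5_comm hN).1 (h u3 rfl))
  simp only [cx, u5, u4, u3] at c5 c4 c3
  have b6 : x.x6 = 0 := by linear_combination c5
  rw [b6] at c4 c3
  have b7 : x.x7 = 0 := by linear_combination -c4
  rw [b7] at c3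
  have b8 : x.x8 = 0 := by linear_combination -c3
  exact ⟨hx, b2, b3, b4, b5, b6, b7, b8⟩

/-- the centre of `P` is `Z1` -/
theorem center_P {x : P} (h : ∀ y, x * y = y * x) : x ∈ Z1 := by
  have h1 : x ∈ E1 := mem_E1_of_comm (h u9).symm
  have h2 := center_E1 h1 fun y _ => h y
  have c1 := congrArg V.x10 ((N5_comm (Z2_le_N5 h2)).1 (h u1))
  obtain ⟨a1, a2, a3, a4, a5, a6, a7, a8⟩ := h2
  simp only [cx, u1, a6, a7] at c1
  exact ⟨a1, a2, a3, a4, a5, a6, a7, a8, by linear_combination c1⟩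

/-- characterization of `Z2` -/
theorem mem_Z2_of {x : P} (h : ∀ y, ∃ z ∈ Z1, y * x = x * y * z) : x ∈ Z2 := by
  have hu : ∀ c ∈ N5, (cx c x).x7 = c.x7 ∧ (cx c x).x8 = c.x8 ∧ (cx c x).x9 = c.x9 := by
    intro c hc
    obtain ⟨z, hz, h1⟩ := h c
    rw [N5_mul c x hc, mul_assoc, mul_right_inj, N5_mul_eq hc (Z1_le_N5 hz)] at h1
    obtain ⟨-, -, -, -, -, -, z7, z8, z9⟩ := hz
    rw [h1]
    simp [z7, z8, z9]
  have a1 := (hu u7 ⟨rfl, rfl, rfl, rfl, rfl⟩).2.1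
  have a2 := (hu u8 ⟨rfl, rfl, rfl, rfl, rfl⟩).2.2
  have a3 := (hu u7 ⟨rfl, rfl, rfl, rfl, rfl⟩).2.2
  have a4 := (hu u6 ⟨rfl, rfl, rfl, rfl, rfl⟩).2.2
  simp only [cx, u6, u7, u8] at a1 a2 a3 a4
  have b1 : x.x1 = 0 := by linear_combination -a1
  have b2 : x.x2 = 0 := by linear_combination -a2
  rw [b1, b2] at a3 a4
  have b3 : x.x3 = 0 := by linear_combination -a3
  rw [b3] at a4
  have b4 : x.x4 = 0 := by linear_combination -a4
  have hxE : x ∈ E1 := b1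
  have b5 : x.x5 = 0 := by
    obtain ⟨z, hz, h1⟩ := h u2
    have h2 := E1_mul u2 x rfl hxE
    rw [h1, mul_right_inj] at h2
    have h3 := congrArg V.x6 h2
    simp only [ce, u2] at h3
    rw [hz.2.2.2.2.2.1] at h3
    linear_combination h3
  have hN : x ∈ N5 := ⟨b1, b2, b3, b4, b5⟩
  have hv : ∀ y, (cx x y).x7 = x.x7 ∧ (cx x y).x8 = x.x8 ∧ (cx x y).x9 = x.x9 := by
    intro y
    obtain ⟨z, hz, h1⟩ := h y
    have h2 : x * y = y * (x * z⁻¹) := by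
      rw [← mul_assoc, h1, mul_inv_cancel_right]
    rw [N5_mul x y hN, mul_right_inj, N5_mul_eq hN (inv_mem (Z1_le_N5 hz))] at h2
    have hz' := Z1.inv_mem hz
    obtain ⟨-, -, -, -, -, -, z7, z8, z9⟩ := hz'
    rw [h2]
    simp [z7, z8, z9]
  have c6 := (hv u1).1
  have c7 := (hv u1).2.1
  have c8 := (hv u2).2.2
  simp only [cx, u1, u2] at c6 c7 c8
  have b6 : x.x6 = 0 := by linear_combination c6
  rw [b6] at c7 c8
  have b7 : x.x7 = 0 := by linear_combination -c7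
  rw [b7] at c8
  have b8 : x.x8 = 0 := by linear_combination -c8
  exact ⟨b1, b2, b3, b4, b5, b6, b7, b8⟩

theorem Z2_comm' {x : P} (hx : x ∈ Z2) (y : P) : ∃ z ∈ Z1, y * x = x * y * z := by
  have h := Z2_conj hx y
  refine ⟨_, h, ?_⟩
  rw [← Z1_comm h]
  group

/-- an element outside `Z1` and `Z1` generate `Z2` -/
theorem Z2_le_of {H : Subgroup P} (h1 : u10 ∈ H) {x : P} (hx : x ∈ Z2) (hx1 : x ∉ Z1) (hxH : x ∈ H) : Z2 ≤ H := by
  have h9 : x.x9 ≠ 0 := fun h => hx1 ⟨hx.1, hx.2.1, hx.2.2.1, hx.2.2.2.1, hx.2.2.2.2.1, hx.2.2.2.2.2.1,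
    hx.2.2.2.2.2.2.1, hx.2.2.2.2.2.2.2, h⟩
  have hu : u9 ∈ H := by
    have hx' : u9 = x ^ x.x9.val * u10 ^ (-(x.x9 * x.x10)).val := by
      rw [N5_pow (Z2_le_N5 hx), zmod3_cast, N5_pow (Z1_le_N5 u10_mem), zmod3_cast,
        N5_mul_eq ⟨rfl, rfl, rfl, rfl, rfl⟩ ⟨rfl, rfl, rfl, rfl, rfl⟩]
      obtain ⟨a1, a2, a3, a4, a5, a6, a7, a8⟩ := hx
      have h9' : x.x9 * x.x9 = 1 := by
        revert h9
        generalize x.x9 = a
        revert a
        decide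
      ext <;> simp [u10, u9, a6, a7, a8, h9']
    rw [hx']
    exact mul_mem (pow_mem hxH _) (pow_mem h1 _)
  intro y hy
  rw [mem_Z2_pow hy]
  exact mul_mem (pow_mem hu _) (pow_mem h1 _)

end Cfsg.Agent.H776.ThS
end

-- part: H835/Th2/Coord
section
/-!
Coordinate facts on the model of the Sylow 3-subgroup of the Thompson group, for Theorem II.
-/

set_option autoImplicit false
set_option linter.style.longLine false

namespace Cfsg.Agent.H835.Th2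

open Cfsg.Agent.H776.ThS Subgroup

/-! ### the centre and the second centre -/

theorem N5_of_Z3 {w : P} (h : w ∈ Z3) : w ∈ N5 := ⟨h.1, h.2.1, h.2.2.1, h.2.2.2.1, h.2.2.2.2.1⟩

theorem Z3_of_Z2 {w : P} (h : w ∈ Z2) : w ∈ Z3 :=
  ⟨h.1, h.2.1, h.2.2.1, h.2.2.2.1, h.2.2.2.2.1, h.2.2.2.2.2.1, h.2.2.2.2.2.2.1⟩

theorem Z2_of_Z1 {w : P} (h : w ∈ Z1) : w ∈ Z2 :=
  ⟨h.1, h.2.1, h.2.2.1, h.2.2.2.1, h.2.2.2.2.1, h.2.2.2.2.2.1, h.2.2.2.2.2.2.1, h.2.2.2.2.2.2.2.1⟩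

theorem N5_of_Z2 {w : P} (h : w ∈ Z2) : w ∈ N5 := N5_of_Z3 (Z3_of_Z2 h)

theorem N5_of_Z1 {w : P} (h : w ∈ Z1) : w ∈ N5 := N5_of_Z2 (Z2_of_Z1 h)

/-- commutation with an element of `N5` -/
theorem comm_iff {c x : P} (hc : c ∈ N5) : c * x = x * c ↔ cx c x = c := by
  rw [N5_mul c x hc, mul_right_inj]

theorem Z1_comm {z : P} (hz : z ∈ Z1) (x : P) : z * x = x * z := by
  rw [comm_iff (N5_of_Z1 hz)]
  obtain ⟨h1, h2, h3, h4, h5, h6, h7, h8, h9⟩ := hz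
  ext
  all_goals simp [cx, h1, h2, h3, h4, h5, h6, h7, h8, h9]

theorem Z2_comm {w x : P} (hw : w ∈ Z2) (hx : x ∈ E1) : w * x = x * w := by
  rw [comm_iff (N5_of_Z2 hw)]
  obtain ⟨h1, h2, h3, h4, h5, h6, h7, h8⟩ := hw
  rw [mem_E1] at hx
  ext
  all_goals simp [cx, h1, h2, h3, h4, h5, h6, h7, h8, hx]

theorem Z3_comm {w x : P} (hw : w ∈ Z3) (h1 : x.x1 = 0) (h2 : x.x2 = 0) (h3 : x.x3 = 0) : w * x = x * w := by
  rw [comm_iff (N5_of_Z3 hw)]
  obtain ⟨w1, w2, w3, w4, w5, w6, w7⟩ := hw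
  ext
  all_goals simp [cx, h1, h2, h3, w1, w2, w3, w4, w5, w6, w7]

theorem N5_comm {c x : P} (hc : c ∈ N5) (hx : x ∈ N5) : c * x = x * c := by
  rw [comm_iff hc]
  obtain ⟨h1, h2, h3, h4, h5⟩ := hc
  obtain ⟨k1, k2, k3, k4, k5⟩ := hx
  ext
  all_goals simp [cx, h1, h2, h3, h4, h5, k1, k2, k3, k4, k5]

theorem u10_pow (n : ℕ) : u10 ^ n = ⟨0, 0, 0, 0, 0, 0, 0, 0, 0, (n : ZMod 3)⟩ := by
  induction n with
  | zero => rw [pow_zero, Nat.cast_zero]; rfl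
  | succ n ih =>
    rw [pow_succ, ih, mulN _ _ ⟨rfl, rfl, rfl, rfl, rfl⟩, Nat.cast_succ]
    ext <;> simp [u10]

theorem u9_pow (n : ℕ) : u9 ^ n = ⟨0, 0, 0, 0, 0, 0, 0, 0, (n : ZMod 3), 0⟩ := by
  induction n with
  | zero => rw [pow_zero, Nat.cast_zero]; rfl
  | succ n ih =>
    rw [pow_succ, ih, mulN _ _ ⟨rfl, rfl, rfl, rfl, rfl⟩, Nat.cast_succ]
    ext <;> simp [u9]

theorem u10_mem : u10 ∈ Z1 := ⟨rfl, rfl, rfl, rfl, rfl, rfl, rfl, rfl, rfl⟩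

theorem u9_mem : u9 ∈ Z2 := ⟨rfl, rfl, rfl, rfl, rfl, rfl, rfl, rfl⟩

theorem exists_pow_of_Z1 {z : P} (hz : z ∈ Z1) : ∃ k : ℕ, z = u10 ^ k := by
  refine ⟨z.x10.val, ?_⟩
  obtain ⟨h1, h2, h3, h4, h5, h6, h7, h8, h9⟩ := hz
  rw [u10_pow, ZMod.natCast_zmod_val]
  ext <;> simp [h1, h2, h3, h4, h5, h6, h7, h8, h9]

theorem exists_pow_of_Z2 {w : P} (hw : w ∈ Z2) : ∃ k : ℕ, ∃ z ∈ Z1, w = u9 ^ k * z := by
  obtain ⟨h1, h2, h3, h4, h5, h6, h7, h8⟩ := hw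
  refine ⟨w.x9.val, ⟨0, 0, 0, 0, 0, 0, 0, 0, 0, w.x10⟩, ⟨rfl, rfl, rfl, rfl, rfl, rfl, rfl, rfl, rfl⟩, ?_⟩
  rw [u9_pow, ZMod.natCast_zmod_val, mulN _ _ ⟨rfl, rfl, rfl, rfl, rfl⟩]
  ext <;> simp [h1, h2, h3, h4, h5, h6, h7, h8]

theorem u9_cube : u9 ^ 3 = 1 := by
  rw [u9_pow]
  rfl

instance Z1_normal : Z1.Normal := ⟨fun n hn g => by rw [← Z1_comm hn, mul_inv_cancel_right]; exact hn⟩

/-- the projection modulo the centre -/
def π : P →* P ⧸ Z1 := QuotientGroup.mk' Z1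

theorem π_eq_one {x : P} : π x = 1 ↔ x ∈ Z1 := QuotientGroup.eq_one_iff x

theorem π_of_mem {z : P} (hz : z ∈ Z1) : π z = 1 := π_eq_one.2 hz

theorem π_comm {x v : P} : Commute (π x) (π v) ↔ ∃ z ∈ Z1, x * v = v * x * z := by
  unfold Commute SemiconjBy
  rw [← map_mul, ← map_mul]
  constructor
  · intro h
    refine ⟨(v * x)⁻¹ * (x * v), ?_, by group⟩
    rw [← π_eq_one, map_mul, map_inv, h, inv_mul_cancel]
  · rintro ⟨z, hz, h⟩
    rw [h, map_mul, π_of_mem hz, mul_one]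

theorem π_comm_bracket {x v : P} : Commute (π x) (π v) ↔ x * v * x⁻¹ * v⁻¹ ∈ Z1 := by
  rw [← π_eq_one, ← commutatorElement_def, map_commutatorElement, commutatorElement_eq_one_iff_commute]

/-- equality modulo the centre, in coordinates -/
theorem coordsZ {a b z : P} (hz : z ∈ Z1) (h : a = b * z) : a.x3 = b.x3 ∧ a.x4 = b.x4 ∧ a.x5 = b.x5 ∧ a.x6 = b.x6 ∧
    a.x7 = b.x7 ∧ a.x8 = b.x8 ∧ a.x9 = b.x9 := by
  rw [mulN _ _ (N5_of_Z1 hz)] at h
  obtain ⟨h1, h2, h3, h4, h5, h6, h7, h8, h9⟩ := hz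
  rw [h]
  refine ⟨rfl, rfl, rfl, ?_, ?_, ?_, ?_⟩
  · simp [h6]
  · simp [h7]
  · simp [h8]
  · simp [h9]

/-- commutation with an element of `N5` modulo the centre -/
theorem N5_π_comm {c x : P} (hc : c ∈ N5) : Commute (π c) (π x) ↔
    (x.x1 * c.x6 = 0 ∧ x.x1 * c.x7 = x.x1 ^ 2 * c.x6 ∧
      - x.x4 * c.x6 - x.x3 * c.x7 - x.x2 * c.x8 + x.x2 * c.x6 - x.x1 * x.x3 * c.x6 + x.x1 * x.x2 * c.x7
    - x.x1 ^ 2 * x.x2 * c.x6 = 0) := by
  rw [π_comm]
  have key : (∃ z ∈ Z1, c * x = x * c * z) ↔ ∃ z ∈ Z1, cx c x = c * z := by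
    simp only [N5_mul c x hc, mul_assoc, mul_right_inj]
  rw [key]
  constructor
  · rintro ⟨z, hz, h⟩
    obtain ⟨-, -, -, h6, h7, h8, h9⟩ := coordsZ hz h
    simp only [cx] at h6 h7 h8 h9
    refine ⟨by linear_combination h7, by linear_combination -h8, by linear_combination h9⟩
  · rintro ⟨h7, h8, h9⟩
    refine ⟨⟨0, 0, 0, 0, 0, 0, 0, 0, 0, (cx c x).x10 - c.x10⟩, ⟨rfl, rfl, rfl, rfl, rfl, rfl, rfl, rfl, rfl⟩, ?_⟩
    rw [mulN _ _ ⟨rfl, rfl, rfl, rfl, rfl⟩]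
    obtain ⟨c1, c2, c3, c4, c5⟩ := hc
    ext
    · exact c1.symm
    · exact c2.symm
    · exact c3.symm
    · exact c4.symm
    · exact c5.symm
    · simp [cx]
    · simp only [cx, add_zero]; linear_combination h7
    · simp only [cx, add_zero]; linear_combination -h8
    · simp only [cx, add_zero]; linear_combination h9
    · simp

theorem u9_π_comm (x : P) : Commute (π u9) (π x) := by
  rw [N5_π_comm (N5_of_Z2 u9_mem)]
  refine ⟨?_, ?_, ?_⟩ <;> simp [u9]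

end Cfsg.Agent.H835.Th2
end

-- part: H835/Th2/Basic
section
/-!
The first steps for Theorem II: the group `CV A` of the elements commuting with all `a u9` modulo the centre.
-/

set_option autoImplicit false
set_option linter.style.longLine false

namespace Cfsg.Agent.H835.Th2

open Cfsg.Agent.H776.ThS Subgroup

variable {Q : Subgroup P} {A : Set (P → P)}

/-- the elements commuting with all `a u9` modulo the centre -/
def CV (A : Set (P → P)) : Subgroup P where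
  carrier := {x | ∀ a ∈ A, Commute (π x) (π (a u9))}
  one_mem' := fun a _ => by rw [map_one]; exact Commute.one_left _
  mul_mem' := fun {x y} hx hy a ha => by rw [map_mul]; exact (hx a ha).mul_left (hy a ha)
  inv_mem' := fun {x} hx a ha => by rw [map_inv]; exact (hx a ha).inv_left

theorem mem_CV {x : P} : x ∈ CV A ↔ ∀ a ∈ A, Commute (π x) (π (a u9)) := Iff.rfl

theorem map_Z1 (h : Ctx Q A) (hW : Z2 ≤ Q) (hfix : ∀ a ∈ A, a u10 ∈ Z1) {a : P → P} (ha : a ∈ A) {z : P}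
    (hz : z ∈ Z1) : a z ∈ Z1 := by
  obtain ⟨k, rfl⟩ := exists_pow_of_Z1 hz
  rw [h.map_pow ha (hW (Z2_of_Z1 u10_mem))]
  exact pow_mem (hfix a ha) k

theorem le_CV (h : Ctx Q A) (hW : Z2 ≤ Q) (hfix : ∀ a ∈ A, a u10 ∈ Z1) : Q ≤ CV A := by
  intro q hq a ha
  obtain ⟨g, hg, hi⟩ := h.inv a ha
  obtain ⟨z, hz, e⟩ := π_comm.1 (u9_π_comm (g q)).symm
  rw [π_comm]
  refine ⟨a z, map_Z1 h hW hfix ha hz, ?_⟩
  have hgq := h.maps g hg q hq
  have h9 : u9 ∈ Q := hW u9_mem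
  have e2 : a (g q * u9) = a (u9 * g q * z) := by rw [e]
  rw [h.mul a ha _ hgq _ h9, h.mul a ha _ (mul_mem h9 hgq) _ (hW (Z2_of_Z1 hz)), h.mul a ha _ h9 _ hgq, (hi q hq).2] at e2
  exact e2

theorem conj_Z2 (h : Ctx Q A) (hW : Z2 ≤ Q) (hfix : ∀ a ∈ A, a u10 ∈ Z1) {a : P → P} (ha : a ∈ A) {n : P}
    (hn : Commute (π n) (π (a u9))) : ∀ w ∈ Z2, ∃ w' ∈ Z2, n * a w * n⁻¹ = a w' := by
  intro w hw
  obtain ⟨g, hg, hi⟩ := h.inv a ha
  obtain ⟨k, z, hz, rfl⟩ := exists_pow_of_Z2 hw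
  obtain ⟨z1, hz1, e⟩ := π_comm.1 hn
  have h9 : u9 ∈ Q := hW u9_mem
  have hgz := map_Z1 h hW hfix hg hz1
  have hgzQ : g z1 ∈ Q := hW (Z2_of_Z1 hgz)
  have hzQ : z ∈ Q := hW (Z2_of_Z1 hz)
  refine ⟨(u9 * g z1) ^ k * z, mul_mem (pow_mem (mul_mem u9_mem (Z2_of_Z1 hgz)) k) (Z2_of_Z1 hz), ?_⟩
  rw [h.mul a ha _ (pow_mem h9 k) _ hzQ, h.mul a ha _ (pow_mem (mul_mem h9 hgzQ) k) _ hzQ, h.map_pow ha h9,
    h.map_pow ha (mul_mem h9 hgzQ), h.mul a ha _ h9 _ hgzQ, (hi z1 (hW (Z2_of_Z1 hz1))).2]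
  have e1 : n * a u9 * n⁻¹ = a u9 * z1 := by
    rw [e, mul_assoc (a u9 * n), Z1_comm hz1, ← mul_assoc, mul_inv_cancel_right]
  have e2 : n * a z * n⁻¹ = a z := by
    rw [← Z1_comm (map_Z1 h hW hfix ha hz), mul_inv_cancel_right]
  calc n * (a u9 ^ k * a z) * n⁻¹ = (n * a u9 ^ k * n⁻¹) * (n * a z * n⁻¹) := by group
    _ = (a u9 * z1) ^ k * a z := by rw [← conj_pow, e1, e2]

/-- (M1) -/
theorem CV_eq (h : Ctx Q A) (hSE : SE Q A Z2) (hW : Z2 ≤ Q) (hfix : ∀ a ∈ A, a u10 ∈ Z1)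
    (hmov : ∃ a ∈ A, a u9 ∉ Z2) : CV A = Q := by
  by_contra hne
  have hlt : Q < CV A := lt_of_le_of_ne (le_CV h hW hfix) (Ne.symm hne)
  have : Fact (Nat.Prime 3) := ⟨Nat.prime_three⟩
  have : Finite P := inferInstance
  obtain ⟨n, hn, hnQ, hnN⟩ := Cfsg.Agent.H759.exists_mem_normalizer_not_mem (S := (⊤ : Subgroup P))
    (isPGroup_P.to_subgroup ⊤) le_top hlt
  obtain ⟨a, ha, hau⟩ := hmov
  obtain ⟨w, hw, e⟩ := hSE.conj h hnN hnQ ha h.id_mem (conj_Z2 h hW hfix ha (hn a ha))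
    (conj_Z2 h hW hfix h.id_mem (hn _ h.id_mem)) u9 u9_mem
  exact hau (e ▸ hw)

/-- the statement of `t1w` -/
def T1W : Prop := ∀ {Q : Subgroup P} {A : Set (P → P)}, Ctx Q A → SE Q A Z2 → Z2 ≤ Q →
    (∀ a ∈ A, a u10 ∈ Z1) → (∃ a ∈ A, a u9 ∉ Z2) →
    ∀ {y r : P}, y ∈ normalizer (Q : Set P) → y ∉ Q →
    r ∈ closure {x | x ∈ Z1 ∨ ∃ a ∈ A, x = a u9} → r ^ 3 ∈ Z1 → y * r * y⁻¹ * r⁻¹ ∈ Z1 →
    (∀ a ∈ A, ∃ k : ℕ, ∃ z ∈ Z1, y * a u9 * y⁻¹ = a u9 * r ^ k * z) →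
    r ∈ Z2 ∧
    (∀ a ∈ A, a u9 ∉ Z2 → ∀ b ∈ A, ∃ i j : ℕ, ∃ z ∈ Z1, b u9 = a u9 ^ i * u9 ^ j * z) ∧
    (∀ a ∈ A, a u9 ∉ Z2 → ∀ i j : ℕ, ∃ b ∈ A, ∃ k : ℕ, ∃ z ∈ Z1, a u9 ^ i * u9 ^ j = b u9 ^ k * z) ∧
    (∀ n ∈ normalizer (Q : Set P), ∃ k : ℕ, n * y ^ k ∈ Q)

/-- `t1w` with `r = u9` -/
theorem T1_nine (T : T1W) (h : Ctx Q A) (hSE : SE Q A Z2) (hW : Z2 ≤ Q) (hfix : ∀ a ∈ A, a u10 ∈ Z1)
    (hmov : ∃ a ∈ A, a u9 ∉ Z2) {y : P} (hy : y ∈ normalizer (Q : Set P)) (hyQ : y ∉ Q)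
    (hyv : ∀ a ∈ A, ∃ w ∈ Z2, y * a u9 * y⁻¹ = a u9 * w) :
    (∀ a ∈ A, a u9 ∉ Z2 → ∀ b ∈ A, ∃ i j : ℕ, ∃ z ∈ Z1, b u9 = a u9 ^ i * u9 ^ j * z) ∧
    (∀ n ∈ normalizer (Q : Set P), ∃ k : ℕ, n * y ^ k ∈ Q) := by
  have h1 := T h hSE hW hfix hmov (r := u9) hy hyQ (subset_closure (Or.inr ⟨_, h.id_mem, rfl⟩))
    (by rw [u9_cube]; exact one_mem _) (π_comm_bracket.1 (u9_π_comm y).symm) (fun a ha => by
      obtain ⟨w, hw, e⟩ := hyv a ha
      obtain ⟨k, z, hz, rfl⟩ := exists_pow_of_Z2 hw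
      exact ⟨k, z, hz, by rw [e, mul_assoc]⟩)
  exact ⟨h1.2.1, h1.2.2.2⟩

theorem cube_a (h : Ctx Q A) (hW : Z2 ≤ Q) {a : P → P} (ha : a ∈ A) : a u9 ^ 3 = 1 := by
  rw [← h.map_pow ha (hW u9_mem), u9_cube, h.one ha]

/-- a conjugation mapping `Q` into itself -/
theorem mem_normalizer_of {n : P} (hn : ∀ q ∈ Q, n * q * n⁻¹ ∈ Q) : n ∈ normalizer (Q : Set P) := by
  have h1 : ∀ k : ℕ, ∀ q ∈ Q, n ^ k * q * (n ^ k)⁻¹ ∈ Q := by
    intro k
    induction k with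
    | zero => intro q hq; simpa using hq
    | succ k ih =>
      intro q hq
      have := hn _ (ih q hq)
      rw [pow_succ']
      simpa [mul_assoc] using this
  rw [mem_normalizer_iff]
  intro q
  refine ⟨hn q, fun hq => ?_⟩
  have h2 := h1 (3 ^ 10 - 1) _ hq
  have h3 : n ^ (3 ^ 10 - 1) = n⁻¹ := by
    rw [eq_inv_iff_mul_eq_one, ← pow_succ]
    exact pow3_10 n
  rw [h3] at h2
  simpa [mul_assoc] using h2

theorem mem_normalizer_of' {n : P} (hn : ∀ q ∈ Q, n⁻¹ * q * n ∈ Q) : n ∈ normalizer (Q : Set P) := by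
  rw [← inv_inv n]
  apply inv_mem
  apply mem_normalizer_of
  intro q hq
  rw [inv_inv]
  exact hn q hq

/-- for `y ∈ E1`: commutators in `Z2` -/
theorem conj_of_mul {y v w : P} (hy : y ∈ E1) (hw : w ∈ Z2) (e : v * y = y * v * w) :
    ∃ w ∈ Z2, y * v * y⁻¹ = v * w := by
  refine ⟨w⁻¹, inv_mem hw, ?_⟩
  have h1 : w⁻¹ * y = y * w⁻¹ := Z2_comm (inv_mem hw) hy
  rw [mul_inv_eq_iff_eq_mul, mul_assoc, h1, ← mul_assoc, e, mul_inv_cancel_right]

end Cfsg.Agent.H835.Th2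
end

-- part: H835/Th2/CaseA
section
/-!
Theorem II, case A: `Q ≤ E1` is impossible.
-/

set_option autoImplicit false
set_option linter.style.longLine false

namespace Cfsg.Agent.H835.Th2

open Cfsg.Agent.H776.ThS Subgroup

variable {Q : Subgroup P} {A : Set (P → P)}

/-- in case A all `a u9` are central in `Q` -/
theorem central_of_le (h : Ctx Q A) (hW : Z2 ≤ Q) (hQ : Q ≤ E1) {a : P → P} (ha : a ∈ A) {q : P} (hq : q ∈ Q) :
    a u9 * q = q * a u9 := by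
  obtain ⟨g, hg, hi⟩ := h.inv a ha
  have hgq := h.maps g hg q hq
  have h9 : u9 ∈ Q := hW u9_mem
  rw [← (hi q hq).2, ← h.mul a ha _ h9 _ hgq, ← h.mul a ha _ hgq _ h9, Z2_comm u9_mem (hQ hgq)]

/-- commutation of an element of `N5` with an element of `E1` -/
theorem N5_E1_comm {c x : P} (hc : c ∈ N5) (hx : x ∈ E1) : c * x = x * c ↔
    (x.x2 - x.x4) * c.x6 - x.x3 * c.x7 - x.x2 * c.x8 = 0 ∧
    (x.x5 + x.x3) * c.x6 + (x.x2 - x.x4) * c.x7 - x.x3 * c.x8 = 0 := by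
  rw [comm_iff hc]
  rw [mem_E1] at hx
  obtain ⟨c1, c2, c3, c4, c5⟩ := hc
  constructor
  · intro e
    have h9 : (cx c x).x9 = c.x9 := by rw [e]
    have h10 : (cx c x).x10 = c.x10 := by rw [e]
    simp only [cx, hx] at h9 h10
    exact ⟨by linear_combination h9, by linear_combination h10⟩
  · rintro ⟨h9, h10⟩
    ext
    · exact c1.symm
    · exact c2.symm
    · exact c3.symm
    · exact c4.symm
    · exact c5.symm
    · rfl
    · simp only [cx, hx]; ring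
    · simp only [cx, hx]; ring
    · simp only [cx, hx]; linear_combination h9
    · simp only [cx, hx]; linear_combination h10

/-- `v * y = y * v * w` with `w ∈ Z2` for `v ∈ N5`, `y ∈ E1` -/
theorem N5_E1_mul {v y : P} (hv : v ∈ N5) (hy : y ∈ E1) : ∃ w ∈ Z2, v * y = y * v * w := by
  refine ⟨⟨0, 0, 0, 0, 0, 0, 0, 0, (cx v y).x9 - v.x9, (cx v y).x10 - v.x10⟩, ⟨rfl, rfl, rfl, rfl, rfl, rfl, rfl, rfl⟩, ?_⟩
  rw [N5_mul v y hv, mul_assoc, mul_right_inj, mulN _ _ ⟨rfl, rfl, rfl, rfl, rfl⟩]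
  rw [mem_E1] at hy
  obtain ⟨c1, c2, c3, c4, c5⟩ := hv
  ext
  · exact c1.symm
  · exact c2.symm
  · exact c3.symm
  · exact c4.symm
  · exact c5.symm
  · simp [cx]
  · simp [cx, hy]
  · simp [cx, hy]
  · simp
  · simp

theorem E1_pow {y : P} (hy : y ∈ E1) (k : ℕ) : (y ^ k).x1 = 0 ∧ (y ^ k).x2 = k * y.x2 ∧ (y ^ k).x3 = k * y.x3 ∧
    (y ^ k).x4 = k * y.x4 ∧ (y ^ k).x5 = k * y.x5 := by
  rw [mem_E1] at hy
  induction k with
  | zero =>
    rw [pow_zero, Nat.cast_zero]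
    refine ⟨rfl, ?_, ?_, ?_, ?_⟩ <;> rw [zero_mul] <;> rfl
  | succ k ih =>
    obtain ⟨i1, i2, i3, i4, i5⟩ := ih
    rw [pow_succ, mul_x1, mul_x2, mul_x3, mul_x4, mul_x5, i1, i2, i3, i4, i5, hy, Nat.cast_succ]
    refine ⟨by ring, by ring, by ring, by ring, by ring⟩

/-- coordinates of `x * y ^ k` in `E1` -/
theorem E1_mul_pow {x y : P} (hx : x ∈ E1) (hy : y ∈ E1) (k : ℕ) : x * y ^ k ∈ E1 ∧ (x * y ^ k).x2 = x.x2 + k * y.x2 ∧
    (x * y ^ k).x3 = x.x3 + k * y.x3 ∧ (x * y ^ k).x4 = x.x4 + k * y.x4 ∧ (x * y ^ k).x5 = x.x5 + k * y.x5 := by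
  obtain ⟨i1, i2, i3, i4, i5⟩ := E1_pow hy k
  refine ⟨mul_mem hx (pow_mem hy k), ?_⟩
  rw [mul_x2, mul_x3, mul_x4, mul_x5, i1, i2, i3, i4, i5]
  refine ⟨by ring, by ring, by ring, by ring⟩

theorem u2_mem : u2 ∈ E1 := rfl
theorem u3_mem : u3 ∈ E1 := rfl
theorem u4_mem : u4 ∈ E1 := rfl
theorem u5_mem : u5 ∈ E1 := rfl

/-- `E1` normalizes `Q` if `N5 ≤ Q ≤ E1` -/
theorem E1_normalizes (h5 : N5 ≤ Q) (hQ : Q ≤ E1) {n : P} (hn : n ∈ E1) : n ∈ normalizer (Q : Set P) := by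
  apply mem_normalizer_of'
  intro q hq
  rw [mul_assoc, E1_mul q n (hQ hq) hn, mul_assoc, inv_mul_cancel_left]
  exact mul_mem hq (h5 (ce_mem q n))

/-- (A1) -/
theorem caseA1 (T : T1W) (h : Ctx Q A) (hSE : SE Q A Z2) (hW : Z2 ≤ Q) (hfix : ∀ a ∈ A, a u10 ∈ Z1)
    (hmov : ∃ a ∈ A, a u9 ∉ Z2) (hQ : Q ≤ E1) (hV : ∀ a ∈ A, a u9 ∈ N5) : False := by
  have hCV := CV_eq h hSE hW hfix hmov
  have h5 : N5 ≤ Q := by
    intro x hx
    rw [← hCV, mem_CV]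
    intro a ha
    have h1 : Commute x (a u9) := N5_comm hx (hV a ha)
    exact h1.map π
  obtain ⟨a, ha, hau⟩ := hmov
  have hv5 := hV a ha
  have hvQ : ∀ q ∈ Q, (q.x2 - q.x4) * (a u9).x6 - q.x3 * (a u9).x7 - q.x2 * (a u9).x8 = 0 ∧
      (q.x5 + q.x3) * (a u9).x6 + (q.x2 - q.x4) * (a u9).x7 - q.x3 * (a u9).x8 = 0 := by
    intro q hq
    rw [← N5_E1_comm hv5 (hQ hq)]
    exact central_of_le h hW hQ ha hq
  -- the argument for a pair `(e, x')`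
  have main : ∀ e x' : P, e ∈ E1 → x' ∈ E1 → e ∉ Q → ∃ k : ℕ, x' * e ^ k ∈ Q := by
    intro e x' he hx' heQ
    have h1 := T1_nine T h hSE hW hfix ⟨a, ha, hau⟩ (E1_normalizes h5 hQ he) heQ (fun b hb => by
      obtain ⟨w, hw, e1⟩ := N5_E1_mul (hV b hb) he
      exact conj_of_mul he hw e1)
    exact h1.2 x' (E1_normalizes h5 hQ hx')
  generalize hv : a u9 = v at *
  by_cases h6 : v.x6 = 0
  · by_cases h7 : v.x7 = 0
    · by_cases h8 : v.x8 = 0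
      · exact hau ⟨hv5.1, hv5.2.1, hv5.2.2.1, hv5.2.2.2.1, hv5.2.2.2.2, h6, h7, h8⟩
      · have he : u2 ∉ Q := fun hq => by
          have h1 := (hvQ _ hq).1
          simp only [u2, h6, h7] at h1
          exact h8 (by linear_combination -h1)
        obtain ⟨k, hk⟩ := main u2 u3 u2_mem u3_mem he
        obtain ⟨-, j2, j3, j4, j5⟩ := E1_mul_pow u3_mem u2_mem k
        obtain ⟨g1, g2⟩ := hvQ _ hk
        rw [j2, j3, j4] at g1
        rw [j2, j3, j4, j5] at g2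
        simp only [u2, u3, h6, h7] at g1 g2
        have : v.x8 = 0 := by linear_combination -g2
        exact h8 this
    · have he : u3 ∉ Q := fun hq => by
        have h1 := (hvQ _ hq).1
        simp only [u3, h6] at h1
        exact h7 (by linear_combination -h1)
      obtain ⟨k, hk⟩ := main u3 u4 u3_mem u4_mem he
      obtain ⟨-, j2, j3, j4, j5⟩ := E1_mul_pow u4_mem u3_mem k
      obtain ⟨g1, g2⟩ := hvQ _ hk
      rw [j2, j3, j4] at g1
      rw [j2, j3, j4, j5] at g2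
      simp only [u3, u4, h6] at g1 g2
      have hk0 : (k : ZMod 3) = 0 := by
        have : (k : ZMod 3) * v.x7 = 0 := by linear_combination -g1
        exact (mul_eq_zero.1 this).resolve_right h7
      rw [hk0] at g2
      exact h7 (by linear_combination -g2)
  · have he : u4 ∉ Q := fun hq => by
      have h1 := (hvQ _ hq).1
      simp only [u4] at h1
      exact h6 (by linear_combination -h1)
    obtain ⟨k, hk⟩ := main u4 u5 u4_mem u5_mem he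
    obtain ⟨-, j2, j3, j4, j5⟩ := E1_mul_pow u5_mem u4_mem k
    obtain ⟨g1, g2⟩ := hvQ _ hk
    rw [j2, j3, j4] at g1
    rw [j2, j3, j4, j5] at g2
    simp only [u4, u5] at g1 g2
    have hk0 : (k : ZMod 3) = 0 := by
      have : (k : ZMod 3) * v.x6 = 0 := by linear_combination -g1
      exact (mul_eq_zero.1 this).resolve_right h6
    rw [hk0] at g2
    exact h6 (by linear_combination g2)

/-- elements of `X6` commute with `N5` modulo the centre -/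
theorem X6_N5_π_comm {c x : P} (hc : c ∈ N5) (hx : x ∈ X6) : Commute (π c) (π x) := by
  rw [N5_π_comm hc]
  obtain ⟨h1, h2, h3, h4⟩ := hx
  rw [h1, h2, h3, h4]
  refine ⟨by ring, by ring, by ring⟩

/-- (A2) -/
theorem caseA2 (h : Ctx Q A) (hSE : SE Q A Z2) (hW : Z2 ≤ Q) (hfix : ∀ a ∈ A, a u10 ∈ Z1)
    (hmov : ∃ a ∈ A, a u9 ∉ Z2) (hQ : Q ≤ E1) (hV : ∀ a ∈ A, a u9 ∈ X6) (hV5 : ∃ a ∈ A, a u9 ∉ N5) : False := by
  have hCV := CV_eq h hSE hW hfix hmov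
  have h5 : N5 ≤ Q := by
    intro x hx
    rw [← hCV, mem_CV]
    intro a ha
    exact X6_N5_π_comm hx (hV a ha)
  obtain ⟨a, ha, hau⟩ := hV5
  have h6 : u6 ∈ N5 := ⟨rfl, rfl, rfl, rfl, rfl⟩
  have h1 := central_of_le h hW hQ ha (h5 h6)
  have hE : a u9 ∈ E1 := (hV a ha).1
  have h2 := ((N5_E1_comm h6 hE).1 h1.symm).2
  obtain ⟨k1, k2, k3, k4⟩ := hV a ha
  simp only [u6, k2, k3, k4] at h2
  exact hau ⟨k1, k2, k3, k4, by linear_combination h2⟩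

/-- the case where the commutator map of `v` with `N5` has rank two -/
theorem exists_of_not_Rk1 {v : P} (hr : ¬ Rk1 v) : ∃ n ∈ N5,
    (v.x2 - v.x4) * n.x6 - v.x3 * n.x7 - v.x2 * n.x8 = 0 ∧
    (v.x5 + v.x3) * n.x6 + (v.x2 - v.x4) * n.x7 - v.x3 * n.x8 ≠ 0 := by
  by_contra hcon
  apply hr
  have key : ∀ n6 n7 n8 : ZMod 3, (v.x2 - v.x4) * n6 - v.x3 * n7 - v.x2 * n8 = 0 →
      (v.x5 + v.x3) * n6 + (v.x2 - v.x4) * n7 - v.x3 * n8 = 0 := by
    intro n6 n7 n8 h1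
    by_contra h2
    exact hcon ⟨⟨0, 0, 0, 0, 0, n6, n7, n8, 0, 0⟩, ⟨rfl, rfl, rfl, rfl, rfl⟩, h1, h2⟩
  refine ⟨?_, ?_, ?_⟩
  · have := key (-v.x3) (-(v.x2 - v.x4)) 0 (by ring)
    linear_combination this
  · have := key 0 (-v.x2) (v.x3) (by ring)
    linear_combination this
  · have := key (-v.x2) 0 (-(v.x2 - v.x4)) (by ring)
    linear_combination this

/-- (A3) -/
theorem caseA3 (T : T1W) (h : Ctx Q A) (hSE : SE Q A Z2) (hW : Z2 ≤ Q) (hfix : ∀ a ∈ A, a u10 ∈ Z1)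
    (hmov : ∃ a ∈ A, a u9 ∉ Z2) (hQ : Q ≤ E1) (hV : ∃ a ∈ A, a u9 ∉ X6) : False := by
  have hCV := CV_eq h hSE hW hfix hmov
  obtain ⟨a, ha, hau⟩ := hV
  have hvQ : a u9 ∈ Q := h.maps a ha _ (hW u9_mem)
  have hvE : a u9 ∈ E1 := hQ hvQ
  have hvY : a u9 ∉ Y7 := fun hY => hau (mem_X6_of_cube (cube_a h hW ha) hY)
  have hv2 : a u9 ∉ Z2 := fun h2 => hau ⟨h2.1, h2.2.1, h2.2.2.1, h2.2.2.2.1⟩
  have hcen : ∀ q ∈ Q, a u9 * q = q * a u9 := fun q hq => central_of_le h hW hQ ha hq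
  have h23 : (a u9).x2 ≠ 0 ∨ (a u9).x3 ≠ 0 := by
    by_contra hcon
    rw [not_or, not_not, not_not] at hcon
    exact hvY ⟨hvE, hcon.1, hcon.2⟩
  -- `N5` normalizes `Q`
  have hN : ∀ n ∈ N5, n ∈ normalizer (Q : Set P) := by
    intro n hn
    apply mem_normalizer_of
    intro q hq
    obtain ⟨w, hw, e⟩ := N5_E1_mul hn (hQ hq)
    have h1 : w * n = n * w := N5_comm (N5_of_Z2 hw) hn
    rw [e, mul_assoc q, ← h1, ← mul_assoc, mul_inv_cancel_right]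
    exact mul_mem hq (hW hw)
  -- the element `y`
  obtain ⟨y, hy5, hyv⟩ : ∃ y ∈ N5, ¬ y * a u9 = a u9 * y := by
    rcases h23 with h2 | h3
    · refine ⟨u8, ⟨rfl, rfl, rfl, rfl, rfl⟩, fun hc => h2 ?_⟩
      have := ((N5_E1_comm ⟨rfl, rfl, rfl, rfl, rfl⟩ hvE).1 hc).1
      simp only [u8] at this
      linear_combination -this
    · refine ⟨u7, ⟨rfl, rfl, rfl, rfl, rfl⟩, fun hc => h3 ?_⟩
      have := ((N5_E1_comm ⟨rfl, rfl, rfl, rfl, rfl⟩ hvE).1 hc).1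
      simp only [u7] at this
      linear_combination -this
  have hyQ : y ∉ Q := fun hq => hyv (hcen y hq).symm
  obtain ⟨T1, T2⟩ := T1_nine T h hSE hW hfix hmov (hN y hy5) hyQ (fun b hb => by
    have hbE : b u9 ∈ E1 := hQ (h.maps b hb _ (hW u9_mem))
    obtain ⟨w, hw, e⟩ := N5_E1_mul hy5 hbE
    refine ⟨w, hw, ?_⟩
    have h1 : w * y = y * w := N5_comm (N5_of_Z2 hw) hy5
    rw [e, mul_assoc (b u9), ← h1, ← mul_assoc, mul_inv_cancel_right])
  -- `Q` is the centralizer of `a u9`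
  have hQ1 : ∀ x : P, Commute (π x) (π (a u9)) → x ∈ Q := by
    intro x hx
    rw [← hCV, mem_CV]
    intro b hb
    obtain ⟨i, j, z, hz, e⟩ := T1 a ha hv2 b hb
    rw [e, map_mul, map_mul, map_pow, map_pow, π_of_mem hz, mul_one]
    exact (hx.pow_right i).mul_right ((u9_π_comm x).symm.pow_right j)
  have hQ2 : ∀ x : P, x * a u9 = a u9 * x → x ∈ Q := fun x hx => hQ1 x (Commute.map hx π)
  by_cases hr : Rk1 (a u9)
  · obtain ⟨r1, r2, r3⟩ := hr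
    have hv2' : (a u9).x2 ≠ 0 := by
      intro h0
      rw [h0] at r2 h23
      have : (a u9).x3 = 0 := by
        have h4 : (a u9).x3 ^ 2 = 0 := by linear_combination -r2
        exact pow_eq_zero_iff (two_ne_zero) |>.1 h4
      rcases h23 with h5 | h5
      · exact h5 rfl
      · exact h5 this
    -- `a u9 * u4 = u4 * a u9 * c`
    have e1 := E1_mul (a u9) u4 hvE u4_mem
    have hc5 := ce_mem (a u9) u4
    have hcx6 : (ce (a u9) u4).x6 = 0 := by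
      simp only [ce, u4]; ring
    have hcx7 : (ce (a u9) u4).x7 = (a u9).x2 := by
      simp only [ce, u4]; ring
    have hcx8 : (ce (a u9) u4).x8 = (a u9).x5 + (a u9).x3 := by
      simp only [ce, u4]; ring
    have h53 : (a u9).x5 = (a u9).x3 := by
      clear hcx6 hcx7 hcx8
      generalize (a u9).x2 = v2 at r2 r3 r1 hv2'
      generalize (a u9).x3 = v3 at r1 r2 r3 ⊢
      generalize (a u9).x4 = v4 at r1 r2 r3
      generalize (a u9).x5 = v5 at r1 r3 ⊢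
      clear hc5 e1
      revert v2 v3 v4 v5
      decide
    have hcQ : ce (a u9) u4 ∈ Q := by
      apply hQ2
      rw [N5_E1_comm hc5 hvE, hcx6, hcx7, hcx8]
      have h3 : (3 : ZMod 3) = 0 := rfl
      constructor
      · rw [h53]
        linear_combination (-(a u9).x3 * (a u9).x2) * h3
      · rw [h53]
        linear_combination -r2 - (a u9).x3 ^ 2 * h3
    have hcoord : ∀ x ∈ Q, x.x5 * (a u9).x2 = (a u9).x5 * x.x2 ∧
        x.x5 * (a u9).x3 - x.x4 * (a u9).x2 - (a u9).x5 * x.x3 + (a u9).x4 * x.x2 = 0 ∧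
        x.x5 * (a u9).x4 - x.x4 * (a u9).x3 - (a u9).x5 * x.x4 + (a u9).x4 * x.x3 = 0 := by
      intro x hx
      have h1 := E1_mul x (a u9) (hQ hx) hvE
      rw [hcen x hx, left_eq_mul] at h1
      have h6 : (ce x (a u9)).x6 = 0 := by rw [h1]; rfl
      have h7 : (ce x (a u9)).x7 = 0 := by rw [h1]; rfl
      have h8 : (ce x (a u9)).x8 = 0 := by rw [h1]; rfl
      simp only [ce] at h6 h7 h8
      exact ⟨by linear_combination h6, h7, h8⟩
    have hu4 : u4 ∈ normalizer (Q : Set P) := by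
      apply mem_normalizer_of'
      intro q hq
      obtain ⟨h6, h7, h8⟩ := hcoord q hq
      obtain ⟨k, k2, k3, k4, k5⟩ := rank1_cent h23 ⟨r1, r2, r3⟩ h6 h7 h8
      obtain ⟨i1, i2, i3, i4, i5⟩ := E1_pow hvE k.val
      rw [ZMod.natCast_zmod_val] at i2 i3 i4 i5
      have e2 := exists_N5 q (a u9 ^ k.val) ((hQ hq : q.x1 = 0).trans i1.symm) (k2.trans i2.symm) (k3.trans i3.symm)
        (k4.trans i4.symm) (k5.trans i5.symm)
      generalize hn : (⟨0, 0, 0, 0, 0, q.x6 - (a u9 ^ k.val).x6, q.x7 - (a u9 ^ k.val).x7, q.x8 - (a u9 ^ k.val).x8,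
        q.x9 - (a u9 ^ k.val).x9, q.x10 - (a u9 ^ k.val).x10⟩ : P) = n at e2
      have hn5 : n ∈ N5 := by rw [← hn]; exact ⟨rfl, rfl, rfl, rfl, rfl⟩
      have hnQ : n ∈ Q := by
        have : n = (a u9 ^ k.val)⁻¹ * q := by rw [e2, inv_mul_cancel_left]
        rw [this]
        exact mul_mem (inv_mem (pow_mem hvQ _)) hq
      obtain ⟨w, hw, e3⟩ := N5_E1_mul hn5 u4_mem
      have e4 : u4⁻¹ * a u9 * u4 = a u9 * ce (a u9) u4 := by
        rw [mul_assoc, e1, mul_assoc, inv_mul_cancel_left]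
      have e5 : u4⁻¹ * a u9 ^ k.val * u4 = (a u9 * ce (a u9) u4) ^ k.val := by
        rw [← e4]
        have := conj_pow (i := k.val) (a := u4⁻¹) (b := a u9)
        rw [inv_inv] at this
        exact this.symm
      have e6 : u4⁻¹ * n * u4 = n * w := by
        rw [mul_assoc, e3, mul_assoc, inv_mul_cancel_left]
      have e7 : u4⁻¹ * q * u4 = (u4⁻¹ * a u9 ^ k.val * u4) * (u4⁻¹ * n * u4) := by
        rw [e2]; group
      rw [e7, e5, e6]
      exact mul_mem (pow_mem (mul_mem hvQ hcQ) _) (mul_mem hnQ (hW hw))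
    obtain ⟨k, hk⟩ := T2 u4 hu4
    obtain ⟨-, h7, -⟩ := hcoord _ hk
    have hyE : y ∈ E1 := hy5.1
    obtain ⟨-, j2, j3, j4, j5⟩ := E1_mul_pow u4_mem hyE k
    obtain ⟨-, y2, y3, y4, y5⟩ := hy5
    rw [j2, j3, j4, j5, y2, y3, y4, y5] at h7
    simp only [u4] at h7
    exact hv2' (by linear_combination -h7)
  · obtain ⟨n, hn, e9, e10⟩ := exists_of_not_Rk1 hr
    have hnQ : n ∈ Q := by
      apply hQ1
      rw [N5_π_comm hn]
      rw [mem_E1] at hvE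
      rw [hvE]
      refine ⟨by ring, by ring, by linear_combination e9⟩
    have := ((N5_E1_comm hn hvE).1 (hcen n hnQ).symm).2
    exact e10 this

end Cfsg.Agent.H835.Th2
end

-- part: H835/Th2/CaseB
section
/-!
Theorem II, case B: `Q` is not contained in `E1`.
-/

set_option autoImplicit false
set_option linter.style.longLine false

namespace Cfsg.Agent.H835.Th2

open Cfsg.Agent.H776.ThS Subgroup

variable {Q : Subgroup P} {A : Set (P → P)}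

theorem X6_π_comm {x y : P} (hx : x ∈ X6) (hy : y ∈ X6) : Commute (π x) (π y) := by
  rw [π_comm]
  refine ⟨ce x y, ?_, E1_mul x y hx.1 hy.1⟩
  obtain ⟨x1, x2, x3, x4⟩ := hx
  obtain ⟨y1, y2, y3, y4⟩ := hy
  refine ⟨rfl, rfl, rfl, rfl, rfl, ?_, ?_, ?_, ?_⟩
  · simp [ce, x2, y2]
  · simp [ce, x2, x3, x4, y2, y3, y4]
  · simp [ce, x3, x4, y3, y4]
  · simp only [ce]
    rw [mulE_x9 x y y1, mulE_x9 y x x1, x2, x3, x4, y2, y3, y4]
    ring

theorem pow_x1 (v : P) (k : ℕ) : (v ^ k).x1 = k * v.x1 := by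
  induction k with
  | zero => rw [pow_zero, Nat.cast_zero, zero_mul]; rfl
  | succ k ih => rw [pow_succ, mul_x1, ih, Nat.cast_succ]; ring

/-- modulo `E1` everything is a power of `v` -/
theorem exists_pow_E1 {v : P} (hv : v.x1 ≠ 0) (x : P) : ∃ k : ℕ, ∃ y ∈ E1, x = v ^ k * y := by
  refine ⟨(x.x1 / v.x1).val, (v ^ (x.x1 / v.x1).val)⁻¹ * x, ?_, by group⟩
  have h1 : v ^ (x.x1 / v.x1).val * ((v ^ (x.x1 / v.x1).val)⁻¹ * x) = x := by group
  have h2 := congrArg V.x1 h1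
  rw [mul_x1, pow_x1, ZMod.natCast_zmod_val, div_mul_cancel₀ _ hv] at h2
  rw [mem_E1]
  linear_combination h2

/-- (B1) -/
theorem caseB1 (h : Ctx Q A) (hSE : SE Q A Z2) (hcore : Core Q A) (hW : Z2 ≤ Q) (hfix : ∀ a ∈ A, a u10 ∈ Z1)
    (hmov : ∃ a ∈ A, a u9 ∉ Z2) (hV : ∃ a ∈ A, a u9 ∉ E1) : False := by
  have hCV := CV_eq h hSE hW hfix hmov
  obtain ⟨a, ha, hau⟩ := hV
  have hvQ : a u9 ∈ Q := h.maps a ha _ (hW u9_mem)
  have hv3 := cube_a h hW ha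
  have hvE2 : a u9 ∈ E2 := mem_E2_of_cube hv3 hau
  have hv1 : (a u9).x1 ≠ 0 := hau
  -- elements commuting with `a u9` modulo the centre
  have hX : ∀ x ∈ E1, Commute (π x) (π (a u9)) → x ∈ X6 := by
    intro x hx hc
    obtain ⟨z, hz, e⟩ := π_comm.1 hc
    exact cent_E2E1 hau hvE2 hv3 hx hz e
  have hdec : ∀ x : P, Commute (π x) (π (a u9)) → ∃ k : ℕ, ∃ y ∈ X6, x = a u9 ^ k * y := by
    intro x hx
    obtain ⟨k, y, hy, e⟩ := exists_pow_E1 hv1 x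
    refine ⟨k, y, hX y hy ?_, e⟩
    have h1 : y = (a u9 ^ k)⁻¹ * x := by rw [e]; group
    rw [h1, map_mul, map_inv, map_pow]
    exact ((Commute.refl (π (a u9))).pow_left k).inv_left.mul_left hx
  have hcomm : ∀ x y : P, Commute (π x) (π (a u9)) → Commute (π y) (π (a u9)) → Commute (π x) (π y) := by
    intro x y hx hy
    obtain ⟨k, x', hx', e⟩ := hdec x hx
    have h1 : Commute (π x') (π (a u9)) := by
      have h1 : x' = (a u9 ^ k)⁻¹ * x := by rw [e]; group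
      rw [h1, map_mul, map_inv, map_pow]
      exact ((Commute.refl (π (a u9))).pow_left k).inv_left.mul_left hx
    obtain ⟨l, y', hy', e'⟩ := hdec y hy
    have h2 : Commute (π x') (π y) := by
      rw [e', map_mul, map_pow]
      exact (h1.pow_right l).mul_right (X6_π_comm hx' hy')
    rw [e, map_mul, map_pow]
    exact (hy.symm.pow_left k).mul_left h2
  have hQ1 : ∀ x : P, Commute (π x) (π (a u9)) → x ∈ Q := by
    intro x hx
    rw [← hCV, mem_CV]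
    intro b hb
    apply hcomm x _ hx
    have hbQ : b u9 ∈ Q := h.maps b hb _ (hW u9_mem)
    rw [← hCV] at hbQ
    exact hbQ a ha
  have hQ2 : ∀ x ∈ Q, Commute (π x) (π (a u9)) := by
    intro x hx
    rw [← hCV] at hx
    exact hx a ha
  -- the element `c`
  have h75 : u7 ∈ N5 := ⟨rfl, rfl, rfl, rfl, rfl⟩
  have hvE2' : (a u9).x2 = 0 := hvE2
  obtain ⟨c, hc⟩ : ∃ c : P, c = ⟨0, 0, 0, 0, 0, 0, 0, -(a u9).x1, -(a u9).x3, -(a u9).x4 + (a u9).x1 * (a u9).x3⟩ :=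
    ⟨_, rfl⟩
  have hc3 : c ∈ Z3 := by rw [hc]; exact ⟨rfl, rfl, rfl, rfl, rfl, rfl, rfl⟩
  have e7 : u7 * a u9 = a u9 * (u7 * c) := by
    rw [N5_mul _ _ h75, mul_right_inj, mulN _ _ (N5_of_Z3 hc3), hc]
    ext <;> simp [cx, u7, hvE2']
  have hcu7 : c * u7 = u7 * c := N5_comm (N5_of_Z3 hc3) h75
  have e7' : u7 * a u9 * u7⁻¹ = a u9 * c := by
    rw [e7, ← hcu7, ← mul_assoc, mul_inv_cancel_right]
  have hcv : c * a u9 = a u9 * c := by
    rw [comm_iff (N5_of_Z3 hc3), hc]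
    ext
    all_goals simp only [cx, hvE2']
    all_goals ring
  have hcX : ∀ x ∈ X6, c * x = x * c := fun x hx => Z3_comm hc3 hx.1 hx.2.1 hx.2.2.1
  have hcQ : ∀ q ∈ Q, c * q = q * c := by
    intro q hq
    obtain ⟨k, y, hy, rfl⟩ := hdec q (hQ2 q hq)
    have h1 : Commute c (a u9 ^ k) := Commute.pow_right hcv k
    rw [← mul_assoc, h1.eq, mul_assoc, hcX y hy, mul_assoc]
  have h7X : ∀ x ∈ X6, u7 * x = x * u7 := by
    intro x hx
    rw [comm_iff h75]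
    obtain ⟨x1, x2, x3, x4⟩ := hx
    ext <;> simp [cx, u7, x1, x2, x3, x4]
  -- `u7` acts on `Q`
  have hact : ∀ q ∈ Q, ∃ k : ℕ, u7 * q * u7⁻¹ = q * c ^ k := by
    intro q hq
    obtain ⟨k, y, hy, rfl⟩ := hdec q (hQ2 q hq)
    refine ⟨k, ?_⟩
    have h1 : u7 * (a u9 ^ k * y) * u7⁻¹ = (u7 * a u9 ^ k * u7⁻¹) * (u7 * y * u7⁻¹) := by group
    have h2 : u7 * y * u7⁻¹ = y := by rw [h7X y hy, mul_inv_cancel_right]
    have h3 : Commute (a u9) c := hcv.symm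
    have h4 : Commute (c ^ k) y := Commute.pow_left (hcX y hy) k
    rw [h1, h2, ← conj_pow, e7', h3.mul_pow, mul_assoc, h4.eq, mul_assoc]
  have hcQ' : c ∈ Q := hQ1 c (Commute.map hcv π)
  have h7N : u7 ∈ normalizer (Q : Set P) := by
    apply mem_normalizer_of
    intro q hq
    obtain ⟨k, e⟩ := hact q hq
    rw [e]
    exact mul_mem hq (pow_mem hcQ' k)
  -- the centre of `Q`
  have h7Q : u7 ∈ Q := by
    refine hcore (Q ⊓ centralizer (Q : Set P)) inf_le_left ?_ u7 h7N ?_ ?_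
    · rintro b hb d ⟨hdQ, hdc⟩
      refine ⟨h.maps b hb d hdQ, mem_centralizer_iff.2 ?_⟩
      intro q hq
      obtain ⟨g, hg, hi⟩ := h.inv b hb
      have hgq := h.maps g hg q hq
      rw [← (hi q hq).2, ← h.mul b hb _ hgq _ hdQ, ← h.mul b hb _ hdQ _ hgq, mem_centralizer_iff.1 hdc _ hgq]
    · intro q hq
      obtain ⟨k, e⟩ := hact q hq
      have h1 : u7 * q * u7⁻¹ * q⁻¹ = c ^ k := by
        have h2 : Commute (c ^ k) q := Commute.pow_left (hcQ q hq) k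
        rw [e, ← h2.eq, mul_inv_cancel_right]
      have h3 : c ∈ Q ⊓ centralizer (Q : Set P) :=
        ⟨hcQ', mem_centralizer_iff.2 fun q' hq' => (hcQ q' hq').symm⟩
      rw [h1]
      exact pow_mem h3 k
    · rintro d ⟨hdQ, hdc⟩
      apply h7X
      apply hX d ?_ (hQ2 d hdQ)
      have h1 := mem_centralizer_iff.1 hdc u9 (hW u9_mem)
      rw [comm_iff (N5_of_Z2 u9_mem)] at h1
      have h2 : (cx u9 d).x10 = 0 := by rw [h1]; rfl
      simp only [cx, u9] at h2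
      rw [mem_E1]
      linear_combination h2
  have := ((N5_π_comm h75).1 (hQ2 u7 h7Q)).2.1
  simp only [u7] at this
  exact hv1 (by linear_combination this)

/-- (B2) -/
theorem caseB2 (T : T1W) (h : Ctx Q A) (hSE : SE Q A Z2) (hW : Z2 ≤ Q) (hfix : ∀ a ∈ A, a u10 ∈ Z1)
    (hmov : ∃ a ∈ A, a u9 ∉ Z2) (hV : ∀ a ∈ A, a u9 ∈ E1) (hq : ∃ q ∈ Q, q ∉ E1) :
    Q = E2 ∧ ∀ a ∈ A, a u9 ∈ Z3 := by
  have hCV := CV_eq h hSE hW hfix hmov
  obtain ⟨q, hqQ, hqE⟩ := hq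
  have hq1 : q.x1 ≠ 0 := hqE
  have hcm : ∀ a ∈ A, ∀ x ∈ Q, Commute (π x) (π (a u9)) := by
    intro a ha x hx
    rw [← hCV] at hx
    exact hx a ha
  have hX : ∀ a ∈ A, a u9 ∈ X6 := by
    intro a ha
    apply mem_X6_of_cube (cube_a h hW ha)
    obtain ⟨z, hz, e⟩ := π_comm.1 (hcm a ha q hqQ)
    obtain ⟨e3, e4, -⟩ := coordsZ hz e
    have hv1 : (a u9).x1 = 0 := hV a ha
    rw [mul_x3, mul_x3, hv1] at e3
    have hv2 : (a u9).x2 = 0 := by
      have : (a u9).x2 * q.x1 = 0 := by linear_combination -e3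
      exact (mul_eq_zero.1 this).resolve_right hq1
    rw [mul_x4, mul_x4, hv1, hv2] at e4
    have hv3 : (a u9).x3 = 0 := by
      have : (a u9).x3 * q.x1 = 0 := by linear_combination e4
      exact (mul_eq_zero.1 this).resolve_right hq1
    exact ⟨hv1, hv2, hv3⟩
  have hZ3 : ∀ a ∈ A, a u9 ∈ N5 → a u9 ∈ Z3 := by
    intro a ha h5
    obtain ⟨g1, g2, -⟩ := (N5_π_comm h5).1 (hcm a ha q hqQ).symm
    have h6 : (a u9).x6 = 0 := (mul_eq_zero.1 g1).resolve_left hq1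
    rw [h6, mul_zero] at g2
    have h7 : (a u9).x7 = 0 := (mul_eq_zero.1 g2).resolve_left hq1
    exact ⟨h5.1, h5.2.1, h5.2.2.1, h5.2.2.2.1, h5.2.2.2.2, h6, h7⟩
  by_cases hE2 : Q ≤ E2
  · by_cases hZ : ∀ a ∈ A, a u9 ∈ Z3
    · refine ⟨le_antisymm hE2 ?_, hZ⟩
      intro x hx
      rw [← hCV, mem_CV]
      intro a ha
      apply Commute.symm
      rw [N5_π_comm (N5_of_Z3 (hZ a ha))]
      obtain ⟨v1, v2, v3, v4, v5, v6, v7⟩ := hZ a ha
      have hx2 : x.x2 = 0 := hx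
      rw [v6, v7, hx2]
      refine ⟨by ring, by ring, by ring⟩
    · exfalso
      push Not at hZ
      obtain ⟨a, ha, haZ⟩ := hZ
      have hq2 : q.x2 = 0 := hE2 hqQ
      have hv5 : (a u9).x5 ≠ 0 := by
        intro h5
        obtain ⟨k1, k2, k3, k4⟩ := hX a ha
        exact haZ (hZ3 a ha ⟨k1, k2, k3, k4, h5⟩)
      -- coordinates
      have hco : ∀ b ∈ A, (b u9).x6 * q.x1 + (b u9).x5 * q.x3 = 0 := by
        intro b hb
        obtain ⟨z, hz, e⟩ := π_comm.1 (hcm b hb q hqQ)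
        obtain ⟨-, -, -, -, e7, -⟩ := coordsZ hz e
        obtain ⟨k1, k2, k3, k4⟩ := hX b hb
        rw [mul_x7, mul_x7, k1, k2, k3, k4, hq2] at e7
        linear_combination -e7
      -- the commutator with `u4`
      have hd : ∀ v ∈ X6, ce u4 v ∈ Z3 ∧ (ce u4 v).x8 = -v.x5 ∧ (ce u4 v).x9 = v.x6 ∧
          u4 * v * u4⁻¹ = v * ce u4 v := by
        rintro v ⟨k1, k2, k3, k4⟩
        have hz : ce u4 v ∈ Z3 := by
          refine ⟨rfl, rfl, rfl, rfl, rfl, ?_, ?_⟩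
          · simp [ce, u4, k2]
          · simp [ce, u4, k2, k3]
        refine ⟨hz, ?_, ?_, ?_⟩
        · simp [ce, u4, k3, k4]
        · simp only [ce]
          rw [mulE_x9 u4 v k1, mulE_x9 v u4 rfl, k2, k3, k4]
          simp only [u4]
          ring
        · have e1 := E1_mul u4 v u4_mem k1
          have e2 : ce u4 v * u4 = u4 * ce u4 v := Z3_comm hz rfl rfl rfl
          rw [e1, mul_assoc v, ← e2, ← mul_assoc, mul_inv_cancel_right]
      obtain ⟨hr3, hr8, hr9, hre⟩ := hd (a u9) (hX a ha)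
      have h4Q : u4 ∉ Q := by
        intro hc
        obtain ⟨z, hz, e⟩ := π_comm.1 (hcm a ha u4 hc)
        rw [E1_mul u4 (a u9) u4_mem (hV a ha), mul_right_inj] at e
        rw [← e] at hz
        apply hv5
        have := hz.2.2.2.2.2.2.2.1
        rw [hr8, neg_eq_zero] at this
        exact this
      have h4N : u4 ∈ normalizer (Q : Set P) := by
        apply mem_normalizer_of'
        intro x hx
        rw [← hCV, mem_CV]
        intro b hb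
        obtain ⟨hs3, -, -, hse⟩ := hd (b u9) (hX b hb)
        have h1 : Commute (π x) (π (u4 * b u9 * u4⁻¹)) := by
          rw [hse, map_mul]
          refine (hcm b hb x hx).mul_right (Commute.symm ?_)
          rw [N5_π_comm (N5_of_Z3 hs3)]
          have hx2 : x.x2 = 0 := hE2 hx
          rw [hs3.2.2.2.2.2.1, hs3.2.2.2.2.2.2, hx2]
          refine ⟨by ring, by ring, by ring⟩
        rw [π_comm_bracket] at h1 ⊢
        have h2 : u4⁻¹ * x * u4 * b u9 * (u4⁻¹ * x * u4)⁻¹ * (b u9)⁻¹ =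
            u4⁻¹ * (x * (u4 * b u9 * u4⁻¹) * x⁻¹ * (u4 * b u9 * u4⁻¹)⁻¹) * u4⁻¹⁻¹ := by group
        rw [h2]
        exact Z1_normal.conj_mem _ h1 _
      have hrpow : ∀ k : ℕ, ce u4 (a u9) ^ k = ⟨0, 0, 0, 0, 0, 0, 0, k * (ce u4 (a u9)).x8, k * (ce u4 (a u9)).x9,
          k * (ce u4 (a u9)).x10⟩ := by
        intro k
        induction k with
        | zero =>
          rw [pow_zero, Nat.cast_zero, zero_mul, zero_mul, zero_mul]
          rfl
        | succ k ih =>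
          rw [pow_succ, ih, mulN _ _ (N5_of_Z3 hr3), hr3.2.2.2.2.2.1, hr3.2.2.2.2.2.2, Nat.cast_succ]
          ext
          all_goals simp only [add_zero]
          all_goals ring
      have hT := (T h hSE hW hfix hmov (y := u4) (r := ce u4 (a u9)) h4N h4Q ?_ ?_ ?_ ?_).1
      · apply hv5
        have := hT.2.2.2.2.2.2.2
        rw [hr8, neg_eq_zero] at this
        exact this
      · have h1 : ce u4 (a u9) = (a u9)⁻¹ * (u4 * a u9 * u4⁻¹) := by rw [hre, inv_mul_cancel_left]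
        rw [h1]
        exact mul_mem (inv_mem (subset_closure (Or.inr ⟨a, ha, rfl⟩)))
          (subset_closure (Or.inr ⟨_, h.comp _ (h.conj u4 h4N) a ha, rfl⟩))
      · rw [hrpow]
        have h3 : ((3 : ℕ) : ZMod 3) = 0 := rfl
        rw [h3, zero_mul, zero_mul, zero_mul]
        exact ⟨rfl, rfl, rfl, rfl, rfl, rfl, rfl, rfl, rfl⟩
      · have e2 : ce u4 (a u9) * u4 = u4 * ce u4 (a u9) := Z3_comm hr3 rfl rfl rfl
        rw [← e2, mul_inv_cancel_right, mul_inv_cancel]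
        exact one_mem _
      · intro b hb
        obtain ⟨hs3, hs8, hs9, hse⟩ := hd (b u9) (hX b hb)
        have ca := hco a ha
        have cb := hco b hb
        refine ⟨((b u9).x5 / (a u9).x5).val, ⟨0, 0, 0, 0, 0, 0, 0, 0, 0, (ce u4 (b u9)).x10 -
          (b u9).x5 / (a u9).x5 * (ce u4 (a u9)).x10⟩, ⟨rfl, rfl, rfl, rfl, rfl, rfl, rfl, rfl, rfl⟩, ?_⟩
        rw [hse, mul_assoc (b u9), mul_right_inj, hrpow, mulN _ _ ⟨rfl, rfl, rfl, rfl, rfl⟩, ZMod.natCast_zmod_val]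
        obtain ⟨s1, s2, s3, s4, s5, s6, s7⟩ := hs3
        have hk : (b u9).x5 / (a u9).x5 * (a u9).x5 = (b u9).x5 := div_mul_cancel₀ _ hv5
        ext
        · exact s1
        · exact s2
        · exact s3
        · exact s4
        · exact s5
        · rw [s6]; simp
        · rw [s7]; simp
        · simp only [hs8, hr8, add_zero]
          linear_combination hk
        · simp only [hs9, hr9, add_zero]
          have : ((b u9).x6 - (b u9).x5 / (a u9).x5 * (a u9).x6) * q.x1 = 0 := by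
            linear_combination cb - (b u9).x5 / (a u9).x5 * ca + q.x3 * hk
          have h0 := (mul_eq_zero.1 this).resolve_right hq1
          linear_combination h0
        · simp
  · exfalso
    obtain ⟨x, hxQ, hxE⟩ := SetLike.not_le_iff_exists.1 hE2
    have hx2 : x.x2 ≠ 0 := hxE
    obtain ⟨a, ha, hau⟩ := hmov
    apply hau
    obtain ⟨k1, k2, k3, k4⟩ := hX a ha
    have hv5 : (a u9).x5 = 0 := by
      obtain ⟨z, hz, e⟩ := π_comm.1 (hcm a ha x hxQ)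
      obtain ⟨-, -, -, e6, -⟩ := coordsZ hz e
      rw [mul_x6, mul_x6, k1, k2] at e6
      have : (a u9).x5 * x.x2 = 0 := by linear_combination -e6
      exact (mul_eq_zero.1 this).resolve_right hx2
    have h5 : a u9 ∈ N5 := ⟨k1, k2, k3, k4, hv5⟩
    have h3 := hZ3 a ha h5
    have g3 := ((N5_π_comm h5).1 (hcm a ha x hxQ).symm).2.2
    have h6 := h3.2.2.2.2.2.1
    have h7 := h3.2.2.2.2.2.2
    rw [h6, h7] at g3
    have h8 : (a u9).x8 = 0 := by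
      have : x.x2 * (a u9).x8 = 0 := by linear_combination -g3
      exact (mul_eq_zero.1 this).resolve_left hx2
    exact ⟨k1, k2, k3, k4, hv5, h6, h7, h8⟩

/-- Theorem II, from `t1w` -/
theorem thmII_of (T : T1W) (h : Ctx Q A) (hSE : SE Q A Z2) (hcore : Core Q A) (hW : Z2 ≤ Q)
    (hfix : ∀ a ∈ A, a u10 ∈ Z1) (hmov : ∃ a ∈ A, a u9 ∉ Z2) :
    Q = E2 ∧ ∀ a ∈ A, ∀ w ∈ Z2, a w ∈ Z3 := by
  have key : Q = E2 ∧ ∀ a ∈ A, a u9 ∈ Z3 := by
    by_cases hQ : Q ≤ E1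
    · exfalso
      by_cases h6 : ∀ a ∈ A, a u9 ∈ X6
      · by_cases h5 : ∀ a ∈ A, a u9 ∈ N5
        · exact caseA1 T h hSE hW hfix hmov hQ h5
        · push Not at h5
          exact caseA2 h hSE hW hfix hmov hQ h6 h5
      · push Not at h6
        exact caseA3 T h hSE hW hfix hmov hQ h6
    · by_cases hV : ∀ a ∈ A, a u9 ∈ E1
      · exact caseB2 T h hSE hW hfix hmov hV (SetLike.not_le_iff_exists.1 hQ)
      · push Not at hV
        exact (caseB1 h hSE hcore hW hfix hmov hV).elim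
  refine ⟨key.1, fun a ha w hw => ?_⟩
  obtain ⟨k, z, hz, rfl⟩ := exists_pow_of_Z2 hw
  have h9 : u9 ∈ Q := hW u9_mem
  rw [h.mul a ha _ (pow_mem h9 k) _ (hW (Z2_of_Z1 hz)), h.map_pow ha h9]
  exact mul_mem (pow_mem (key.2 a ha) k) (Z3_of_Z2 (Z2_of_Z1 (map_Z1 h hW hfix ha hz)))

end Cfsg.Agent.H835.Th2
end

-- part: H587/TO/Core
section
/-!
# An orbit of lines moved by transvections, over the field of three elements (helper587)
-/

set_option autoImplicit false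
set_option linter.style.haveILetI false

namespace Cfsg.Agent.H587.TO

section Core

variable {A V : Type*} [Group A] [AddCommGroup V] [Module (ZMod 3) V]

theorem core (ρ : A →* (V →ₗ[ZMod 3] V)) (B : Set A)
    (hB : ∀ b ∈ B, ∀ a, a * b * a⁻¹ ∈ B) (w : V)
    (hSE : ∀ u ∈ B, ∀ a b : A, (∃ c : ZMod 3, ρ (u * a) w = c • ρ a w) →
      (∃ c : ZMod 3, ρ (u * b) w = c • ρ b w) → ∃ c : ZMod 3, ρ b w = c • ρ a w)
    (hmov : ∃ a, ∀ c : ZMod 3, ρ a w ≠ c • w)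
    (y : A) (hy : y ∈ B) (hyw : ρ y w = w) (r : V) (hyr : ρ y r = r)
    (hyv : ∀ a, ∃ k : ZMod 3, ρ (y * a) w = ρ a w + k • r) :
    (∃ c : ZMod 3, r = c • w) ∧
    (∀ a, (∀ c : ZMod 3, ρ a w ≠ c • w) → ∀ b, ∃ i j : ZMod 3, ρ b w = i • ρ a w + j • w) ∧
    (∀ a, (∀ c : ZMod 3, ρ a w ≠ c • w) → ∀ i j : ZMod 3, ∃ b, ∃ c : ZMod 3, i • ρ a w + j • w = c • ρ b w) ∧
    (∀ n : A, (∃ c : ZMod 3, ρ n w = c • w) → ∃ k : ℕ, n * y ^ k ∉ B) := by
  have h22 : (2 : ZMod 3) * 2 = 1 := by decide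
  haveI : Fact (Nat.Prime 3) := ⟨Nat.prime_three⟩
  have hmul : ∀ (a b : A) (v : V), ρ (a * b) v = ρ a (ρ b v) := fun a b v => by rw [map_mul]; rfl
  have hone : ∀ v : V, ρ 1 v = v := fun v => by rw [map_one]; rfl
  have hinv : ∀ (a : A) (v : V), ρ a (ρ a⁻¹ v) = v := fun a v => by
    rw [← hmul, mul_inv_cancel, hone]
  have hinv' : ∀ (a : A) (v : V), ρ a⁻¹ (ρ a v) = v := fun a v => by
    rw [← hmul, inv_mul_cancel, hone]
  -- (1)
  have h1 : ∀ (a : A) (k : ZMod 3), (∀ c : ZMod 3, ρ a w ≠ c • w) → ρ (y * a) w = ρ a w + k • r → k • r ≠ 0 := by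
    intro a k ha hk h0
    obtain ⟨c, hc⟩ := hSE y hy 1 a ⟨1, by rw [mul_one, hyw, hone, one_smul]⟩
      ⟨1, by rw [hk, h0, add_zero, one_smul]⟩
    rw [hone] at hc
    exact ha c hc
  have hr0 : r ≠ 0 := by
    obtain ⟨a, ha⟩ := hmov
    obtain ⟨k, hk⟩ := hyv a
    intro h
    exact h1 a k ha hk (by rw [h, smul_zero])
  have hpow : ∀ (n : ℕ), ρ (y ^ n) r = r := by
    intro n
    induction n with
    | zero => rw [pow_zero, hone]
    | succ n ih => rw [pow_succ, hmul, hyr, ih]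
  have hpow2 : ∀ (a : A) (k : ZMod 3), ρ (y * a) w = ρ a w + k • r → ∀ n : ℕ,
      ρ (y ^ n * a) w = ρ a w + ((n : ZMod 3) * k) • r := by
    intro a k hk n
    induction n with
    | zero => rw [pow_zero, one_mul, Nat.cast_zero, zero_mul, zero_smul, add_zero]
    | succ n ih =>
      rw [pow_succ', mul_assoc, hmul, ih, map_add, map_smul, hyr, ← hmul, hk]
      push_cast
      rw [add_mul, one_mul, add_smul]
      abel
  -- all `o(a) + j r` are in the orbit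
  have horb : ∀ a, (∀ c : ZMod 3, ρ a w ≠ c • w) → ∀ j : ZMod 3, ∃ b, ρ b w = ρ a w + j • r := by
    intro a ha j
    obtain ⟨k, hk⟩ := hyv a
    have hk0 : k ≠ 0 := by
      rintro rfl
      exact h1 a 0 ha hk (zero_smul _ _)
    refine ⟨y ^ (j * k⁻¹).val * a, ?_⟩
    rw [hpow2 a k hk, ZMod.natCast_zmod_val, mul_assoc, inv_mul_cancel₀ hk0, mul_one]
  -- `r ∉ <p>`
  have hrp : ∀ a, (∀ c : ZMod 3, ρ a w ≠ c • w) → ∀ c : ZMod 3, r ≠ c • ρ a w := by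
    intro a ha c hc
    obtain ⟨k, hk⟩ := hyv a
    obtain ⟨d, hd⟩ := hSE y hy 1 a ⟨1, by rw [mul_one, hyw, hone, one_smul]⟩
      ⟨1 + k * c, by rw [hk, add_smul, one_smul, mul_smul, ← hc]⟩
    rw [hone] at hd
    exact ha d hd
  -- (2), (3)
  have key : ∀ a, (∀ c : ZMod 3, ρ a w ≠ c • w) → ∀ b, (∀ c : ZMod 3, ρ b w ≠ c • w) →
      ∃ i j : ZMod 3, ρ b w = i • ρ a w + j • r := by
    intro a ha b hb
    set y' := a * y * a⁻¹ with hy'
    have hy'B : y' ∈ B := hB y hy a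
    have hy'v : ∀ b, ∃ k : ZMod 3, ρ (y' * b) w = ρ b w + k • ρ a r := by
      intro b
      obtain ⟨k, hk⟩ := hyv (a⁻¹ * b)
      refine ⟨k, ?_⟩
      have e1 : y' * b = a * (y * (a⁻¹ * b)) := by rw [hy']; group
      rw [e1, hmul, hk, map_add, map_smul, ← hmul, mul_inv_cancel_left]
    have hy'p : ρ (y' * a) w = ρ a w := by
      have e1 : y' * a = a * y := by rw [hy']; group
      rw [e1, hmul, hyw]
    have hfix : ∀ b, ρ (y' * b) w = ρ b w → ∃ c : ZMod 3, ρ b w = c • ρ a w := by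
      intro b hb
      exact hSE y' hy'B a b ⟨1, by rw [hy'p, one_smul]⟩ ⟨1, by rw [hb, one_smul]⟩
    -- the action on `r`
    obtain ⟨b₁, hb₁⟩ := horb a ha 1
    obtain ⟨e, he⟩ := hy'v b₁
    rw [one_smul] at hb₁
    have he' : ρ y' r = r + e • ρ a r := by
      rw [hmul, hb₁, map_add, ← hmul, hy'p] at he
      have := add_left_cancel (he.trans (add_assoc _ _ _))
      exact this
    have he0 : e ≠ 0 := by
      rintro rfl
      rw [zero_smul, add_zero] at he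
      obtain ⟨c, hc⟩ := hfix b₁ he
      rw [hb₁] at hc
      apply hrp a ha (c - 1)
      rw [sub_smul, one_smul, ← hc, add_sub_cancel_left]
    obtain ⟨k, hk⟩ := hy'v b
    obtain ⟨b₂, hb₂⟩ := horb b hb (-k * e⁻¹)
    have h3 : ρ (y' * b₂) w = ρ b₂ w := by
      rw [hmul, hb₂, map_add, map_smul, he', ← hmul, hk, smul_add, smul_smul]
      have : -k * e⁻¹ * e = -k := by rw [mul_assoc, inv_mul_cancel₀ he0, mul_one]
      rw [this, neg_smul]
      abel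
    obtain ⟨c, hc⟩ := hfix b₂ h3
    refine ⟨c, k * e⁻¹, ?_⟩
    rw [← hc, hb₂, add_assoc, ← add_smul]
    have : -k * e⁻¹ + k * e⁻¹ = 0 := by ring
    rw [this, zero_smul, add_zero]
  -- (4)
  have hrw : ∃ c : ZMod 3, r = c • w := by
    obtain ⟨a, ha⟩ := hmov
    obtain ⟨b₁, hb₁⟩ := horb a ha 1
    obtain ⟨b₂, hb₂⟩ := horb a ha 2
    rw [one_smul] at hb₁
    have q1 : ∀ c : ZMod 3, ρ (a⁻¹ * b₁) w ≠ c • w := by
      intro c hc
      have h4 := congrArg (ρ a) hc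
      rw [← hmul, mul_inv_cancel_left, map_smul, hb₁] at h4
      apply hrp a ha (c - 1)
      rw [sub_smul, one_smul, ← h4, add_sub_cancel_left]
    have q2 : ∀ c : ZMod 3, ρ (a⁻¹ * b₂) w ≠ c • w := by
      intro c hc
      have h4 := congrArg (ρ a) hc
      rw [← hmul, mul_inv_cancel_left, map_smul, hb₂] at h4
      apply hrp a ha (2 * (c - 1))
      rw [mul_smul, sub_smul, one_smul, ← h4, add_sub_cancel_left, smul_smul]
      rw [h22, one_smul]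
    obtain ⟨i, j, hij⟩ := key _ q1 _ q2
    have h4 := congrArg (ρ a) hij
    rw [← hmul, mul_inv_cancel_left, map_add, map_smul, map_smul, ← hmul, mul_inv_cancel_left, hb₁,
      hb₂] at h4
    -- h4 : p + 2 r = i (p + r) + j r'
    set y' := a * y * a⁻¹ with hy'
    have hy'p : ρ y' (ρ a w) = ρ a w := by
      rw [← hmul]
      have e1 : y' * a = a * y := by rw [hy']; group
      rw [e1, hmul, hyw]
    have hy'r : ρ y' (ρ a r) = ρ a r := by
      rw [← hmul]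
      have e1 : y' * a = a * y := by rw [hy']; group
      rw [e1, hmul, hyr]
    obtain ⟨e, he⟩ : ∃ e : ZMod 3, ρ y' r = r + e • ρ a r := by
      obtain ⟨e, he⟩ := hyv (a⁻¹ * b₁)
      refine ⟨e, ?_⟩
      have e1 : y' * b₁ = a * (y * (a⁻¹ * b₁)) := by rw [hy']; group
      have e2 : ρ (y' * b₁) w = ρ b₁ w + e • ρ a r := by
        rw [e1, hmul, he, map_add, map_smul, ← hmul, mul_inv_cancel_left]
      rw [hmul, hb₁, map_add, hy'p, add_assoc] at e2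
      exact add_left_cancel e2
    have he0 : e ≠ 0 := by
      rintro rfl
      rw [zero_smul, add_zero] at he
      obtain ⟨c, hc⟩ := hSE y' (hB y hy a) a b₁ ⟨1, by rw [hmul, hy'p, one_smul]⟩
        ⟨1, by rw [hmul, hb₁, map_add, hy'p, he, one_smul]⟩
      rw [hb₁] at hc
      apply hrp a ha (c - 1)
      rw [sub_smul, one_smul, ← hc, add_sub_cancel_left]
    have h5 := congrArg (ρ y') h4
    rw [map_add, map_add, map_smul, map_smul, map_smul, map_add, hy'p, hy'r, he] at h5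
    have har0 : ρ a r ≠ 0 := by
      intro h
      apply hr0
      rw [← hinv' a r, h, map_zero]
    have h6 : ((2 - i) * e) • ρ a r = 0 := by
      have e1 : ρ a w + (2 : ZMod 3) • (r + e • ρ a r) - (ρ a w + (2 : ZMod 3) • r) =
          i • (ρ a w + (r + e • ρ a r)) + j • ρ a r - (i • (ρ a w + r) + j • ρ a r) := by
        rw [h5, h4]
      have e2 : ρ a w + (2 : ZMod 3) • (r + e • ρ a r) - (ρ a w + (2 : ZMod 3) • r) = (2 * e) • ρ a r := by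
        rw [smul_add, smul_smul]; abel
      have e3 : i • (ρ a w + (r + e • ρ a r)) + j • ρ a r - (i • (ρ a w + r) + j • ρ a r) =
          (i * e) • ρ a r := by
        rw [smul_add, smul_add, smul_add, smul_smul]; abel
      rw [e2, e3] at e1
      rw [sub_mul, sub_smul, e1, sub_self]
    have h7 : (2 - i) * e = 0 := (smul_eq_zero.1 h6).resolve_right har0
    have hi : i = 2 := (sub_eq_zero.1 ((mul_eq_zero.1 h7).resolve_right he0)).symm
    rw [hi] at h4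
    -- p = - j r'
    have h8 : ρ a w = -(j • ρ a r) := by
      have e1 : (2 : ZMod 3) • (ρ a w + r) = ρ a w + ρ a w + (2 : ZMod 3) • r := by
        rw [smul_add, two_smul]
      rw [e1] at h4
      have e2 : ρ a w + (2 : ZMod 3) • r = ρ a w + (2 : ZMod 3) • r + (ρ a w + j • ρ a r) := by
        nth_rewrite 1 [h4]; abel
      have e3 := left_eq_add.1 e2
      exact eq_neg_of_add_eq_zero_left e3
    have hj0 : j ≠ 0 := by
      rintro rfl
      rw [zero_smul, neg_zero] at h8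
      apply ha 0
      rw [h8, zero_smul]
    refine ⟨-j⁻¹, ?_⟩
    have h9 : ρ a r = (-j⁻¹) • ρ a w := by
      rw [h8, smul_neg, smul_smul]
      have : -j⁻¹ * j = -1 := by rw [neg_mul, inv_mul_cancel₀ hj0]
      rw [this, neg_smul, one_smul, neg_neg]
    have h10 := congrArg (ρ a⁻¹) h9
    rw [map_smul, hinv', hinv'] at h10
    exact h10
  obtain ⟨g, hg⟩ := hrw
  have hg0 : g ≠ 0 := by
    rintro rfl
    rw [zero_smul] at hg
    exact hr0 hg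
  refine ⟨⟨g, hg⟩, ?_, ?_, ?_⟩
  · intro a ha b
    by_cases hb : ∀ c : ZMod 3, ρ b w ≠ c • w
    · obtain ⟨i, j, hij⟩ := key a ha b hb
      exact ⟨i, j * g, by rw [hij, hg, smul_smul]⟩
    · push Not at hb
      obtain ⟨c, hc⟩ := hb
      exact ⟨0, c, by rw [zero_smul, zero_add, hc]⟩
  · intro a ha i j
    by_cases hi : i = 0
    · refine ⟨1, j, ?_⟩
      rw [hi, zero_smul, zero_add, hone]
    · obtain ⟨b, hb⟩ := horb a ha (i⁻¹ * j * g⁻¹)
      refine ⟨b, i, ?_⟩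
      rw [hb, hg, smul_add, smul_smul, smul_smul]
      congr 2
      field_simp
  · rintro n ⟨d, hd⟩
    obtain ⟨a, ha⟩ := hmov
    have hw0 : w ≠ 0 := by
      rintro rfl
      apply ha 0
      rw [map_zero, smul_zero]
    have hd0 : d ≠ 0 := by
      rintro rfl
      rw [zero_smul] at hd
      apply hw0
      rw [← hinv' n w, hd, map_zero]
    have hna : ∀ c : ZMod 3, ρ (n * a) w ≠ c • w := by
      intro c hc
      apply ha (c * d⁻¹)
      have h4 := congrArg (ρ n⁻¹) hc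
      have h5 := congrArg (ρ n⁻¹) hd
      rw [hinv', map_smul] at h5
      rw [hmul, hinv', map_smul] at h4
      have h6 : ρ n⁻¹ w = d⁻¹ • w := by
        rw [eq_inv_smul_iff₀ hd0]; exact h5.symm
      rw [h4, h6, smul_smul]
    obtain ⟨i, j, hij⟩ := key a ha (n * a) hna
    obtain ⟨k, hk⟩ := hyv a
    have hk0 : k ≠ 0 := by
      rintro rfl
      exact h1 a 0 ha hk (zero_smul _ _)
    -- n y^l p = n p + l k n r = i p + j r + l k d r
    have hnr : ρ n r = d • r := by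
      rw [hg, map_smul, hd, smul_comm]
    refine ⟨(-j * (k * d)⁻¹).val, ?_⟩
    intro hmem
    obtain ⟨c, hc⟩ := hSE _ hmem 1 a ⟨d, by
        rw [mul_one, hmul, hone]
        have : ∀ l : ℕ, ρ (y ^ l) w = w := by
          intro l
          induction l with
          | zero => rw [pow_zero, hone]
          | succ l ih => rw [pow_succ, hmul, hyw, ih]
        rw [this, hd]⟩ ⟨i, by
        rw [mul_assoc, hmul, hpow2 a k hk, map_add, map_smul, hnr, ← hmul, hij, ZMod.natCast_zmod_val,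
          smul_smul, add_assoc, ← add_smul]
        have : j + -j * (k * d)⁻¹ * k * d = 0 := by
          field_simp
          ring
        rw [this, zero_smul, add_zero]⟩
    rw [hone] at hc
    exact ha c hc

end Core

end Cfsg.Agent.H587.TO
end

-- part: H587/TO/Orb
section
/-!
# An orbit of lines moved by transvections (helper587)

`transvection_orbit`: the multiplicative form of `core`.
-/

set_option autoImplicit false
set_option linter.style.haveILetI false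
set_option linter.unusedVariables false

namespace Cfsg.Agent.H587.TO

open Subgroup

theorem transvection_orbit {A M : Type*} [Group A] [Group M] (ρ : A →* MulAut M) (B : Set A)
    (hB : ∀ b ∈ B, ∀ a, a * b * a⁻¹ ∈ B) (w : M) (hw3 : w ^ 3 = 1)
    (hcomm : ∀ a b : A, Commute (ρ a w) (ρ b w))
    (hSE : ∀ u ∈ B, ∀ a b : A, ρ (u * a) w ∈ zpowers (ρ a w) → ρ (u * b) w ∈ zpowers (ρ b w) →
      ρ b w ∈ zpowers (ρ a w))
    (hmov : ∃ a, ρ a w ∉ zpowers w)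
    (y : A) (hy : y ∈ B) (hyw : ρ y w = w) (r : M) (hr3 : r ^ 3 = 1)
    (hr : r ∈ closure (Set.range fun a => ρ a w)) (hyr : ρ y r = r)
    (hyv : ∀ a, ∃ k : ℕ, ρ (y * a) w = ρ a w * r ^ k) :
    r ∈ zpowers w ∧
    (∀ p ∈ Set.range (fun a => ρ a w), p ∉ zpowers w → ∀ a, ∃ i j : ℕ, ρ a w = p ^ i * w ^ j) ∧
    (∀ p ∈ Set.range (fun a => ρ a w), p ∉ zpowers w → ∀ i j : ℕ, ∃ a, p ^ i * w ^ j ∈ zpowers (ρ a w)) ∧
    (∀ n : A, ρ n w ∈ zpowers w → ∃ k : ℕ, n * y ^ k ∉ B) := by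
  classical
  set V : Subgroup M := closure (Set.range fun a => ρ a w) with hV
  have hVc : ∀ x y : V, x * y = y * x := by
    haveI : IsMulCommutative V := isMulCommutative_closure (by
      rintro _ ⟨a, rfl⟩ _ ⟨b, rfl⟩
      exact hcomm a b)
    exact fun x y => mul_comm' x y
  letI : CommGroup V := { (inferInstance : Group V) with mul_comm := hVc }
  have ho : ∀ a, ρ a w ∈ V := fun a => subset_closure ⟨a, rfl⟩
  have hinvar : ∀ a, ∀ v ∈ V, ρ a v ∈ V := by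
    intro a v hv
    have h1 : ρ a v ∈ V.map (ρ a).toMonoidHom := ⟨v, hv, rfl⟩
    rw [hV, MonoidHom.map_closure] at h1
    refine closure_mono ?_ h1
    rintro _ ⟨_, ⟨b, rfl⟩, rfl⟩
    exact ⟨a * b, by change ρ (a * b) w = ρ a (ρ b w); rw [map_mul]; rfl⟩
  have hcube : ∀ v : V, v ^ 3 = 1 := by
    rintro ⟨v, hv⟩
    apply Subtype.ext
    change v ^ 3 = 1
    refine (closure_induction (p := fun x _ => x ∈ V ∧ x ^ 3 = 1) ?_ ?_ ?_ ?_ hv).2
    · rintro _ ⟨a, rfl⟩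
      refine ⟨ho a, ?_⟩
      change (ρ a w) ^ 3 = 1
      rw [← map_pow, hw3, map_one]
    · exact ⟨one_mem _, one_pow 3⟩
    · rintro x y _ _ ⟨hx, hx3⟩ ⟨hy, hy3⟩
      have hxy : Commute x y := congrArg Subtype.val (hVc ⟨x, hx⟩ ⟨y, hy⟩)
      exact ⟨mul_mem hx hy, by rw [hxy.mul_pow, hx3, hy3, one_mul]⟩
    · rintro x _ ⟨hx, hx3⟩
      exact ⟨inv_mem hx, by rw [inv_pow, hx3, inv_one]⟩
  letI : Module (ZMod 3) (Additive V) := AddCommGroup.zmodModule (n := 3) (fun x => hcube x.toMul)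
  let φ : A → (V →* V) := fun a =>
    ((ρ a).toMonoidHom.comp V.subtype).codRestrict V fun v => hinvar a v v.2
  have hφ : ∀ a v, ((φ a v : V) : M) = ρ a v := fun a v => rfl
  let ρ' : A →* (Additive V →ₗ[ZMod 3] Additive V) :=
    { toFun := fun a => (MonoidHom.toAdditive (φ a)).toZModLinearMap 3
      map_one' := by
        refine LinearMap.ext fun x => ?_
        obtain ⟨v, rfl⟩ := Additive.ofMul.surjective x
        change Additive.ofMul (φ 1 v) = Additive.ofMul v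
        congr 1
        apply Subtype.ext
        rw [hφ, map_one]; rfl
      map_mul' := fun a b => by
        refine LinearMap.ext fun x => ?_
        obtain ⟨v, rfl⟩ := Additive.ofMul.surjective x
        change Additive.ofMul (φ (a * b) v) = Additive.ofMul (φ a (φ b v))
        congr 1
        apply Subtype.ext
        rw [hφ, hφ, hφ, map_mul]; rfl }
  have hρ' : ∀ a v, ρ' a (Additive.ofMul v) = Additive.ofMul (φ a v) := fun a v => rfl
  have hw : w ∈ V := by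
    have := ho 1
    rwa [map_one] at this
  set W : V := ⟨w, hw⟩ with hW
  set R : V := ⟨r, hr⟩ with hR
  have hρw : ∀ a, ρ' a (Additive.ofMul W) = Additive.ofMul ⟨ρ a w, ho a⟩ := fun a => rfl
  -- scalars
  have hnat : ∀ (n : ℕ) (v : V), ((n : ℕ) : ZMod 3) • Additive.ofMul v = Additive.ofMul (v ^ n) := by
    intro n v
    rw [Nat.cast_smul_eq_nsmul]; rfl
  have hscal : ∀ (c : ZMod 3) (v : V), c • Additive.ofMul v = Additive.ofMul (v ^ c.val) := by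
    intro c v
    rw [← hnat, ZMod.natCast_zmod_val]
  have hz : ∀ u v : V, (u : M) ∈ zpowers (v : M) ↔ ∃ c : ZMod 3, Additive.ofMul u = c • Additive.ofMul v := by
    intro u v
    constructor
    · rintro ⟨k, hk⟩
      refine ⟨(k : ZMod 3), ?_⟩
      rw [Int.cast_smul_eq_zsmul]
      change Additive.ofMul u = Additive.ofMul (v ^ k)
      congr 1
      exact Subtype.ext hk.symm
    · rintro ⟨c, hc⟩
      rw [hscal] at hc
      have h1 : u = v ^ c.val := Additive.ofMul.injective hc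
      rw [h1]
      exact ⟨(c.val : ℤ), by
        change (v : M) ^ ((c.val : ℕ) : ℤ) = _
        rw [zpow_natCast]; rfl⟩
  have hzw : ∀ a b, ρ a w ∈ zpowers (ρ b w) ↔ ∃ c : ZMod 3, ρ' a (Additive.ofMul W) = c • ρ' b (Additive.ofMul W) :=
    fun a b => hz ⟨ρ a w, ho a⟩ ⟨ρ b w, ho b⟩
  have hzw1 : ∀ a, ρ a w ∈ zpowers w ↔ ∃ c : ZMod 3, ρ' a (Additive.ofMul W) = c • Additive.ofMul W :=
    fun a => hz ⟨ρ a w, ho a⟩ W
  have hzn : ∀ a, ρ a w ∉ zpowers w ↔ ∀ c : ZMod 3, ρ' a (Additive.ofMul W) ≠ c • Additive.ofMul W := by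
    intro a
    rw [hzw1]
    push Not
    exact Iff.rfl
  obtain ⟨c1, c2, c3, c4⟩ := core ρ' B hB (Additive.ofMul W)
    (fun u hu a b ha hb => by
      rw [← hzw] at ha hb ⊢
      exact hSE u hu a b ha hb)
    (by obtain ⟨a, ha⟩ := hmov; exact ⟨a, (hzn a).1 ha⟩)
    y hy (by rw [hρw]; congr 1; exact Subtype.ext hyw) (Additive.ofMul R)
    (by rw [hρ']; congr 1; exact Subtype.ext hyr)
    (fun a => by
      obtain ⟨k, hk⟩ := hyv a
      refine ⟨(k : ZMod 3), ?_⟩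
      rw [hρw, hρw, hnat, ← ofMul_mul]
      congr 1
      exact Subtype.ext hk)
  refine ⟨?_, ?_, ?_, ?_⟩
  · exact (hz R W).2 c1
  · rintro p ⟨a, rfl⟩ hp b
    obtain ⟨i, j, hij⟩ := c2 a ((hzn a).1 hp) b
    refine ⟨i.val, j.val, ?_⟩
    rw [hρw, hρw, hscal, hscal, ← ofMul_mul] at hij
    exact congrArg Subtype.val (Additive.ofMul.injective hij)
  · rintro p ⟨a, rfl⟩ hp i j
    obtain ⟨b, c, hbc⟩ := c3 a ((hzn a).1 hp) (i : ZMod 3) (j : ZMod 3)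
    refine ⟨b, ?_⟩
    rw [hρw, hρw, hnat, hnat, ← ofMul_mul] at hbc
    exact (hz _ _).2 ⟨c, hbc⟩
  · intro n hn
    exact c4 n ((hzw1 n).1 hn)

end Cfsg.Agent.H587.TO
end

-- part: H38/ThT1
section
/-!
Two consequences of `transvection_orbit` for the contexts `Ctx Q A` of helper776 (S5228).
-/

set_option autoImplicit false

namespace Cfsg.Agent.H38.ThT1

open Subgroup Cfsg.Agent.H776.ThS

/-- the subgroup of `MulAut Q` of a context -/
def autG {G : Type*} [Group G] {Q : Subgroup G} {A : Set (G → G)} (h : Ctx Q A) : Subgroup (MulAut Q) where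
  carrier := {α | ∃ f ∈ A, ∀ x : Q, (α x : G) = f x}
  mul_mem' := by
    rintro α β ⟨f, hf, h1⟩ ⟨g, hg, h2⟩
    refine ⟨_, h.comp f hf g hg, fun x => ?_⟩
    rw [MulAut.mul_apply, h1, h2]
  one_mem' := ⟨_, h.id_mem, fun x => rfl⟩
  inv_mem' := by
    rintro α ⟨f, hf, h1⟩
    obtain ⟨g, hg, h2⟩ := h.inv f hf
    refine ⟨g, hg, fun x => ?_⟩
    have h3 : α (α⁻¹ x) = x := by rw [← MulAut.mul_apply, mul_inv_cancel, MulAut.one_apply]
    have h4 := (h2 (α⁻¹ x : Q) (α⁻¹ x : Q).2).1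
    rw [← h1, h3] at h4
    exact h4.symm

theorem mem_autG {G : Type*} [Group G] {Q : Subgroup G} {A : Set (G → G)} {h : Ctx Q A} {α : MulAut Q} :
    α ∈ autG h ↔ ∃ f ∈ A, ∀ x : Q, (α x : G) = f x := Iff.rfl

theorem exists_aut {G : Type*} [Group G] {Q : Subgroup G} {A : Set (G → G)} (h : Ctx Q A) {f : G → G} (hf : f ∈ A) :
    ∃ α : autG h, ∀ x : Q, ((α : MulAut Q) x : G) = f x := by
  let φ : Q →* Q :=
    { toFun := fun x => ⟨f x, h.maps f hf x x.2⟩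
      map_one' := Subtype.ext (h.one hf)
      map_mul' := fun x y => Subtype.ext (h.mul f hf x x.2 y y.2) }
  have hφ : Function.Bijective φ := by
    constructor
    · intro x y hxy
      exact Subtype.ext (h.inj hf x.2 y.2 (congrArg Subtype.val hxy))
    · intro y
      obtain ⟨g, hg, h1⟩ := h.inv f hf
      exact ⟨⟨g y, h.maps g hg y y.2⟩, Subtype.ext (h1 y y.2).2⟩
  exact ⟨⟨MulEquiv.ofBijective φ hφ, f, hf, fun x => rfl⟩, fun x => rfl⟩

/-- the non-inner 3-elements coming from the normalizer, and their conjugates -/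
def BB {G : Type*} [Group G] {Q : Subgroup G} {A : Set (G → G)} (h : Ctx Q A) : Set (autG h) :=
  {b | ∃ a : autG h, ∃ n ∈ normalizer (Q : Set G), n ∉ Q ∧
    ∀ x : Q, (((a⁻¹ * b * a : autG h) : MulAut Q) x : G) = n * x * n⁻¹}

theorem BB_conj {G : Type*} [Group G] {Q : Subgroup G} {A : Set (G → G)} (h : Ctx Q A) :
    ∀ b ∈ BB h, ∀ a, a * b * a⁻¹ ∈ BB h := by
  rintro b ⟨c, n, hn, hnQ, h1⟩ a
  refine ⟨a * c, n, hn, hnQ, ?_⟩
  have h2 : (a * c)⁻¹ * (a * b * a⁻¹) * (a * c) = c⁻¹ * b * c := by group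
  rw [h2]
  exact h1

/-- an element of the context realising a member of `autG` -/
theorem exists_fun {G : Type*} [Group G] {Q : Subgroup G} {A : Set (G → G)} {h : Ctx Q A} (a : autG h) :
    ∃ f ∈ A, ∀ x : Q, ((a : MulAut Q) x : G) = f x := a.2

theorem BB_se {Q : Subgroup P} {A : Set (P → P)} (h : Ctx Q A) {W : Subgroup P} (hSE : SE Q A W) {u : autG h}
    (hu : u ∈ BB h) (hW : W ≤ Q) {a b : autG h}
    (h1 : ∀ w : Q, (w : P) ∈ W → ∃ w' : Q, (w' : P) ∈ W ∧ (u : MulAut Q) ((a : MulAut Q) w) = (a : MulAut Q) w')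
    (h2 : ∀ w : Q, (w : P) ∈ W → ∃ w' : Q, (w' : P) ∈ W ∧ (u : MulAut Q) ((b : MulAut Q) w) = (b : MulAut Q) w') :
    ∀ w : Q, (w : P) ∈ W → ∃ w' : Q, (w' : P) ∈ W ∧ (a : MulAut Q) w = (b : MulAut Q) w' := by
  obtain ⟨c, n, hn, hnQ, h3⟩ := hu
  obtain ⟨fa, hfa, h4⟩ := exists_fun a
  obtain ⟨fb, hfb, h5⟩ := exists_fun b
  obtain ⟨fu, hfu, h6⟩ := exists_fun u
  -- replace `a`, `b`, `u` by `c⁻¹ a`, `c⁻¹ b`, `c⁻¹ u c`
  obtain ⟨ga, hga, h7⟩ := exists_fun (c⁻¹ * a)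
  obtain ⟨gb, hgb, h8⟩ := exists_fun (c⁻¹ * b)
  have key : ∀ (d : autG h) (gd : P → P), (∀ x : Q, (((c⁻¹ * d : autG h) : MulAut Q) x : P) = gd x) →
      (∀ w : Q, (w : P) ∈ W → ∃ w' : Q, (w' : P) ∈ W ∧ (u : MulAut Q) ((d : MulAut Q) w) = (d : MulAut Q) w') →
      ∀ w ∈ W, ∃ w' ∈ W, n * gd w * n⁻¹ = gd w' := by
    intro d gd hgd hd w hw
    obtain ⟨w', hw', h9⟩ := hd ⟨w, hW hw⟩ hw
    refine ⟨w', hw', ?_⟩
    have h10 := h3 (((c⁻¹ * d : autG h) : MulAut Q) ⟨w, hW hw⟩)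
    rw [hgd] at h10
    change _ = n * gd w * n⁻¹ at h10
    rw [← h10, ← hgd w']
    congr 1
    change (((c⁻¹ * u * c : autG h) : MulAut Q) * ((c⁻¹ * d : autG h) : MulAut Q)) ⟨w, hW hw⟩ = _
    rw [← Subgroup.coe_mul]
    have h11 : c⁻¹ * u * c * (c⁻¹ * d) = c⁻¹ * (u * d) := by group
    rw [h11]
    change ((c⁻¹ : autG h) : MulAut Q) ((u : MulAut Q) ((d : MulAut Q) ⟨w, hW hw⟩)) =
      ((c⁻¹ : autG h) : MulAut Q) ((d : MulAut Q) w')
    rw [h9]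
  have h12 := hSE.conj h hn hnQ hga hgb (key a ga h7 h1) (key b gb h8 h2)
  intro w hw
  obtain ⟨w', hw', h13⟩ := h12 w hw
  refine ⟨⟨w', hW hw'⟩, hw', ?_⟩
  have h14 : ((c⁻¹ : autG h) : MulAut Q) ((a : MulAut Q) w) = ((c⁻¹ : autG h) : MulAut Q) ((b : MulAut Q) ⟨w', hW hw'⟩) := by
    apply Subtype.ext
    change ((((c⁻¹ * a : autG h) : MulAut Q) w : Q) : P) = ((((c⁻¹ * b : autG h) : MulAut Q) ⟨w', hW hw'⟩ : Q) : P)
    rw [h7, h8]
    exact h13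
  exact (((c⁻¹ : autG h) : MulAut Q)).injective h14

theorem u10_mem_N5 : u10 ∈ N5 := ⟨rfl, rfl, rfl, rfl, rfl⟩

theorem u9_mem_N5 : u9 ∈ N5 := ⟨rfl, rfl, rfl, rfl, rfl⟩

theorem u10_mem_Z1 : u10 ∈ Z1 := ⟨rfl, rfl, rfl, rfl, rfl, rfl, rfl, rfl, rfl⟩

theorem u10_comm (x : P) : u10 * x = x * u10 := by
  rw [N5_mul u10 x u10_mem_N5]
  congr 1
  ext <;> simp [cx, u10]

theorem u9_comm (x : P) : ∃ z ∈ Z1, u9 * x = x * u9 * z := by
  refine ⟨⟨0, 0, 0, 0, 0, 0, 0, 0, 0, x.x1⟩, ⟨rfl, rfl, rfl, rfl, rfl, rfl, rfl, rfl, rfl⟩, ?_⟩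
  rw [N5_mul u9 x u9_mem_N5, mul_assoc]
  congr 1
  rw [mulN _ _ ⟨rfl, rfl, rfl, rfl, rfl⟩]
  ext <;> simp [cx, u9]

theorem u10_pow (k : ℕ) : u10 ^ k = ⟨0, 0, 0, 0, 0, 0, 0, 0, 0, (k : ZMod 3)⟩ := by
  induction k with
  | zero => rw [pow_zero]; ext <;> simp [one_x1, one_x2, one_x3, one_x4, one_x5, one_x6, one_x7, one_x8, one_x9, one_x10]
  | succ k ih =>
    rw [pow_succ, ih, mulN _ _ u10_mem_N5]
    ext <;> simp [u10]

theorem u9_pow (k : ℕ) : u9 ^ k = ⟨0, 0, 0, 0, 0, 0, 0, 0, (k : ZMod 3), 0⟩ := by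
  induction k with
  | zero => rw [pow_zero]; ext <;> simp [one_x1, one_x2, one_x3, one_x4, one_x5, one_x6, one_x7, one_x8, one_x9, one_x10]
  | succ k ih =>
    rw [pow_succ, ih, mulN _ _ u9_mem_N5]
    ext <;> simp [u9]

theorem mem_Z1_iff {x : P} : x ∈ Z1 ↔ ∃ k : ℕ, x = u10 ^ k := by
  constructor
  · rintro ⟨h1, h2, h3, h4, h5, h6, h7, h8, h9⟩
    refine ⟨x.x10.val, ?_⟩
    rw [u10_pow]
    ext
    all_goals first | assumption | simp
  · rintro ⟨k, rfl⟩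
    exact pow_mem u10_mem_Z1 k

theorem mem_Z2_iff {x : P} : x ∈ Z2 ↔ ∃ i j : ℕ, x = u9 ^ i * u10 ^ j := by
  constructor
  · rintro ⟨h1, h2, h3, h4, h5, h6, h7, h8⟩
    refine ⟨x.x9.val, x.x10.val, ?_⟩
    rw [u10_pow, u9_pow, mulN _ _ ⟨rfl, rfl, rfl, rfl, rfl⟩]
    ext
    all_goals first | assumption | simp
  · rintro ⟨i, j, rfl⟩
    exact mul_mem (pow_mem (show u9 ∈ Z2 from ⟨rfl, rfl, rfl, rfl, rfl, rfl, rfl, rfl⟩) i)
      (pow_mem (show u10 ∈ Z2 from ⟨rfl, rfl, rfl, rfl, rfl, rfl, rfl, rfl⟩) j)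

theorem Z1_le_Z2 : Z1 ≤ Z2 := fun _ ⟨h1, h2, h3, h4, h5, h6, h7, h8, _⟩ => ⟨h1, h2, h3, h4, h5, h6, h7, h8⟩

theorem u10_cube : u10 ^ 3 = 1 := by
  rw [u10_pow]; rfl

theorem u9_cube : u9 ^ 3 = 1 := by
  rw [u9_pow]; rfl

theorem Z1_comm {z : P} (hz : z ∈ Z1) (x : P) : z * x = x * z := by
  obtain ⟨k, rfl⟩ := mem_Z1_iff.1 hz
  exact (Commute.pow_left (u10_comm x) k : Commute (u10 ^ k) x)

/-- integer powers of an element of exponent 3 as natural powers -/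
theorem exists_nat {M : Type*} [Group M] {w : M} (hw : w ^ 3 = 1) {x : M} (hx : x ∈ zpowers w) :
    ∃ k : ℕ, x = w ^ k := by
  have h1 : IsOfFinOrder w := isOfFinOrder_iff_pow_eq_one.2 ⟨3, by norm_num, hw⟩
  obtain ⟨k, hk⟩ := (h1.mem_powers_iff_mem_zpowers).2 hx
  exact ⟨k, hk.symm⟩

theorem t1z {Q : Subgroup P} {A : Set (P → P)} (h : Ctx Q A) (hSE : SE Q A Z1) (hmov : ∃ a ∈ A, a u10 ∉ Z1)
    {y r : P} (hy : y ∈ normalizer (Q : Set P)) (hyQ : y ∉ Q)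
    (hr : r ∈ closure {x | ∃ a ∈ A, x = a u10}) (hr3 : r ^ 3 = 1) (hyr : y * r = r * y)
    (hyv : ∀ a ∈ A, ∃ k : ℕ, y * a u10 * y⁻¹ = a u10 * r ^ k) :
    r ∈ Z1 ∧
    (∀ a ∈ A, a u10 ∉ Z1 → ∀ b ∈ A, ∃ i j : ℕ, b u10 = a u10 ^ i * u10 ^ j) ∧
    (∀ a ∈ A, a u10 ∉ Z1 → ∀ i j : ℕ, ∃ b ∈ A, ∃ k : ℕ, a u10 ^ i * u10 ^ j = b u10 ^ k) ∧
    (∀ n ∈ normalizer (Q : Set P), ∃ k : ℕ, n * y ^ k ∈ Q) := by
  have hu : u10 ∈ Q := h.cent _ fun q _ => u10_comm q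
  have hZ : Z1 ≤ Q := fun z hz => h.cent _ fun q _ => Z1_comm hz q
  have hrQ : r ∈ Q := by
    refine (closure_le Q).2 ?_ hr
    rintro _ ⟨a, ha, rfl⟩
    exact h.maps a ha _ hu
  set w : Q := ⟨u10, hu⟩ with hw
  have hwc : ∀ x : Q, w * x = x * w := fun x => Subtype.ext (u10_comm x)
  have hac : ∀ (a : autG h) (x : Q), (a : MulAut Q) w * x = x * (a : MulAut Q) w := by
    intro a x
    obtain ⟨x', rfl⟩ := (a : MulAut Q).surjective x
    rw [← map_mul, hwc, map_mul]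
  -- the elements of `autG` given by the normalizer
  have hcn : ∀ n ∈ normalizer (Q : Set P), ∃ c : autG h, ∀ x : Q, ((c : MulAut Q) x : P) = n * x * n⁻¹ :=
    fun n hn => exists_aut h (h.conj n hn)
  have hwA : ∀ a : autG h, ∃ f ∈ A, ((a : MulAut Q) w : P) = f u10 := by
    intro a
    obtain ⟨f, hf, h1⟩ := exists_fun a
    exact ⟨f, hf, h1 w⟩
  have hAw : ∀ f ∈ A, ∃ a : autG h, ((a : MulAut Q) w : P) = f u10 := by
    intro f hf
    obtain ⟨a, ha⟩ := exists_aut h hf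
    exact ⟨a, ha w⟩
  have hZw : ∀ x : Q, (x : P) ∈ Z1 ↔ x ∈ zpowers w := by
    intro x
    rw [mem_Z1_iff]
    constructor
    · rintro ⟨k, hk⟩
      exact ⟨(k : ℤ), Subtype.ext (by simpa using hk.symm)⟩
    · intro hx
      obtain ⟨k, hk⟩ := exists_nat (Subtype.ext u10_cube) hx
      exact ⟨k, by rw [hk]; rfl⟩
  obtain ⟨cy, hcy⟩ := hcn y hy
  have hmemB : ∀ n ∈ normalizer (Q : Set P), n ∉ Q → ∀ c : autG h,
      (∀ x : Q, ((c : MulAut Q) x : P) = n * x * n⁻¹) → c ∈ BB h := by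
    intro n hn hnQ c hc
    refine ⟨1, n, hn, hnQ, fun x => ?_⟩
    rw [inv_one, one_mul, mul_one]
    exact hc x
  obtain ⟨c1, c2, c3, c4⟩ := Cfsg.Agent.H587.TO.transvection_orbit (autG h).subtype (BB h) (BB_conj h) w
    (Subtype.ext u10_cube) (fun a b => hac a _)
    (by
      intro u hu a b ha hb
      have key : ∀ d : autG h, (autG h).subtype (u * d) w ∈ zpowers ((autG h).subtype d w) →
          ∀ v : Q, (v : P) ∈ Z1 → ∃ v' : Q, (v' : P) ∈ Z1 ∧ (u : MulAut Q) ((d : MulAut Q) v) = (d : MulAut Q) v' := by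
        intro d hd v hv
        obtain ⟨k, hk⟩ := hd
        obtain ⟨j, rfl⟩ := (hZw v).1 hv
        refine ⟨w ^ (k * j), (hZw _).2 ⟨_, rfl⟩, ?_⟩
        change ((d : MulAut Q) w) ^ k = (u : MulAut Q) ((d : MulAut Q) w) at hk
        change (u : MulAut Q) ((d : MulAut Q) (w ^ j)) = _
        rw [map_zpow, map_zpow, ← hk, ← zpow_mul, map_zpow]
      obtain ⟨v', hv', h2⟩ := BB_se h hSE hu hZ (key b hb) (key a ha) w ((hZw w).2 (mem_zpowers w))
      obtain ⟨k, hk⟩ := (hZw v').1 hv'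
      refine ⟨k, ?_⟩
      change ((a : MulAut Q) w) ^ k = (b : MulAut Q) w
      rw [← map_zpow, h2]
      exact congrArg _ hk)
    (by
      obtain ⟨f, hf, h1⟩ := hmov
      obtain ⟨a, ha⟩ := hAw f hf
      refine ⟨a, fun h2 => h1 ?_⟩
      rw [← ha]
      exact (hZw _).2 h2)
    cy (hmemB y hy hyQ cy hcy)
    (Subtype.ext (by
      change ((cy : MulAut Q) w : P) = u10
      rw [hcy]
      change y * u10 * y⁻¹ = u10
      rw [← u10_comm y, mul_inv_cancel_right]))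
    ⟨r, hrQ⟩ (Subtype.ext hr3)
    (by
      have h1 : r ∈ (closure (Set.range fun a : autG h => (autG h).subtype a w)).map Q.subtype := by
        rw [MonoidHom.map_closure]
        refine closure_mono ?_ hr
        rintro _ ⟨f, hf, rfl⟩
        obtain ⟨a, ha⟩ := hAw f hf
        exact ⟨_, ⟨a, rfl⟩, ha⟩
      obtain ⟨x, hx, hxr⟩ := h1
      have h2 : x = ⟨r, hrQ⟩ := Subtype.ext hxr
      rw [← h2]
      exact hx)
    (Subtype.ext (by
      change ((cy : MulAut Q) ⟨r, hrQ⟩ : P) = r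
      rw [hcy]
      change y * r * y⁻¹ = r
      rw [hyr, mul_inv_cancel_right]))
    (by
      intro a
      obtain ⟨f, hf, h1⟩ := hwA a
      obtain ⟨k, hk⟩ := hyv f hf
      refine ⟨k, Subtype.ext ?_⟩
      change ((cy : MulAut Q) ((a : MulAut Q) w) : P) = ((a : MulAut Q) w : P) * r ^ k
      rw [hcy, h1, hk])
  refine ⟨(hZw ⟨r, hrQ⟩).2 c1, ?_, ?_, ?_⟩
  · intro f hf hfZ g hg
    obtain ⟨a, ha⟩ := hAw f hf
    obtain ⟨b, hb⟩ := hAw g hg
    obtain ⟨i, j, hij⟩ := c2 _ ⟨a, rfl⟩ (fun h2 => hfZ (by rw [← ha]; exact (hZw _).2 h2)) b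
    refine ⟨i, j, ?_⟩
    have h3 := congrArg Subtype.val hij
    rw [← ha, ← hb]
    exact h3
  · intro f hf hfZ i j
    obtain ⟨a, ha⟩ := hAw f hf
    obtain ⟨b, hb⟩ := c3 _ ⟨a, rfl⟩ (fun h2 => hfZ (by rw [← ha]; exact (hZw _).2 h2)) i j
    obtain ⟨g, hg, h1⟩ := hwA b
    have h4 : ((autG h).subtype b w) ^ 3 = 1 := by
      rw [← map_pow, show w ^ 3 = 1 from Subtype.ext u10_cube, map_one]
    obtain ⟨k, hk⟩ := exists_nat h4 hb
    refine ⟨g, hg, k, ?_⟩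
    rw [← ha, ← h1]
    exact congrArg Subtype.val hk
  · intro n hn
    obtain ⟨cn, hcn'⟩ := hcn n hn
    have h1 : (autG h).subtype cn w = w := Subtype.ext (by
      change ((cn : MulAut Q) w : P) = u10
      rw [hcn']
      change n * u10 * n⁻¹ = u10
      rw [← u10_comm n, mul_inv_cancel_right])
    obtain ⟨k, hk⟩ := c4 cn (by rw [h1]; exact mem_zpowers w)
    refine ⟨k, ?_⟩
    by_contra h2
    apply hk
    refine hmemB (n * y ^ k) (mul_mem hn (pow_mem hy k)) h2 _ fun x => ?_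
    have h5 : ∀ (j : ℕ) (x : Q), (((cy ^ j : autG h) : MulAut Q) x : P) = y ^ j * x * (y ^ j)⁻¹ := by
      intro j
      induction j with
      | zero => intro x; simp
      | succ j ih =>
        intro x
        rw [pow_succ, Subgroup.coe_mul, MulAut.mul_apply, ih, hcy]
        group
    rw [Subgroup.coe_mul, MulAut.mul_apply, hcn', h5]
    group

/-- the action of automorphisms on a quotient by an invariant normal subgroup -/
theorem exists_quot {Q : Type*} [Group Q] (N : Subgroup Q) [N.Normal] (A : Subgroup (MulAut Q))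
    (hA : ∀ a ∈ A, ∀ x ∈ N, a x ∈ N) :
    ∃ ρ : A →* MulAut (Q ⧸ N), ∀ (a : A) (x : Q), ρ a (x : Q ⧸ N) = (((a : MulAut Q) x : Q) : Q ⧸ N) := by
  have hmap : ∀ a : A, N.map ((a : MulAut Q) : Q →* Q) = N := by
    intro a
    apply le_antisymm
    · rintro _ ⟨x, hx, rfl⟩
      exact hA a a.2 x hx
    · intro x hx
      refine ⟨(a⁻¹ : A).1 x, hA _ (a⁻¹ : A).2 x hx, ?_⟩
      change ((a : MulAut Q) * ((a⁻¹ : A) : MulAut Q)) x = x
      rw [← Subgroup.coe_mul, mul_inv_cancel]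
      rfl
  refine ⟨{ toFun := fun a => QuotientGroup.congr N N (a : MulAut Q) (hmap a), map_one' := ?_, map_mul' := ?_ }, ?_⟩
  · ext x
    induction x using QuotientGroup.induction_on with
    | _ x => rfl
  · intro a b
    ext x
    induction x using QuotientGroup.induction_on with
    | _ x => rfl
  · intro a x
    rfl

theorem t1w {Q : Subgroup P} {A : Set (P → P)} (h : Ctx Q A) (hSE : SE Q A Z2) (hW : Z2 ≤ Q)
    (hfix : ∀ a ∈ A, a u10 ∈ Z1) (hmov : ∃ a ∈ A, a u9 ∉ Z2)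
    {y r : P} (hy : y ∈ normalizer (Q : Set P)) (hyQ : y ∉ Q)
    (hr : r ∈ closure {x | x ∈ Z1 ∨ ∃ a ∈ A, x = a u9}) (hr3 : r ^ 3 ∈ Z1) (hyr : y * r * y⁻¹ * r⁻¹ ∈ Z1)
    (hyv : ∀ a ∈ A, ∃ k : ℕ, ∃ z ∈ Z1, y * a u9 * y⁻¹ = a u9 * r ^ k * z) :
    r ∈ Z2 ∧
    (∀ a ∈ A, a u9 ∉ Z2 → ∀ b ∈ A, ∃ i j : ℕ, ∃ z ∈ Z1, b u9 = a u9 ^ i * u9 ^ j * z) ∧
    (∀ a ∈ A, a u9 ∉ Z2 → ∀ i j : ℕ, ∃ b ∈ A, ∃ k : ℕ, ∃ z ∈ Z1, a u9 ^ i * u9 ^ j = b u9 ^ k * z) ∧
    (∀ n ∈ normalizer (Q : Set P), ∃ k : ℕ, n * y ^ k ∈ Q) := by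
  have hZ : Z1 ≤ Q := fun z hz => h.cent _ fun q _ => Z1_comm hz q
  have h10 : u10 ∈ Q := hZ u10_mem_Z1
  have h9' : u9 ∈ Z2 := ⟨rfl, rfl, rfl, rfl, rfl, rfl, rfl, rfl⟩
  have h9 : u9 ∈ Q := hW h9'
  have hrQ : r ∈ Q := by
    refine (closure_le Q).2 ?_ hr
    rintro x (hx | ⟨a, ha, rfl⟩)
    · exact hZ hx
    · exact h.maps a ha _ h9
  -- `A` preserves `Z1`
  have hAZ : ∀ f ∈ A, ∀ z ∈ Z1, f z ∈ Z1 := by
    intro f hf z hz
    obtain ⟨k, rfl⟩ := mem_Z1_iff.1 hz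
    rw [h.map_pow hf h10]
    exact pow_mem (hfix f hf) k
  have hN : (Z1.subgroupOf Q).Normal := by
    refine ⟨fun z hz g => ?_⟩
    rw [mem_subgroupOf] at hz ⊢
    have h1 : ((g * z * g⁻¹ : Q) : P) = z := by
      change (g : P) * z * (g : P)⁻¹ = z
      rw [← Z1_comm hz g, mul_inv_cancel_right]
    rw [h1]
    exact hz
  have hmaps : ∀ a ∈ autG h, ∀ x ∈ Z1.subgroupOf Q, a x ∈ Z1.subgroupOf Q := by
    rintro a ⟨f, hf, h1⟩ x hx
    rw [mem_subgroupOf] at hx ⊢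
    rw [h1]
    exact hAZ f hf _ hx
  obtain ⟨ρ, hρ⟩ := exists_quot (Z1.subgroupOf Q) (autG h) hmaps
  have hmk : ∀ x y : Q, ((x : Q) : Q ⧸ Z1.subgroupOf Q) = (y : Q ⧸ Z1.subgroupOf Q) ↔ ∃ z ∈ Z1, (y : P) = x * z := by
    intro x y
    rw [QuotientGroup.eq, mem_subgroupOf]
    constructor
    · intro h1
      exact ⟨_, h1, by simp⟩
    · rintro ⟨z, hz, h1⟩
      have h2 : ((x⁻¹ * y : Q) : P) = z := by
        change (x : P)⁻¹ * y = z
        rw [h1, inv_mul_cancel_left]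
      rw [h2]
      exact hz
  set w : Q := ⟨u9, h9⟩ with hw
  set W : Q ⧸ Z1.subgroupOf Q := (w : Q ⧸ Z1.subgroupOf Q) with hWdef
  have hW3 : W ^ 3 = 1 := by
    rw [hWdef, ← QuotientGroup.mk_pow, show w ^ 3 = 1 from Subtype.ext u9_cube, QuotientGroup.mk_one]
  have hac : ∀ (a : autG h) (x : Q), Commute (ρ a W) (x : Q ⧸ Z1.subgroupOf Q) := by
    intro a x
    obtain ⟨x', rfl⟩ := (a : MulAut Q).surjective x
    rw [← hρ]
    have h1 : Commute W (x' : Q ⧸ Z1.subgroupOf Q) := by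
      change W * (x' : Q ⧸ Z1.subgroupOf Q) = (x' : Q ⧸ Z1.subgroupOf Q) * W
      rw [hWdef, ← QuotientGroup.mk_mul, ← QuotientGroup.mk_mul, eq_comm, hmk]
      obtain ⟨z, hz, h2⟩ := u9_comm x'
      exact ⟨z, hz, h2⟩
    exact h1.map (ρ a)
  have hcn : ∀ n ∈ normalizer (Q : Set P), ∃ c : autG h, ∀ x : Q, ((c : MulAut Q) x : P) = n * x * n⁻¹ :=
    fun n hn => exists_aut h (h.conj n hn)
  have hwA : ∀ a : autG h, ∃ f ∈ A, ((a : MulAut Q) w : P) = f u9 := by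
    intro a
    obtain ⟨f, hf, h1⟩ := exists_fun a
    exact ⟨f, hf, h1 w⟩
  have hAw : ∀ f ∈ A, ∃ a : autG h, ((a : MulAut Q) w : P) = f u9 := by
    intro f hf
    obtain ⟨a, ha⟩ := exists_aut h hf
    exact ⟨a, ha w⟩
  have hW2 : ∀ x : Q, (x : P) ∈ Z2 ↔ (x : Q ⧸ Z1.subgroupOf Q) ∈ zpowers W := by
    intro x
    constructor
    · intro hx
      obtain ⟨i, j, hij⟩ := mem_Z2_iff.1 hx
      refine ⟨(i : ℤ), ?_⟩
      change W ^ (i : ℤ) = _
      rw [zpow_natCast, hWdef, ← QuotientGroup.mk_pow, hmk]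
      exact ⟨u10 ^ j, pow_mem u10_mem_Z1 j, hij⟩
    · intro hx
      obtain ⟨k, hk⟩ := exists_nat hW3 hx
      rw [hWdef, ← QuotientGroup.mk_pow, eq_comm, hmk] at hk
      obtain ⟨z, hz, h1⟩ := hk
      rw [h1]
      exact mul_mem (pow_mem h9' k) (Z1_le_Z2 hz)
  obtain ⟨cy, hcy⟩ := hcn y hy
  have hmemB : ∀ n ∈ normalizer (Q : Set P), n ∉ Q → ∀ c : autG h,
      (∀ x : Q, ((c : MulAut Q) x : P) = n * x * n⁻¹) → c ∈ BB h := by
    intro n hn hnQ c hc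
    refine ⟨1, n, hn, hnQ, fun x => ?_⟩
    rw [inv_one, one_mul, mul_one]
    exact hc x
  have hfixW : ∀ n ∈ normalizer (Q : Set P), ∀ c : autG h, (∀ x : Q, ((c : MulAut Q) x : P) = n * x * n⁻¹) →
      ρ c W = W := by
    intro n hn c hc
    rw [hWdef, hρ, eq_comm, hmk]
    obtain ⟨z, hz, h1⟩ := u9_comm n⁻¹
    refine ⟨z, hz, ?_⟩
    rw [hc]
    change n * u9 * n⁻¹ = u9 * z
    rw [mul_assoc, h1]
    group
  obtain ⟨c1, c2, c3, c4⟩ := Cfsg.Agent.H587.TO.transvection_orbit ρ (BB h) (BB_conj h) W hW3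
    (fun a b => by
      have h1 := hac a ((b : MulAut Q) w)
      rwa [← hρ] at h1)
    (by
      intro u hu a b ha hb
      have key : ∀ d : autG h, ρ (u * d) W ∈ zpowers (ρ d W) →
          ∀ v : Q, (v : P) ∈ Z2 → ∃ v' : Q, (v' : P) ∈ Z2 ∧ (u : MulAut Q) ((d : MulAut Q) v) = (d : MulAut Q) v' := by
        intro d hd v hv
        refine ⟨((d⁻¹ : autG h) : MulAut Q) ((u : MulAut Q) ((d : MulAut Q) v)), ?_, ?_⟩
        · rw [hW2]
          have h1 := (hW2 v).1 hv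
          obtain ⟨j, hj⟩ := h1
          obtain ⟨k, hk⟩ := hd
          change W ^ j = _ at hj
          change (ρ d W) ^ k = _ at hk
          refine ⟨k * j, ?_⟩
          change W ^ (k * j) = _
          rw [← hρ, ← hρ, ← hρ, ← hj, map_zpow, map_zpow]
          rw [map_mul, MulAut.mul_apply] at hk
          rw [← hk, map_zpow, map_zpow]
          have h2 : ρ d⁻¹ (ρ d W) = W := by
            rw [← MulAut.mul_apply, ← map_mul, inv_mul_cancel, map_one, MulAut.one_apply]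
          rw [h2, zpow_mul]
        · change _ = ((d : MulAut Q) * ((d⁻¹ : autG h) : MulAut Q)) ((u : MulAut Q) ((d : MulAut Q) v))
          rw [← Subgroup.coe_mul, mul_inv_cancel]
          rfl
      obtain ⟨v', hv', h2⟩ := BB_se h hSE hu hW (key b hb) (key a ha) w h9'
      obtain ⟨k, hk⟩ := (hW2 v').1 hv'
      refine ⟨k, ?_⟩
      change (ρ a W) ^ k = ρ b W
      change W ^ k = _ at hk
      rw [← map_zpow, hk, hρ, hWdef, hρ, h2])
    (by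
      obtain ⟨f, hf, h1⟩ := hmov
      obtain ⟨a, ha⟩ := hAw f hf
      refine ⟨a, fun h2 => h1 ?_⟩
      rw [← ha, hW2, ← hρ]
      exact h2)
    cy (hmemB y hy hyQ cy hcy) (hfixW y hy cy hcy)
    ((⟨r, hrQ⟩ : Q) : Q ⧸ Z1.subgroupOf Q)
    (by
      rw [← QuotientGroup.mk_pow, ← QuotientGroup.mk_one, eq_comm, hmk]
      exact ⟨r ^ 3, hr3, by simp⟩)
    (by
      have h1 : ∀ x ∈ closure {x | x ∈ Z1 ∨ ∃ a ∈ A, x = a u9}, ∀ hx : x ∈ Q,
          ((⟨x, hx⟩ : Q) : Q ⧸ Z1.subgroupOf Q) ∈ closure (Set.range fun a : autG h => ρ a W) := by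
        intro x hx
        induction hx using closure_induction with
        | mem x hx =>
          intro hxQ
          rcases hx with hx | ⟨f, hf, rfl⟩
          · have h2 : ((⟨x, hxQ⟩ : Q) : Q ⧸ Z1.subgroupOf Q) = 1 := by
              rw [← QuotientGroup.mk_one, eq_comm, hmk]
              exact ⟨x, hx, by simp⟩
            rw [h2]
            exact one_mem _
          · obtain ⟨a, ha⟩ := hAw f hf
            refine subset_closure ⟨a, ?_⟩
            change ρ a W = _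
            rw [hWdef, hρ]
            congr 1
            exact Subtype.ext ha
        | one => intro hx; exact one_mem _
        | mul x y hx hy ihx ihy =>
          intro hxy
          have hcl : closure {x | x ∈ Z1 ∨ ∃ a ∈ A, x = a u9} ≤ Q := by
            refine (closure_le Q).2 ?_
            rintro x (hx | ⟨a, ha, rfl⟩)
            · exact hZ hx
            · exact h.maps a ha _ h9
          exact mul_mem (ihx (hcl hx)) (ihy (hcl hy))
        | inv x hx ih =>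
          intro hxQ
          have h3 := inv_mem (ih (by simpa using inv_mem hxQ))
          exact h3
      exact h1 r hr hrQ)
    (by
      rw [hρ, eq_comm, hmk]
      refine ⟨_, hyr, ?_⟩
      rw [hcy]
      change y * r * y⁻¹ = r * (y * r * y⁻¹ * r⁻¹)
      rw [← Z1_comm hyr r]
      group)
    (by
      intro a
      obtain ⟨f, hf, h1⟩ := hwA a
      obtain ⟨k, z, hz, hk⟩ := hyv f hf
      refine ⟨k, ?_⟩
      rw [map_mul, MulAut.mul_apply, hWdef, hρ, hρ, ← QuotientGroup.mk_pow, ← QuotientGroup.mk_mul, eq_comm, hmk]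
      refine ⟨z, hz, ?_⟩
      rw [hcy, h1, hk]
      change _ = ((a : MulAut Q) w : P) * r ^ k * z
      rw [h1])
  refine ⟨(hW2 ⟨r, hrQ⟩).2 c1, ?_, ?_, ?_⟩
  · intro f hf hfZ g hg
    obtain ⟨a, ha⟩ := hAw f hf
    obtain ⟨b, hb⟩ := hAw g hg
    obtain ⟨i, j, hij⟩ := c2 _ ⟨a, rfl⟩ (fun h2 => hfZ (by rw [← ha, hW2, ← hρ]; exact h2)) b
    change ρ b W = ρ a W ^ i * W ^ j at hij
    rw [hWdef, hρ, hρ, ← QuotientGroup.mk_pow, ← QuotientGroup.mk_pow, ← QuotientGroup.mk_mul, eq_comm, hmk] at hij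
    obtain ⟨z, hz, h3⟩ := hij
    refine ⟨i, j, z, hz, ?_⟩
    rw [← ha, ← hb]
    exact h3
  · intro f hf hfZ i j
    obtain ⟨a, ha⟩ := hAw f hf
    obtain ⟨b, hb⟩ := c3 _ ⟨a, rfl⟩ (fun h2 => hfZ (by rw [← ha, hW2, ← hρ]; exact h2)) i j
    obtain ⟨g, hg, h1⟩ := hwA b
    have h4 : (ρ b W) ^ 3 = 1 := by
      rw [← map_pow, hW3, map_one]
    obtain ⟨k, hk⟩ := exists_nat h4 hb
    change ρ a W ^ i * W ^ j = _ at hk
    rw [hWdef, hρ, hρ, ← QuotientGroup.mk_pow, ← QuotientGroup.mk_pow, ← QuotientGroup.mk_pow,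
      ← QuotientGroup.mk_mul, eq_comm, hmk] at hk
    obtain ⟨z, hz, h3⟩ := hk
    refine ⟨g, hg, k, z, hz, ?_⟩
    rw [← ha, ← h1]
    exact h3
  · intro n hn
    obtain ⟨cn, hcn'⟩ := hcn n hn
    obtain ⟨k, hk⟩ := c4 cn (by rw [hfixW n hn cn hcn']; exact mem_zpowers W)
    refine ⟨k, ?_⟩
    by_contra h2
    apply hk
    refine hmemB (n * y ^ k) (mul_mem hn (pow_mem hy k)) h2 _ fun x => ?_
    have h5 : ∀ (j : ℕ) (x : Q), (((cy ^ j : autG h) : MulAut Q) x : P) = y ^ j * x * (y ^ j)⁻¹ := by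
      intro j
      induction j with
      | zero => intro x; simp
      | succ j ih =>
        intro x
        rw [pow_succ, Subgroup.coe_mul, MulAut.mul_apply, ih, hcy]
        group
    rw [Subgroup.coe_mul, MulAut.mul_apply, hcn', h5]
    group

end Cfsg.Agent.H38.ThT1
end

-- part: H835/Th2/ThmII
section
/-!
Theorem II for S5228 (task 1135).
-/

set_option autoImplicit false

namespace Cfsg.Agent.H835.Th2

open Cfsg.Agent.H776.ThS Subgroup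

theorem thmII {Q : Subgroup P} {A : Set (P → P)} (h : Ctx Q A) (hSE : SE Q A Z2) (hcore : Core Q A) (hW : Z2 ≤ Q)
    (hfix : ∀ a ∈ A, a u10 ∈ Z1) (hmov : ∃ a ∈ A, a u9 ∉ Z2) :
    Q = E2 ∧ ∀ a ∈ A, ∀ w ∈ Z2, a w ∈ Z3 :=
  thmII_of (fun h1 h2 h3 h4 h5 _ _ h6 h7 h8 h9 h10 h11 =>
    Cfsg.Agent.H38.ThT1.t1w h1 h2 h3 h4 h5 h6 h7 h8 h9 h10 h11) h hSE hcore hW hfix hmov

end Cfsg.Agent.H835.Th2
end
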