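import Cfsg.Agent.H776.ThCtx
import Cfsg.Agent.H759.FusBasic
import Cfsg.Agent.H776.ThBasic_mg
import Mathlib.GroupTheory.Nilpotent
import Cfsg.Agent.H744.EssRad
import Cfsg.Agent.H752.Mp
import Cfsg.Agent.H802.FusSub
import Cfsg.Agent.H776.ThRels
import Cfsg.Agent.H752.Inv
import Cfsg.Agent.H759.FusNormal
import Cfsg.Agent.H184.FusBad
set_option linter.all false

-- part: H347/Th/Basic
section
/-!
# Essential subgroups of the Sylow 3-subgroup of Th which move the centre: basic facts (helper347, task 1134)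
-/

set_option autoImplicit false
set_option linter.style.longLine false

namespace Cfsg.Agent.H347.Th

open Subgroup Cfsg.Agent.H776.ThS

/-- element of the centre -/
def zt (t : ZMod 3) : P := ⟨0, 0, 0, 0, 0, 0, 0, 0, 0, t⟩

theorem zt_mem (t : ZMod 3) : zt t ∈ Z1 := ⟨rfl, rfl, rfl, rfl, rfl, rfl, rfl, rfl, rfl⟩

theorem Z1_N5 {z : P} (hz : z ∈ Z1) : z ∈ N5 := ⟨hz.1, hz.2.1, hz.2.2.1, hz.2.2.2.1, hz.2.2.2.2.1⟩
theorem Z2_N5 {z : P} (hz : z ∈ Z2) : z ∈ N5 := ⟨hz.1, hz.2.1, hz.2.2.1, hz.2.2.2.1, hz.2.2.2.2.1⟩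
theorem Z4_N5 {z : P} (hz : z ∈ Z4) : z ∈ N5 := ⟨hz.1, hz.2.1, hz.2.2.1, hz.2.2.2.1, hz.2.2.2.2.1⟩
theorem Z1_Z2 {z : P} (hz : z ∈ Z1) : z ∈ Z2 := by
  obtain ⟨h1, h2, h3, h4, h5, h6, h7, h8, -⟩ := hz
  exact ⟨h1, h2, h3, h4, h5, h6, h7, h8⟩

/-- product in `N5` with an element of the centre -/
theorem mul_zt (x : P) (t : ZMod 3) : x * zt t = ⟨x.x1, x.x2, x.x3, x.x4, x.x5, x.x6, x.x7, x.x8, x.x9, x.x10 + t⟩ := by
  rw [mulN _ _ (Z1_N5 (zt_mem t))]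
  ext <;> simp [zt]

theorem Z1_eq {z : P} (hz : z ∈ Z1) : z = zt z.x10 := by
  obtain ⟨h1, h2, h3, h4, h5, h6, h7, h8, h9⟩ := hz
  ext <;> simp [zt, h1, h2, h3, h4, h5, h6, h7, h8, h9]

theorem zt_mul (s t : ZMod 3) : zt s * zt t = zt (s + t) := by
  rw [mul_zt]; rfl

theorem u10_pow (k : ℕ) : u10 ^ k = zt k := by
  induction k with
  | zero => rw [pow_zero, Nat.cast_zero]; rfl
  | succ k ih =>
    rw [pow_succ, ih]
    change zt _ * zt 1 = _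
    rw [zt_mul, Nat.cast_succ]

theorem u10_pow_val (t : ZMod 3) : u10 ^ t.val = zt t := by
  rw [u10_pow, ZMod.natCast_zmod_val]

theorem u10_mem : u10 ∈ Z1 := zt_mem 1

theorem u10_pow_mem (k : ℕ) : u10 ^ k ∈ Z1 := pow_mem u10_mem k

theorem Z1_pow {z : P} (hz : z ∈ Z1) : z = u10 ^ z.x10.val := by
  rw [u10_pow_val]; exact Z1_eq hz

/-- the centre is central -/
theorem Z1_comm {z : P} (hz : z ∈ Z1) (x : P) : z * x = x * z := by
  rw [N5_mul z x (Z1_N5 hz)]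
  congr 1
  obtain ⟨h1, h2, h3, h4, h5, h6, h7, h8, h9⟩ := hz
  ext <;> simp [cx, h1, h2, h3, h4, h5, h6, h7, h8, h9]

theorem N5_comm {x y : P} (hx : x ∈ N5) (hy : y ∈ N5) : x * y = y * x := by
  rw [mulN x y hy, mulN y x hx]
  obtain ⟨h1, h2, h3, h4, h5⟩ := hx
  obtain ⟨g1, g2, g3, g4, g5⟩ := hy
  ext <;> simp [h1, h2, h3, h4, h5, g1, g2, g3, g4, g5, add_comm]

theorem cx_eq {c x : P} (hc : c ∈ N5) (h : c * x = x * c) : cx c x = c := by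
  rw [N5_mul c x hc] at h
  exact mul_left_cancel h

theorem N5_conj' {c : P} (hc : c ∈ N5) (x : P) : x * c * x⁻¹ ∈ N5 := by
  have h := N5_conj c x⁻¹ hc
  rw [inv_inv] at h
  rw [h]
  exact cx_mem _ _

theorem Z4_conj' {c : P} (hc : c ∈ Z4) (x : P) : x * c * x⁻¹ ∈ Z4 := by
  have h := N5_conj c x⁻¹ (Z4_N5 hc)
  rw [inv_inv] at h
  rw [h]
  exact ⟨rfl, rfl, rfl, rfl, rfl, hc.2.2.2.2.2⟩

theorem Z4_X6_comm {c x : P} (hc : c ∈ Z4) (hx : x ∈ X6) : c * x = x * c := by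
  rw [N5_mul c x (Z4_N5 hc)]
  congr 1
  obtain ⟨h1, h2, h3, h4, h5, h6⟩ := hc
  obtain ⟨g1, g2, g3, g4⟩ := hx
  ext <;> simp [cx, h1, h2, h3, h4, h5, h6, g1, g2, g3, g4]

theorem Z2_E1_comm {c x : P} (hc : c ∈ Z2) (hx : x ∈ E1) : c * x = x * c := by
  rw [N5_mul c x (Z2_N5 hc)]
  congr 1
  rw [mem_E1] at hx
  obtain ⟨h1, h2, h3, h4, h5, h6, h7, h8⟩ := hc
  ext <;> simp [cx, h1, h2, h3, h4, h5, h6, h7, h8, hx]

/-- powers in `N5` -/
theorem N5_pow {c : P} (hc : c ∈ N5) (k : ℕ) : c ^ k = ⟨0, 0, 0, 0, 0, k * c.x6, k * c.x7, k * c.x8, k * c.x9, k * c.x10⟩ := by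
  induction k with
  | zero => rw [pow_zero]; ext <;> simp [one_x1, one_x2, one_x3, one_x4, one_x5, one_x6, one_x7, one_x8, one_x9, one_x10]
  | succ k ih =>
    rw [pow_succ, mulN _ _ hc, ih]
    ext <;> simp [add_mul]

theorem three_eq : (3 : ZMod 3) = 0 := rfl

theorem N5_cube {c : P} (hc : c ∈ N5) : c ^ 3 = 1 := by
  rw [N5_pow hc]
  ext <;> simp [three_eq, one_x1, one_x2, one_x3, one_x4, one_x5, one_x6, one_x7, one_x8, one_x9, one_x10]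

theorem u10_cube : u10 ^ 3 = 1 := N5_cube (Z1_N5 u10_mem)

theorem pow_x1 (x : P) (k : ℕ) : (x ^ k).x1 = k * x.x1 := by
  induction k with
  | zero => simp [one_x1]
  | succ k ih => rw [pow_succ, mul_x1, ih, Nat.cast_succ]; ring

theorem X6_pow_x5 {x : P} (hx : x ∈ X6) (k : ℕ) : (x ^ k).x5 = k * x.x5 := by
  induction k with
  | zero => simp [one_x5]
  | succ k ih =>
    obtain ⟨h1, h2, h3, h4⟩ := hx
    rw [pow_succ, mul_x5, ih, h1, Nat.cast_succ]; ring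

/-- the orbit of `u10` -/
def Orb (A : Set (P → P)) : Set P := {x | ∃ a ∈ A, x = a u10}

variable {Q : Subgroup P} {A : Set (P → P)}

theorem u10_Q (h : Ctx Q A) : u10 ∈ Q := h.cent _ fun q _ => Z1_comm u10_mem q

theorem Z1_Q (h : Ctx Q A) {z : P} (hz : z ∈ Z1) : z ∈ Q := h.cent _ fun q _ => Z1_comm hz q

theorem orb_self (h : Ctx Q A) : u10 ∈ Orb A := ⟨_, h.id_mem, rfl⟩

theorem orb_Q (h : Ctx Q A) {o : P} (ho : o ∈ Orb A) : o ∈ Q := by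
  obtain ⟨a, ha, rfl⟩ := ho
  exact h.maps a ha _ (u10_Q h)

theorem orb_cube (h : Ctx Q A) {o : P} (ho : o ∈ Orb A) : o ^ 3 = 1 := by
  obtain ⟨a, ha, rfl⟩ := ho
  rw [← h.map_pow ha (u10_Q h), u10_cube, h.one ha]

theorem orb_map (h : Ctx Q A) {a : P → P} (ha : a ∈ A) {o : P} (ho : o ∈ Orb A) : a o ∈ Orb A := by
  obtain ⟨b, hb, rfl⟩ := ho
  exact ⟨_, h.comp a ha b hb, rfl⟩

theorem orb_comm (h : Ctx Q A) {o x : P} (ho : o ∈ Orb A) (hx : x ∈ Q) : x * o = o * x := by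
  obtain ⟨a, ha, rfl⟩ := ho
  obtain ⟨g, hg, hag⟩ := h.inv a ha
  have h1 := h.mul a ha (g x) (h.maps g hg x hx) u10 (u10_Q h)
  have h2 := h.mul a ha u10 (u10_Q h) (g x) (h.maps g hg x hx)
  rw [(hag x hx).2] at h1 h2
  rw [← h1, ← h2, Z1_comm u10_mem]

/-- an element commuting with the orbit is in `Q` -/
theorem mem_Q (h : Ctx Q A) (hSE : SE Q A Z1) (hmov : ∃ a ∈ A, a u10 ∉ Z1) {x : P}
    (hx : ∀ o ∈ Orb A, x * o = o * x) : x ∈ Q := by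
  by_contra hxQ
  let C : Subgroup P := centralizer (Orb A)
  have hQC : Q ≤ C := by
    intro q hq
    rw [mem_centralizer_iff]
    intro o ho
    exact (orb_comm h ho hq).symm
  have hlt : Q < C := lt_of_le_of_ne hQC (by
    rintro rfl
    apply hxQ
    rw [mem_centralizer_iff]
    exact fun o ho => (hx o ho).symm)
  have : Fact (Nat.Prime 3) := ⟨Nat.prime_three⟩
  obtain ⟨n, hnC, hnQ, hn⟩ := Cfsg.Agent.H759.exists_mem_normalizer_not_mem (S := (⊤ : Subgroup P)) (p := 3)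
    (isPGroup_P.to_subgroup ⊤) (R := C) le_top hlt
  obtain ⟨a, ha, haz⟩ := hmov
  have hnO : ∀ b ∈ A, ∀ w ∈ Z1, ∃ w' ∈ Z1, n * b w * n⁻¹ = b w' := by
    intro b hb w hw
    refine ⟨w, hw, ?_⟩
    rw [Z1_pow hw, h.map_pow hb (u10_Q h)]
    have h1 : Commute n (b u10) := (mem_centralizer_iff.1 hnC (b u10) ⟨b, hb, rfl⟩).symm
    rw [(h1.pow_right _).eq, mul_inv_cancel_right]
  obtain ⟨w', hw', e⟩ := SE.conj hSE h hn hnQ ha h.id_mem (hnO a ha) (hnO _ h.id_mem) u10 u10_mem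
  exact haz (by rw [e]; exact hw')

/-- the statement of `t1z` -/
def T1Z : Prop :=
  ∀ (Q : Subgroup P) (A : Set (P → P)), Ctx Q A → SE Q A Z1 → (∃ a ∈ A, a u10 ∉ Z1) →
    ∀ y r : P, y ∈ normalizer (Q : Set P) → y ∉ Q → r ∈ closure {x | ∃ a ∈ A, x = a u10} → r ^ 3 = 1 → y * r = r * y →
    (∀ a ∈ A, ∃ k : ℕ, y * a u10 * y⁻¹ = a u10 * r ^ k) →
    r ∈ Z1 ∧
    (∀ a ∈ A, a u10 ∉ Z1 → ∀ b ∈ A, ∃ i j : ℕ, b u10 = a u10 ^ i * u10 ^ j) ∧
    (∀ a ∈ A, a u10 ∉ Z1 → ∀ i j : ℕ, ∃ b ∈ A, ∃ k : ℕ, a u10 ^ i * u10 ^ j = b u10 ^ k) ∧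
    (∀ n ∈ normalizer (Q : Set P), ∃ k : ℕ, n * y ^ k ∈ Q)

theorem mem_normalizer_of {n : P} (hn : ∀ x ∈ Q, n * x * n⁻¹ ∈ Q) : n ∈ normalizer (Q : Set P) := by
  have : Finite (Q : Set P) := inferInstance
  exact mem_normalizer_fintype hn

/-- the case of a transvection with centre `u10` -/
theorem t1 (T : T1Z) (h : Ctx Q A) (hSE : SE Q A Z1) (hmov : ∃ a ∈ A, a u10 ∉ Z1) {y : P}
    (hy : ∀ o ∈ Orb A, ∃ z ∈ Z1, y * o = o * y * z) (hne : ∃ o ∈ Orb A, y * o ≠ o * y) :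
    (∀ o ∈ Orb A, o ∉ Z1 → ∀ x, x * o = o * x → x ∈ Q) ∧
    (∀ o ∈ Orb A, ∀ n ∈ normalizer (Q : Set P), ∃ z ∈ Z1, n * o = o * n * z) := by
  have hyN : y ∈ normalizer (Q : Set P) := by
    apply mem_normalizer_of
    intro x hx
    apply mem_Q h hSE hmov
    intro o ho
    obtain ⟨z, hz, e⟩ := hy o ho
    have h1 : y⁻¹ * o * y = o * z⁻¹ := by
      rw [mul_assoc, inv_mul_eq_iff_eq_mul, ← mul_assoc, e, mul_assoc, mul_inv_cancel, mul_one]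
    have h2 : x * (y⁻¹ * o * y) = (y⁻¹ * o * y) * x := by
      rw [h1, ← mul_assoc, orb_comm h ho hx, mul_assoc, mul_assoc, Z1_comm (inv_mem hz)]
    calc y * x * y⁻¹ * o = y * (x * (y⁻¹ * o * y)) * y⁻¹ := by group
      _ = y * ((y⁻¹ * o * y) * x) * y⁻¹ := by rw [h2]
      _ = o * (y * x * y⁻¹) := by group
  have hyQ : y ∉ Q := by
    intro hyQ
    obtain ⟨o, ho, e⟩ := hne
    exact e (orb_comm h ho hyQ)
  obtain ⟨-, h2, -, h4⟩ := T Q A h hSE hmov y u10 hyN hyQ (subset_closure (orb_self h)) u10_cube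
    (Z1_comm u10_mem y).symm (fun a ha => by
      obtain ⟨z, hz, e⟩ := hy (a u10) ⟨a, ha, rfl⟩
      refine ⟨z.x10.val, ?_⟩
      rw [← Z1_pow hz, e, mul_assoc, Z1_comm hz, mul_assoc, mul_inv_cancel_left])
  refine ⟨?_, ?_⟩
  · rintro _ ⟨a, ha, rfl⟩ haz x hx
    apply mem_Q h hSE hmov
    rintro _ ⟨b, hb, rfl⟩
    obtain ⟨i, j, e⟩ := h2 a ha haz b hb
    rw [e]
    have c1 : Commute x (a u10) := hx
    have c2 : Commute x u10 := (Z1_comm u10_mem x).symm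
    exact ((c1.pow_right i).mul_right (c2.pow_right j)).eq
  · intro o ho n hn
    obtain ⟨k, hk⟩ := h4 n hn
    obtain ⟨z, hz, e⟩ := hy o ho
    have h5 : ∀ m : ℕ, y ^ m * o = o * y ^ m * z ^ m := by
      intro m
      induction m with
      | zero => simp
      | succ m ih =>
        rw [pow_succ y, mul_assoc, e, ← mul_assoc, ← mul_assoc, ih, pow_succ z]
        have c : Commute (z ^ m) y := Z1_comm (pow_mem hz m) y
        rw [mul_assoc (o * y ^ m), c.eq]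
        simp only [mul_assoc]
    have h6 := orb_comm h ho hk
    refine ⟨(z ^ k)⁻¹, inv_mem (pow_mem hz k), ?_⟩
    have h7 : n = (n * y ^ k) * (y ^ k)⁻¹ := by group
    have h8 : (y ^ k)⁻¹ * o = o * (y ^ k)⁻¹ * (z ^ k)⁻¹ := by
      have c : (z ^ k)⁻¹ * y ^ k = y ^ k * (z ^ k)⁻¹ := Z1_comm (inv_mem (pow_mem hz k)) _
      rw [inv_mul_eq_iff_eq_mul, ← mul_assoc, ← mul_assoc, h5]
      rw [mul_assoc o, mul_assoc (o * _)]
      have c2 : z ^ k * (y ^ k)⁻¹ = (y ^ k)⁻¹ * z ^ k := Z1_comm (pow_mem hz k) _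
      rw [mul_assoc, mul_assoc, ← mul_assoc (z ^ k), c2]
      group
    calc n * o = (n * y ^ k) * ((y ^ k)⁻¹ * o) := by group
      _ = (n * y ^ k) * (o * (y ^ k)⁻¹ * (z ^ k)⁻¹) := by rw [h8]
      _ = ((n * y ^ k) * o) * (y ^ k)⁻¹ * (z ^ k)⁻¹ := by group
      _ = (o * (n * y ^ k)) * (y ^ k)⁻¹ * (z ^ k)⁻¹ := by rw [h6]
      _ = o * n * (z ^ k)⁻¹ := by group

end Cfsg.Agent.H347.Th
end

-- part: H347/Th/CaseA
section
/-!
# The cases (i), (ii) and (iii-a) (helper347, task 1134)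
-/

set_option autoImplicit false
set_option linter.style.longLine false

namespace Cfsg.Agent.H347.Th

open Subgroup Cfsg.Agent.H776.ThS

variable {Q : Subgroup P} {A : Set (P → P)}

theorem u9_N5 : u9 ∈ N5 := ⟨rfl, rfl, rfl, rfl, rfl⟩
theorem u8_N5 : u8 ∈ N5 := ⟨rfl, rfl, rfl, rfl, rfl⟩
theorem u7_N5 : u7 ∈ N5 := ⟨rfl, rfl, rfl, rfl, rfl⟩
theorem u6_N5 : u6 ∈ N5 := ⟨rfl, rfl, rfl, rfl, rfl⟩

/-- an element of `P` with `n * o = o * n * z`, `o ∈ N5` -/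
theorem cx_of_comm {o n z : P} (ho : o ∈ N5) (e : n * o = o * n * z) : o = cx o n * z := by
  rw [N5_mul o n ho, mul_assoc] at e
  exact mul_left_cancel e

/-- (i) -/
theorem case_i (T : T1Z) (h : Ctx Q A) (hSE : SE Q A Z1) (hmov : ∃ a ∈ A, a u10 ∉ Z1)
    (hc : ∃ o ∈ Orb A, o ∉ E1) : False := by
  obtain ⟨v, hv, hv1⟩ := hc
  have hcx : ∀ o : P, cx u9 o = u9 * zt o.x1 := by
    intro o
    rw [mul_zt]
    ext <;> simp [cx, u9]
  have hH : ∀ o ∈ Orb A, ∃ z ∈ Z1, u9 * o = o * u9 * z := by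
    intro o _
    refine ⟨zt o.x1, zt_mem _, ?_⟩
    rw [N5_mul u9 o u9_N5, hcx, mul_assoc]
  have hne : ∃ o ∈ Orb A, u9 * o ≠ o * u9 := by
    refine ⟨v, hv, fun e => hv1 ?_⟩
    have e1 := cx_eq u9_N5 e
    rw [hcx, mul_zt] at e1
    have e2 := congrArg V.x10 e1
    rw [mem_E1]
    simpa [u9] using e2
  obtain ⟨hA, hB⟩ := t1 T h hSE hmov hH hne
  have hvZ : v ∉ Z1 := fun hz => hv1 hz.1
  have hQ := hA v hv hvZ
  have hv3 := orb_cube h hv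
  have hv2 := mem_E2_of_cube hv3 hv1
  rw [mem_E1] at hv1
  rw [mem_E2] at hv2
  -- `u7`
  let f : P := ⟨0, 0, 0, 0, 0, 0, 0, -v.x1, (cx u7 v).x9, (cx u7 v).x10⟩
  have hf5 : f ∈ N5 := ⟨rfl, rfl, rfl, rfl, rfl⟩
  have hf : u7 * v = v * (f * u7) := by
    rw [N5_mul u7 v u7_N5, mulN f u7 u7_N5]
    congr 1
    ext <;> simp [f, cx, u7]
  have hfv : f * v = v * f := by
    rw [N5_mul f v hf5]
    congr 1
    ext <;> simp [f, cx, hv2, u7]
    ring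
  have h7 : u7 ∈ normalizer (Q : Set P) := by
    apply mem_normalizer_of
    intro x hx
    obtain ⟨k, hk⟩ : ∃ k : ℕ, (k : ZMod 3) * v.x1 = x.x1 := by
      refine ⟨(x.x1 * v.x1⁻¹).val, ?_⟩
      rw [ZMod.natCast_zmod_val, mul_assoc, inv_mul_cancel₀ hv1, mul_one]
    have hcv : Commute x v := orb_comm h hv hx
    have he1 : ((v ^ k)⁻¹ * x) ∈ E1 := by
      rw [mem_E1]
      have h1 : ((v ^ k) * ((v ^ k)⁻¹ * x)).x1 = x.x1 := by rw [mul_inv_cancel_left]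
      rw [mul_x1, pow_x1, hk] at h1
      linear_combination h1
    have hce : Commute ((v ^ k)⁻¹ * x) v :=
      ((Commute.refl v).pow_left k).inv_left.mul_left hcv
    have he : ((v ^ k)⁻¹ * x) ∈ X6 :=
      cent_E2E1 (v := v) (by rwa [mem_E1]) (by rwa [mem_E2]) hv3 he1 (one_mem Z1) (by rw [mul_one]; exact hce)
    have h7e : u7 * ((v ^ k)⁻¹ * x) = ((v ^ k)⁻¹ * x) * u7 := Z4_X6_comm ⟨rfl, rfl, rfl, rfl, rfl, rfl⟩ he
    have h7v : u7 * v * u7⁻¹ = v * f := by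
      rw [hf, mul_assoc, mul_inv_cancel_right]
    apply hQ
    have h8 : u7 * x * u7⁻¹ = (v * f) ^ k * ((v ^ k)⁻¹ * x) := by
      have h9 : u7 * ((v ^ k)⁻¹ * x) * u7⁻¹ = (v ^ k)⁻¹ * x := by rw [h7e, mul_inv_cancel_right]
      rw [← h7v, conj_pow]
      conv_rhs => rw [← h9]
      group
    rw [h8]
    have c1 : Commute (v * f) v := (Commute.refl v).mul_left hfv
    exact ((c1.pow_left k).mul_left hce).eq
  obtain ⟨z, hz, e⟩ := hB v hv u7 h7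
  have e3 : v * (f * u7) = v * (u7 * z) := by rw [← hf, e, mul_assoc]
  have e4 := mul_left_cancel e3
  rw [mulN f u7 u7_N5, mulN u7 z (Z1_N5 hz)] at e4
  have e5 := congrArg V.x8 e4
  obtain ⟨-, -, -, -, -, -, -, z8, -⟩ := hz
  simp [f, u7, z8] at e5
  exact hv1 e5

/-- (ii) -/
theorem case_ii (T : T1Z) (h : Ctx Q A) (hSE : SE Q A Z1) (hmov : ∃ a ∈ A, a u10 ∉ Z1)
    (hN : ∀ o ∈ Orb A, o ∈ N5) (hc : ∃ o ∈ Orb A, o ∉ Z2) : False := by
  obtain ⟨v, hv, hv2⟩ := hc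
  have hvN := hN v hv
  have hY : ∃ y : P, (∀ o ∈ Orb A, ∃ z ∈ Z1, y * o = o * y * z) ∧ ∃ o ∈ Orb A, y * o ≠ o * y := by
    have aux : ∀ (y : P) (t : P → ZMod 3), (∀ o ∈ Orb A, cx o y = o * zt (t o)) → (∃ o ∈ Orb A, t o ≠ 0) →
        (∀ o ∈ Orb A, ∃ z ∈ Z1, y * o = o * y * z) ∧ ∃ o ∈ Orb A, y * o ≠ o * y := by
      intro y t ht ht0
      have hyo : ∀ o ∈ Orb A, o * y = y * o * zt (t o) := by
        intro o ho
        rw [N5_mul o y (hN o ho), ht o ho, mul_assoc]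
      refine ⟨fun o ho => ⟨(zt (t o))⁻¹, inv_mem (zt_mem _), by rw [hyo o ho, mul_inv_cancel_right]⟩, ?_⟩
      obtain ⟨o, ho, h0⟩ := ht0
      refine ⟨o, ho, fun e => h0 ?_⟩
      have e1 := hyo o ho
      rw [e] at e1
      have e2 : zt (t o) = 1 := (left_eq_mul.1 e1)
      exact congrArg V.x10 e2
    by_cases d6 : ∃ o ∈ Orb A, o.x6 ≠ 0
    · refine ⟨u5, aux u5 (fun o => o.x6) (fun o ho => ?_) d6⟩
      obtain ⟨h1, h2, h3, h4, h5⟩ := hN o ho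
      rw [mul_zt]
      ext <;> simp [cx, u5, h1, h2, h3, h4, h5]
    · push Not at d6
      by_cases d7 : ∃ o ∈ Orb A, o.x7 ≠ 0
      · refine ⟨u4, aux u4 (fun o => -o.x7) (fun o ho => ?_) (by simpa using d7)⟩
        obtain ⟨h1, h2, h3, h4, h5⟩ := hN o ho
        rw [mul_zt]
        ext <;> simp [cx, u4, h1, h2, h3, h4, h5, d6 o ho, sub_eq_add_neg]
      · push Not at d7
        refine ⟨u3, aux u3 (fun o => -o.x8) (fun o ho => ?_) ⟨v, hv, ?_⟩⟩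
        · obtain ⟨h1, h2, h3, h4, h5⟩ := hN o ho
          rw [mul_zt]
          ext <;> simp [cx, u3, h1, h2, h3, h4, h5, d6 o ho, d7 o ho, sub_eq_add_neg]
        · rw [neg_ne_zero]
          intro h8
          obtain ⟨h1, h2, h3, h4, h5⟩ := hN v hv
          exact hv2 ⟨h1, h2, h3, h4, h5, d6 v hv, d7 v hv, h8⟩
  obtain ⟨y, hH, hne⟩ := hY
  obtain ⟨hA, hB⟩ := t1 T h hSE hmov hH hne
  have hvZ : v ∉ Z1 := fun hz => hv2 (Z1_Z2 hz)
  have hQ := hA v hv hvZ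
  have hNQ : ∀ c ∈ N5, c ∈ Q := fun c hc => mem_Q h hSE hmov fun o ho => N5_comm hc (hN o ho)
  by_cases hE : ∀ x ∈ Q, x ∈ E1
  · have hE1 : ∀ e ∈ E1, e ∈ normalizer (Q : Set P) := by
      intro e he
      apply mem_normalizer_of
      intro x hx
      have e1 : e * x * e⁻¹ = x * (e * ce e x * e⁻¹) := by
        rw [E1_mul e x he (hE x hx)]
        group
      rw [e1]
      exact mul_mem hx (hNQ _ (N5_conj' (ce_mem e x) e))
    have h9 : ∀ e ∈ E1, (cx v e).x9 = v.x9 := by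
      intro e he
      obtain ⟨z, hz, e2⟩ := hB v hv e (hE1 e he)
      have e3 := cx_of_comm hvN e2
      rw [mulN _ _ (Z1_N5 hz)] at e3
      have e4 := congrArg V.x9 e3
      obtain ⟨-, -, -, -, -, -, -, -, z9⟩ := hz
      simp only [z9, add_zero] at e4
      exact e4.symm
    have h6 : v.x6 = 0 := by
      have := h9 u4 rfl
      simpa [cx, u4] using this
    have h7 : v.x7 = 0 := by
      have := h9 u3 rfl
      simpa [cx, u3] using this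
    have h8 : v.x8 = 0 := by
      have := h9 u2 rfl
      simpa [cx, u2, h6] using this
    obtain ⟨h1, h2, h3, h4, h5⟩ := hvN
    exact hv2 ⟨h1, h2, h3, h4, h5, h6, h7, h8⟩
  · push Not at hE
    obtain ⟨q, hq, hq1⟩ := hE
    rw [mem_E1] at hq1
    have hcom : ∀ x ∈ Q, cx v x = v := fun x hx => cx_eq hvN (orb_comm h hv hx).symm
    have v6 : v.x6 = 0 := by
      have e := congrArg V.x7 (hcom q hq)
      have e' : v.x7 + q.x1 * v.x6 = v.x7 := e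
      have : q.x1 * v.x6 = 0 := by linear_combination e'
      exact (mul_eq_zero.1 this).resolve_left hq1
    have v7 : v.x7 = 0 := by
      have e' : v.x8 - q.x1 * v.x7 + q.x1 ^ 2 * v.x6 = v.x8 := congrArg V.x8 (hcom q hq)
      rw [v6] at e'
      have : q.x1 * v.x7 = 0 := by linear_combination -e'
      exact (mul_eq_zero.1 this).resolve_left hq1
    have v8 : v.x8 ≠ 0 := by
      intro v8
      obtain ⟨h1, h2, h3, h4, h5⟩ := hvN
      exact hv2 ⟨h1, h2, h3, h4, h5, v6, v7, v8⟩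
    have hx2 : ∀ x ∈ Q, x.x2 = 0 := by
      intro x hx
      have e' : v.x9 - x.x4 * v.x6 - x.x3 * v.x7 - x.x2 * v.x8 + x.x2 * v.x6 - x.x1 * x.x3 * v.x6
        + x.x1 * x.x2 * v.x7 - x.x1 ^ 2 * x.x2 * v.x6 = v.x9 := congrArg V.x9 (hcom x hx)
      rw [v6, v7] at e'
      have : x.x2 * v.x8 = 0 := by linear_combination -e'
      exact (mul_eq_zero.1 this).resolve_right v8
    have hx3 : ∀ x ∈ Q, x.x3 * v.x8 = x.x1 * v.x9 := by
      intro x hx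
      have e' : v.x10 + x.x5 * v.x6 - x.x4 * v.x7 - x.x3 * v.x8 + x.x3 * v.x6 + x.x2 * v.x7 + x.x1 * v.x9
        - x.x1 * x.x4 * v.x6 + x.x1 * x.x3 * v.x7 + x.x1 * x.x2 * v.x6 - x.x1 ^ 2 * x.x3 * v.x6 = v.x10 :=
        congrArg V.x10 (hcom x hx)
      rw [v6, v7] at e'
      linear_combination -e'
    have claim1 : ∀ x ∈ Q, ∀ y ∈ Q, ∃ n ∈ Z4, x * y = y * x * n := by
      intro x hx y hy
      have x2 := hx2 x hx
      have y2 := hx2 y hy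
      have h34 : x.x3 * y.x1 = y.x3 * x.x1 := by
        have h1 := hx3 x hx
        have h2 := hx3 y hy
        have : (x.x3 * y.x1 - y.x3 * x.x1) * v.x8 = 0 := by linear_combination y.x1 * h1 - x.x1 * h2
        have := (mul_eq_zero.1 this).resolve_right v8
        linear_combination this
      refine ⟨_, ?_, exists_N5 (x * y) (y * x) ?_ ?_ ?_ ?_ ?_⟩
      · refine ⟨rfl, rfl, rfl, rfl, rfl, ?_⟩
        change (x * y).x6 - (y * x).x6 = 0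
        rw [mul_x6, mul_x6, x2, y2]
        ring
      · rw [mul_x1, mul_x1, add_comm]
      · rw [mul_x2, mul_x2, add_comm]
      · rw [mul_x3, mul_x3, x2, y2]; ring
      · rw [mul_x4, mul_x4, x2, y2]
        linear_combination -h34
      · rw [mul_x5, mul_x5, x2, y2]; ring
    obtain ⟨a, ha, haz⟩ := hmov
    obtain ⟨g, hg, hag⟩ := h.inv a ha
    let κ : P := ⟨0, 0, 0, 0, 0, 0, (cx u6 q).x7, (cx u6 q).x8, (cx u6 q).x9, (cx u6 q).x10⟩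
    have hκN : κ ∈ N5 := ⟨rfl, rfl, rfl, rfl, rfl⟩
    have hκ7 : κ.x7 = q.x1 := by simp [κ, cx, u6]
    have hκ : u6 * q = q * u6 * κ := by
      rw [N5_mul u6 q u6_N5, mul_assoc q, mulN u6 κ hκN]
      congr 1
      ext <;> simp [κ, cx, u6]
    have u5Q : u5 ∈ Q := by
      apply hQ
      rw [N5_mul v u5 hvN]
      congr 1
      obtain ⟨h1, h2, h3, h4, h5⟩ := hvN
      ext <;> simp [cx, u5, v6, h1, h2, h3, h4, h5]
    have u6Q : u6 ∈ Q := hNQ _ u6_N5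
    have κQ : κ ∈ Q := hNQ _ hκN
    have gκ : g κ ∈ Z4 := by
      have e1 := congrArg g hκ
      rw [h.mul g hg _ u6Q _ hq, h.mul g hg _ (mul_mem hq u6Q) _ κQ, h.mul g hg _ hq _ u6Q] at e1
      obtain ⟨n, hn, e2⟩ := claim1 _ (h.maps g hg _ u6Q) _ (h.maps g hg _ hq)
      rw [e2] at e1
      rw [← mul_left_cancel e1]
      exact hn
    have claim2 : ∀ x ∈ Q, κ * x = x * κ → x ∈ X6 := by
      intro x hx e
      have e1 := cx_eq hκN e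
      have x2 := hx2 x hx
      have hκ6 : κ.x6 = 0 := rfl
      have κ7 : κ.x7 ≠ 0 := by rw [hκ7]; exact hq1
      have x1 : x.x1 = 0 := by
        have e' : κ.x8 - x.x1 * κ.x7 + x.x1 ^ 2 * κ.x6 = κ.x8 := congrArg V.x8 e1
        have : x.x1 * κ.x7 = 0 := by linear_combination -e' + x.x1 ^ 2 * hκ6
        exact (mul_eq_zero.1 this).resolve_right κ7
      have x3 : x.x3 = 0 := by
        have e' : κ.x9 - x.x4 * κ.x6 - x.x3 * κ.x7 - x.x2 * κ.x8 + x.x2 * κ.x6 - x.x1 * x.x3 * κ.x6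
          + x.x1 * x.x2 * κ.x7 - x.x1 ^ 2 * x.x2 * κ.x6 = κ.x9 := congrArg V.x9 e1
        rw [hκ6, x1, x2] at e'
        have : x.x3 * κ.x7 = 0 := by linear_combination -e'
        exact (mul_eq_zero.1 this).resolve_right κ7
      have x4 : x.x4 = 0 := by
        have e' : κ.x10 + x.x5 * κ.x6 - x.x4 * κ.x7 - x.x3 * κ.x8 + x.x3 * κ.x6 + x.x2 * κ.x7 + x.x1 * κ.x9
          - x.x1 * x.x4 * κ.x6 + x.x1 * x.x3 * κ.x7 + x.x1 * x.x2 * κ.x6 - x.x1 ^ 2 * x.x3 * κ.x6 = κ.x10 :=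
          congrArg V.x10 e1
        rw [hκ6, x1, x2, x3] at e'
        have : x.x4 * κ.x7 = 0 := by linear_combination -e'
        exact (mul_eq_zero.1 this).resolve_right κ7
      exact ⟨x1, x2, x3, x4⟩
    have claim3 : ∀ c ∈ X6, c ∈ Q → a c ∈ X6 := by
      intro c hc hcQ
      apply claim2 _ (h.maps a ha c hcQ)
      have e1 := congrArg a (Z4_X6_comm gκ hc)
      rw [h.mul a ha _ (h.maps g hg _ κQ) _ hcQ, h.mul a ha _ hcQ _ (h.maps g hg _ κQ), (hag κ κQ).2] at e1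
      exact e1
    have a5 := claim3 u5 ⟨rfl, rfl, rfl, rfl⟩ u5Q
    have a6 := claim3 u6 ⟨rfl, rfl, rfl, rfl⟩ u6Q
    have e1 : u6 * u5 = u5 * u6 * u10 := by
      rw [N5_mul u6 u5 u6_N5, mul_assoc]
      congr 1
      change _ = u6 * zt 1
      rw [mul_zt]
      ext <;> simp [cx, u6, u5]
    have e2 := congrArg a e1
    rw [h.mul a ha _ u6Q _ u5Q, h.mul a ha _ (mul_mem u5Q u6Q) _ (u10_Q h), h.mul a ha _ u5Q _ u6Q,
      E1_mul (a u6) (a u5) a6.1 a5.1] at e2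
    have e3 := mul_left_cancel e2
    apply haz
    rw [← e3]
    obtain ⟨s1, s2, s3, s4⟩ := a5
    obtain ⟨t1, t2, t3, t4⟩ := a6
    refine ⟨rfl, rfl, rfl, rfl, rfl, ?_, ?_, ?_, ?_⟩
    · change (a u6).x5 * (a u5).x2 - (a u5).x5 * (a u6).x2 = 0
      rw [s2, t2]; ring
    · change (a u6).x5 * (a u5).x3 - (a u6).x4 * (a u5).x2 - (a u5).x5 * (a u6).x3 + (a u5).x4 * (a u6).x2 = 0
      rw [s2, t2, s3, t3]; ring
    · change (a u6).x5 * (a u5).x4 - (a u6).x4 * (a u5).x3 - (a u5).x5 * (a u6).x4 + (a u5).x4 * (a u6).x3 = 0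
      rw [s3, t3, s4, t4]; ring
    · change (a u6 * a u5).x9 - (a u5 * a u6).x9 = 0
      rw [mulE_x9 _ _ s1, mulE_x9 _ _ t1, s2, t2, s3, t3, s4, t4]; ring

/-- (iii-a) -/
theorem case_iiia (T : T1Z) (h : Ctx Q A) (hSE : SE Q A Z1) (hmov : ∃ a ∈ A, a u10 ∉ Z1)
    (hX : ∀ o ∈ Orb A, o ∈ X6) (hc : ∃ o ∈ Orb A, o ∉ N5) : False := by
  obtain ⟨v, hv, hvN⟩ := hc
  have hvX := hX v hv
  have v5 : v.x5 ≠ 0 := by
    intro v5
    obtain ⟨h1, h2, h3, h4⟩ := hvX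
    exact hvN ⟨h1, h2, h3, h4, v5⟩
  have hcx : ∀ o ∈ X6, cx u6 o = u6 * zt o.x5 := by
    intro o ho
    obtain ⟨h1, h2, h3, h4⟩ := ho
    rw [mul_zt]
    ext <;> simp [cx, u6, h1, h2, h3, h4]
  have hH : ∀ o ∈ Orb A, ∃ z ∈ Z1, u6 * o = o * u6 * z := by
    intro o ho
    refine ⟨zt o.x5, zt_mem _, ?_⟩
    rw [N5_mul u6 o u6_N5, hcx o (hX o ho), mul_assoc]
  have hne : ∃ o ∈ Orb A, u6 * o ≠ o * u6 := by
    refine ⟨v, hv, fun e => v5 ?_⟩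
    have e1 := cx_eq u6_N5 e
    rw [hcx v hvX, mul_zt] at e1
    have e2 := congrArg V.x10 e1
    simpa [u6] using e2
  obtain ⟨hA, hB⟩ := t1 T h hSE hmov hH hne
  have hvZ : v ∉ Z1 := fun hz => hvN (Z1_N5 hz)
  have hQ := hA v hv hvZ
  obtain ⟨w1, w2, w3, w4⟩ := hvX
  -- elements of `Q`
  have hx2 : ∀ x ∈ Q, x.x2 = 0 := by
    intro x hx
    have e := congrArg V.x6 (orb_comm h hv hx)
    rw [mul_x6, mul_x6, w1, w2] at e
    have : v.x5 * x.x2 = 0 := by linear_combination -e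
    exact (mul_eq_zero.1 this).resolve_left v5
  have hx3 : ∀ x ∈ Q, v.x5 * x.x3 = -(v.x6 * x.x1) := by
    intro x hx
    have e := congrArg V.x7 (orb_comm h hv hx)
    rw [mul_x7, mul_x7, w1, w2, w3, w4, hx2 x hx] at e
    linear_combination -e
  have hx4 : ∀ x ∈ Q, v.x5 * x.x4 = v.x7 * x.x1 - v.x6 * x.x1 ^ 2 := by
    intro x hx
    have e := congrArg V.x8 (orb_comm h hv hx)
    rw [mul_x8, mul_x8, w1, w2, w3, w4, hx2 x hx] at e
    linear_combination -e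
  by_cases hE : ∀ x ∈ Q, x ∈ E1
  · have hQX : ∀ x ∈ Q, x ∈ X6 := by
      intro x hx
      have x1 := mem_E1.1 (hE x hx)
      refine ⟨x1, hx2 x hx, ?_, ?_⟩
      · have e := hx3 x hx
        rw [x1, mul_zero, neg_zero] at e
        exact (mul_eq_zero.1 e).resolve_left v5
      · have e := hx4 x hx
        rw [x1] at e
        have : v.x5 * x.x4 = 0 := by linear_combination e
        exact (mul_eq_zero.1 this).resolve_left v5
    have hce : ∀ x ∈ X6, ce u4 x ∈ Z4 := by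
      intro x hx
      obtain ⟨h1, h2, h3, h4⟩ := hx
      refine ⟨rfl, rfl, rfl, rfl, rfl, ?_⟩
      simp [ce, u4, h2]
    have h4 : u4 ∈ normalizer (Q : Set P) := by
      apply mem_normalizer_of
      intro x hx
      have hxX := hQX x hx
      have e1 : u4 * x * u4⁻¹ = x * (u4 * ce u4 x * u4⁻¹) := by
        rw [E1_mul u4 x rfl hxX.1]
        group
      rw [e1]
      apply hQ
      have c1 : Commute x v := orb_comm h hv hx
      have c2 : Commute (u4 * ce u4 x * u4⁻¹) v := Z4_X6_comm (Z4_conj' (hce x hxX) u4) ⟨w1, w2, w3, w4⟩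
      exact (c1.mul_left c2).eq
    obtain ⟨z, hz, e⟩ := hB v hv u4 h4
    rw [E1_mul u4 v rfl w1] at e
    have e2 := mul_left_cancel e
    have e3 := congrArg V.x8 e2
    rw [hz.2.2.2.2.2.2.2.1] at e3
    have e4 : -v.x3 - v.x5 = 0 := by
      have : (ce u4 v).x8 = -v.x3 - v.x5 := by simp [ce, u4]
      rw [← this]; exact e3
    apply v5
    linear_combination -e4 - w3
  · push Not at hE
    obtain ⟨q, hq, hq1⟩ := hE
    rw [mem_E1] at hq1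
    have u9Q : u9 ∈ Q := by
      apply hQ
      rw [N5_mul u9 v u9_N5]
      congr 1
      ext <;> simp [cx, u9, w1]
    have e1 : u9 * q = q * u9 * zt q.x1 := by
      rw [N5_mul u9 q u9_N5, mul_assoc]
      congr 1
      rw [mul_zt]
      ext <;> simp [cx, u9]
    obtain ⟨a, ha, rfl⟩ := hv
    have e2 := congrArg a e1
    rw [← u10_pow_val, h.mul a ha _ u9Q _ hq, h.mul a ha _ (mul_mem hq u9Q) _ (pow_mem (u10_Q h) _),
      h.mul a ha _ hq _ u9Q, h.map_pow ha (u10_Q h)] at e2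
    have claim : ∀ x ∈ Q, ∀ y ∈ Q, ∃ n ∈ N5, x * y = y * x * n := by
      intro x hx y hy
      have x2 := hx2 x hx
      have y2 := hx2 y hy
      refine ⟨_, ⟨rfl, rfl, rfl, rfl, rfl⟩, exists_N5 (x * y) (y * x) ?_ ?_ ?_ ?_ ?_⟩
      · rw [mul_x1, mul_x1, add_comm]
      · rw [mul_x2, mul_x2, add_comm]
      · rw [mul_x3, mul_x3, x2, y2]; ring
      · rw [mul_x4, mul_x4, x2, y2]
        have h3 := hx3 x hx
        have h3' := hx3 y hy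
        have : (a u10).x5 * (x.x3 * y.x1 - y.x3 * x.x1) = 0 := by
          linear_combination y.x1 * h3 - x.x1 * h3'
        have := (mul_eq_zero.1 this).resolve_left v5
        linear_combination -this
      · rw [mul_x5, mul_x5, x2, y2]; ring
    obtain ⟨n, hn, e3⟩ := claim _ (h.maps a ha _ u9Q) _ (h.maps a ha _ hq)
    rw [e3] at e2
    have e4 := mul_left_cancel e2
    have e5 := congrArg V.x5 e4
    rw [hn.2.2.2.2, X6_pow_x5 ⟨w1, w2, w3, w4⟩, ZMod.natCast_zmod_val] at e5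
    exact mul_ne_zero hq1 v5 e5.symm

end Cfsg.Agent.H347.Th
end

-- part: H347/Th/ThmI
section
/-!
# Essential subgroups of the Sylow 3-subgroup of Th which move the centre (helper347, task 1134)
-/

set_option autoImplicit false
set_option linter.style.longLine false

namespace Cfsg.Agent.H347.Th

open Subgroup Cfsg.Agent.H776.ThS

variable {Q : Subgroup P} {A : Set (P → P)}

/-- rank two: the commutators with `N5` cover `Z2` -/
theorem cover (a0 a1 a2 a3 : ZMod 3) (h : ¬ (a0 * a2 = a1 ^ 2 ∧ a1 * a3 = a2 ^ 2 ∧ a0 * a3 = a1 * a2)) (s t : ZMod 3) :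
    ∃ n6 n7 n8 : ZMod 3, a1 * n6 + a2 * n7 + a3 * n8 = s ∧ a0 * n6 + a1 * n7 + a2 * n8 = t := by
  have key : ∀ d : ZMod 3, d ≠ 0 → d * d = 1 := by decide
  by_cases h1 : a0 * a2 = a1 ^ 2
  · by_cases h2 : a1 * a3 = a2 ^ 2
    · have h3 : a1 * a2 - a0 * a3 ≠ 0 := fun e => h ⟨h1, h2, by linear_combination -e⟩
      have hd := key _ h3
      refine ⟨(a1 * a2 - a0 * a3) * (a2 * s - a3 * t), 0, (a1 * a2 - a0 * a3) * (a1 * t - a0 * s), ?_, ?_⟩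
      · linear_combination s * hd
      · linear_combination t * hd
    · have h3 : a2 ^ 2 - a1 * a3 ≠ 0 := fun e => h2 (by linear_combination -e)
      have hd := key _ h3
      refine ⟨0, (a2 ^ 2 - a1 * a3) * (a2 * s - a3 * t), (a2 ^ 2 - a1 * a3) * (a2 * t - a1 * s), ?_, ?_⟩
      · linear_combination s * hd
      · linear_combination t * hd
  · have h3 : a1 ^ 2 - a0 * a2 ≠ 0 := fun e => h1 (by linear_combination -e)
    have hd := key _ h3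
    refine ⟨(a1 ^ 2 - a0 * a2) * (a1 * s - a2 * t), (a1 ^ 2 - a0 * a2) * (a1 * t - a0 * s), 0, ?_, ?_⟩
    · linear_combination s * hd
    · linear_combination t * hd

/-- commutators of elements of `E1` with elements of `N5` -/
theorem cx_E1 {n x : P} (hn : n ∈ N5) (hx : x.x1 = 0) : cx n x = n * ⟨0, 0, 0, 0, 0, 0, 0, 0,
    (x.x2 - x.x4) * n.x6 + (-x.x3) * n.x7 + (-x.x2) * n.x8,
    (x.x5 + x.x3) * n.x6 + (x.x2 - x.x4) * n.x7 + (-x.x3) * n.x8⟩ := by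
  rw [mulN _ _ ⟨rfl, rfl, rfl, rfl, rfl⟩]
  obtain ⟨h1, h2, h3, h4, h5⟩ := hn
  ext <;> simp [cx, hx, h1, h2, h3, h4, h5] <;> ring

/-- (iii-b) -/
theorem case_iiib (T : T1Z) (h : Ctx Q A) (hSE : SE Q A Z1) (hmov : ∃ a ∈ A, a u10 ∉ Z1)
    (hE : ∀ o ∈ Orb A, o ∈ E1) (hc : ∃ o ∈ Orb A, o ∉ X6) : False := by
  have hne : ∀ o ∈ Orb A, o ∉ X6 → o.x2 ≠ 0 ∨ o.x3 ≠ 0 := by
    intro o ho hoX
    by_contra hcon
    push Not at hcon
    exact hoX (mem_X6_of_cube (orb_cube h ho) ⟨mem_E1.1 (hE o ho), hcon.1, hcon.2⟩)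
  obtain ⟨v, hv, hvX⟩ := hc
  have v1 := mem_E1.1 (hE v hv)
  have v23 := hne v hv hvX
  have hQE : ∀ x ∈ Q, x ∈ E1 := by
    intro x hx
    have e := orb_comm h hv hx
    have e3 := congrArg V.x3 e
    have e4 := congrArg V.x4 e
    rw [mul_x3, mul_x3, v1] at e3
    rw [mul_x4, mul_x4, v1] at e4
    rw [mem_E1]
    have h1 : v.x2 * x.x1 = 0 := by linear_combination -e3
    have h2 : v.x3 * x.x1 = 0 := by linear_combination e4 + x.x1 * h1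
    rcases v23 with h0 | h0
    · exact (mul_eq_zero.1 h1).resolve_left h0
    · exact (mul_eq_zero.1 h2).resolve_left h0
  have hZ2Q : ∀ z ∈ Z2, z ∈ Q := fun z hz => mem_Q h hSE hmov fun o ho => Z2_E1_comm hz (hE o ho)
  have hN5 : ∀ n ∈ N5, n ∈ normalizer (Q : Set P) := by
    intro n hn
    apply mem_normalizer_of
    intro x hx
    have x1 := mem_E1.1 (hQE x hx)
    rw [N5_mul n x hn, cx_E1 hn x1, ← mul_assoc]
    have hz : (⟨0, 0, 0, 0, 0, 0, 0, 0, (x.x2 - x.x4) * n.x6 + (-x.x3) * n.x7 + (-x.x2) * n.x8,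
      (x.x5 + x.x3) * n.x6 + (x.x2 - x.x4) * n.x7 + (-x.x3) * n.x8⟩ : P) ∈ Z2 :=
      ⟨rfl, rfl, rfl, rfl, rfl, rfl, rfl, rfl⟩
    rw [mul_assoc x, N5_comm hn (Z2_N5 hz), ← mul_assoc, mul_inv_cancel_right]
    exact mul_mem hx (hZ2Q _ hz)
  -- an element of `N5` outside `Q`
  have hout : ∃ n ∈ N5, n ∉ Q := by
    rcases v23 with h0 | h0
    · refine ⟨u8, u8_N5, fun hq => h0 ?_⟩
      have e := congrArg V.x9 (cx_eq u8_N5 (orb_comm h hv hq))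
      rw [cx_E1 u8_N5 v1, mulN _ _ ⟨rfl, rfl, rfl, rfl, rfl⟩] at e
      simpa [u8] using e
    · refine ⟨u7, u7_N5, fun hq => h0 ?_⟩
      have e := congrArg V.x9 (cx_eq u7_N5 (orb_comm h hv hq))
      rw [cx_E1 u7_N5 v1, mulN _ _ ⟨rfl, rfl, rfl, rfl, rfl⟩] at e
      simpa [u7] using e
  have h1 : ∀ o ∈ Orb A, o ∈ N5 → o ∈ Z1 := by
    rintro _ ⟨a, ha, rfl⟩ hoN
    obtain ⟨n, hn, hnQ⟩ := hout
    have hfix : ∀ b ∈ A, b u10 ∈ N5 → ∀ w ∈ Z1, ∃ w' ∈ Z1, n * b w * n⁻¹ = b w' := by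
      intro b hb hbN w hw
      refine ⟨w, hw, ?_⟩
      rw [Z1_pow hw, h.map_pow hb (u10_Q h)]
      have c : Commute n (b u10) := N5_comm hn hbN
      rw [(c.pow_right _).eq, mul_inv_cancel_right]
    obtain ⟨w', hw', e⟩ := SE.conj hSE h (hN5 n hn) hnQ ha h.id_mem (hfix a ha hoN)
      (hfix _ h.id_mem (Z1_N5 u10_mem)) u10 u10_mem
    rw [e]
    exact hw'
  by_cases r1 : ∃ o ∈ Orb A, o ∉ X6 ∧ Rk1 o
  · obtain ⟨o, ho, hoX, hr⟩ := r1
    have o1 := mem_E1.1 (hE o ho)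
    have o23 := hne o ho hoX
    have hmul : ∀ o' ∈ Orb A, ∃ k : ZMod 3, o'.x2 = k * o.x2 ∧ o'.x3 = k * o.x3 ∧ o'.x4 = k * o.x4 ∧
        o'.x5 = k * o.x5 := by
      intro o' ho'
      have e := orb_comm h ho (orb_Q h ho')
      rw [E1_mul o' o (hE o' ho') (hE o ho)] at e
      have e1 : ce o' o = 1 := mul_eq_left.1 e
      have e6 := congrArg V.x6 e1
      have e7 := congrArg V.x7 e1
      have e8 := congrArg V.x8 e1
      apply rank1_cent o23 hr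
      · have : o'.x5 * o.x2 - o.x5 * o'.x2 = 0 := e6
        linear_combination this
      · have : o'.x5 * o.x3 - o'.x4 * o.x2 - o.x5 * o'.x3 + o.x4 * o'.x2 = 0 := e7
        linear_combination this
      · have : o'.x5 * o.x4 - o'.x4 * o.x3 - o.x5 * o'.x4 + o.x4 * o'.x3 = 0 := e8
        linear_combination this
    -- a common argument
    have aux : ∀ y ∈ N5, (o.x2 - o.x4) * y.x6 + (-o.x3) * y.x7 + (-o.x2) * y.x8 ≠ 0 → False := by
      intro y hy hy0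
      let r : P := ⟨0, 0, 0, 0, 0, 0, 0, 0, (o.x2 - o.x4) * y.x6 + (-o.x3) * y.x7 + (-o.x2) * y.x8,
        (o.x5 + o.x3) * y.x6 + (o.x2 - o.x4) * y.x7 + (-o.x3) * y.x8⟩
      have hrN : r ∈ N5 := ⟨rfl, rfl, rfl, rfl, rfl⟩
      have hyr : y * r = r * y := N5_comm hy hrN
      have hyo : y * o = o * y * r := by
        rw [N5_mul y o hy, cx_E1 hy o1, ← mul_assoc]
      have hyQ : y ∉ Q := by
        intro hyQ
        have e := orb_comm h ho hyQ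
        rw [hyo] at e
        have e1 : r = 1 := mul_eq_left.1 e
        exact hy0 (congrArg V.x9 e1)
      have hrV : r ∈ closure {x | ∃ a ∈ A, x = a u10} := by
        have e0 : y * o * y⁻¹ = o * r := by
          rw [hyo, mul_assoc o, hyr, ← mul_assoc, mul_inv_cancel_right]
        have e1 : r = o⁻¹ * (y * o * y⁻¹) := by
          rw [e0, inv_mul_cancel_left]
        rw [e1]
        refine mul_mem (inv_mem (subset_closure ho)) (subset_closure ?_)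
        exact orb_map h (h.conj y (hN5 y hy)) ho
      obtain ⟨hrZ, -⟩ := T Q A h hSE hmov y r (hN5 y hy) hyQ hrV (N5_cube hrN) hyr (by
        intro a ha
        obtain ⟨k, k2, k3, k4, k5⟩ := hmul (a u10) ⟨a, ha, rfl⟩
        have a1 := mem_E1.1 (hE (a u10) ⟨a, ha, rfl⟩)
        refine ⟨k.val, ?_⟩
        rw [N5_mul y _ hy, cx_E1 hy a1, N5_pow hrN, ZMod.natCast_zmod_val]
        have e2 : (⟨0, 0, 0, 0, 0, 0, 0, 0, ((a u10).x2 - (a u10).x4) * y.x6 + (-(a u10).x3) * y.x7 + (-(a u10).x2) * y.x8,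
          ((a u10).x5 + (a u10).x3) * y.x6 + ((a u10).x2 - (a u10).x4) * y.x7 + (-(a u10).x3) * y.x8⟩ : P) =
          ⟨0, 0, 0, 0, 0, k * r.x6, k * r.x7, k * r.x8, k * r.x9, k * r.x10⟩ := by
          ext <;> simp only [r, k2, k3, k4, k5, mul_zero]
          · ring
          · ring
        rw [e2]
        have hzN : (⟨0, 0, 0, 0, 0, k * r.x6, k * r.x7, k * r.x8, k * r.x9, k * r.x10⟩ : P) ∈ N5 :=
          ⟨rfl, rfl, rfl, rfl, rfl⟩
        rw [N5_comm hy hzN, ← mul_assoc, mul_inv_cancel_right])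
      exact hy0 hrZ.2.2.2.2.2.2.2.2
    rcases o23 with h0 | h0
    · exact aux u8 u8_N5 (by simpa [u8] using h0)
    · exact aux u7 u7_N5 (by simpa [u7] using h0)
  · -- rank two
    have h2 : ∀ o ∈ Orb A, o ∉ N5 → ∀ z ∈ Z2, o * z ∈ Orb A := by
      intro o ho hoN z hz
      have o1 := mem_E1.1 (hE o ho)
      have hoX : o ∉ X6 := by
        intro hoX
        obtain ⟨w1, w2, w3, w4⟩ := hoX
        have e := orb_comm h ho (orb_Q h hv)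
        rw [E1_mul v o (hE v hv) (hE o ho)] at e
        have e1 : ce v o = 1 := mul_eq_left.1 e
        have e6 : v.x5 * o.x2 - o.x5 * v.x2 = 0 := congrArg V.x6 e1
        have e7 : v.x5 * o.x3 - v.x4 * o.x2 - o.x5 * v.x3 + o.x4 * v.x2 = 0 := congrArg V.x7 e1
        have o5 : o.x5 ≠ 0 := fun o5 => hoN ⟨w1, w2, w3, w4, o5⟩
        rcases v23 with h0 | h0
        · have : o.x5 * v.x2 = 0 := by linear_combination -e6 + v.x5 * w2
          exact mul_ne_zero o5 h0 this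
        · have : o.x5 * v.x3 = 0 := by linear_combination -e7 + v.x5 * w3 - v.x4 * w2 + v.x2 * w4
          exact mul_ne_zero o5 h0 this
      have hnr : ¬ Rk1 o := fun hr => r1 ⟨o, ho, hoX, hr⟩
      obtain ⟨n6, n7, n8, c1, c2⟩ := cover (o.x5 + o.x3) (o.x2 - o.x4) (-o.x3) (-o.x2)
        (fun hh => hnr ⟨hh.1, by linear_combination hh.2.1, hh.2.2⟩) z.x9 z.x10
      let n : P := ⟨0, 0, 0, 0, 0, n6, n7, n8, 0, 0⟩
      have hn : n ∈ N5 := ⟨rfl, rfl, rfl, rfl, rfl⟩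
      have hzz : (⟨0, 0, 0, 0, 0, 0, 0, 0, (o.x2 - o.x4) * n.x6 + (-o.x3) * n.x7 + (-o.x2) * n.x8,
        (o.x5 + o.x3) * n.x6 + (o.x2 - o.x4) * n.x7 + (-o.x3) * n.x8⟩ : P) = z := by
        obtain ⟨z1, z2, z3, z4, z5, z6, z7, z8⟩ := hz
        ext
        · exact z1.symm
        · exact z2.symm
        · exact z3.symm
        · exact z4.symm
        · exact z5.symm
        · exact z6.symm
        · exact z7.symm
        · exact z8.symm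
        · exact c1
        · exact c2
      have e : n * o * n⁻¹ = o * z := by
        rw [N5_mul n o hn, cx_E1 hn o1, hzz, N5_comm hn (Z2_N5 hz), ← mul_assoc, mul_inv_cancel_right]
      rw [← e]
      exact orb_map h (h.conj n (hN5 n hn)) ho
    obtain ⟨a, ha, haz⟩ := hmov
    obtain ⟨g, hg, hag⟩ := h.inv a ha
    have haN : a u10 ∉ N5 := fun hN => haz (h1 _ ⟨a, ha, rfl⟩ hN)
    have key : ∀ z ∈ Z2, z ∉ Z1 → g z ∈ Z2 := by
      intro z hz hzZ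
      by_contra hgz
      apply hzZ
      have hzQ := hZ2Q z hz
      have hlQ := h.maps g hg z hzQ
      -- `u10 * g z` is in the orbit
      obtain ⟨b, hb, e⟩ := h2 _ ⟨a, ha, rfl⟩ haN z hz
      have e1 : u10 * g z = g (b u10) := by
        rw [← e, h.mul g hg _ (h.maps a ha _ (u10_Q h)) _ hzQ, (hag u10 (u10_Q h)).1]
      have hul : u10 * g z ∈ Orb A := by
        rw [e1]
        exact orb_map h hg ⟨b, hb, rfl⟩
      have hulN : u10 * g z ∉ N5 := by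
        intro hN
        have h3 := h1 _ hul hN
        apply hgz
        have h4 : g z = u10⁻¹ * (u10 * g z) := by group
        rw [h4]
        exact mul_mem (inv_mem (Z1_Z2 u10_mem)) (Z1_Z2 h3)
      have h3 := h2 _ hul hulN u10⁻¹ (inv_mem (Z1_Z2 u10_mem))
      have h4 : u10 * g z * u10⁻¹ = g z := by rw [Z1_comm u10_mem, mul_inv_cancel_right]
      rw [h4] at h3
      have h5 := orb_map h ha h3
      rw [(hag z hzQ).2] at h5
      exact h1 _ h5 (Z2_N5 hz)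
    have u9Z : u9 ∈ Z2 := ⟨rfl, rfl, rfl, rfl, rfl, rfl, rfl, rfl⟩
    have u9n : u9 ∉ Z1 := fun hz => absurd hz.2.2.2.2.2.2.2.2 (by decide)
    have k1 := key u9 u9Z u9n
    have k2 := key (u9 * u10) (mul_mem u9Z (Z1_Z2 u10_mem)) (fun hz => u9n (by
      have e : u9 = u9 * u10 * u10⁻¹ := by group
      rw [e]
      exact mul_mem hz (inv_mem u10_mem)))
    rw [h.mul g hg _ (hZ2Q _ u9Z) _ (u10_Q h)] at k2
    have k3 : g u10 ∈ Z2 := by
      have e : g u10 = (g u9)⁻¹ * (g u9 * g u10) := by group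
      rw [e]
      exact mul_mem (inv_mem k1) k2
    have k4 : g u10 ∈ Z1 := h1 _ ⟨g, hg, rfl⟩ (Z2_N5 k3)
    -- `a` maps the centre to itself
    have hne0 : (g u10).x10 ≠ 0 := by
      intro h0
      have e := Z1_eq k4
      rw [h0] at e
      have e1 : g u10 = g 1 := by rw [h.one hg, e]; rfl
      have e2 := h.inj hg (u10_Q h) (one_mem Q) e1
      exact absurd (congrArg V.x10 e2) (by decide)
    have e3 := (hag u10 (u10_Q h)).2
    rw [Z1_pow k4, h.map_pow ha (u10_Q h)] at e3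
    have key2 : ∀ t : ZMod 3, t ≠ 0 → t.val * t.val % 3 = 1 := by decide
    have hk := key2 _ hne0
    have ho3 := orb_cube h ⟨a, ha, rfl⟩
    apply haz
    have e4 : a u10 = u10 ^ (g u10).x10.val := by
      generalize (g u10).x10.val = t at e3 hk
      calc a u10 = a u10 ^ (t * t) := by
            rw [← Nat.mod_add_div (t * t) 3, hk, pow_add, pow_mul, ho3, one_pow, mul_one, pow_one]
        _ = u10 ^ t := by rw [pow_mul, e3]
    rw [e4]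
    exact u10_pow_mem _

/-- Theorem I, from `t1z` -/
theorem thmI_of (T : T1Z) (h : Ctx Q A) (hSE : SE Q A Z1) (hmov : ∃ a ∈ A, a u10 ∉ Z1) : Q = E1 := by
  by_cases c1 : ∃ o ∈ Orb A, o ∉ E1
  · exact (case_i T h hSE hmov c1).elim
  push Not at c1
  by_cases c2 : ∃ o ∈ Orb A, o ∉ X6
  · exact (case_iiib T h hSE hmov c1 c2).elim
  push Not at c2
  by_cases c3 : ∃ o ∈ Orb A, o ∉ N5
  · exact (case_iiia T h hSE hmov c2 c3).elim
  push Not at c3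
  by_cases c4 : ∃ o ∈ Orb A, o ∉ Z2
  · exact (case_ii T h hSE hmov c3 c4).elim
  push Not at c4
  obtain ⟨a, ha, haz⟩ := hmov
  have ho : a u10 ∈ Orb A := ⟨a, ha, rfl⟩
  have h9 : (a u10).x9 ≠ 0 := by
    intro h9
    obtain ⟨h1, h2, h3, h4, h5, h6, h7, h8⟩ := c4 _ ho
    exact haz ⟨h1, h2, h3, h4, h5, h6, h7, h8, h9⟩
  apply le_antisymm
  · intro x hx
    have e := cx_eq (c3 _ ho) (orb_comm h ho hx).symm
    obtain ⟨h1, h2, h3, h4, h5, h6, h7, h8⟩ := c4 _ ho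
    have e' := congrArg V.x10 e
    simp only [cx, h6, h7, h8] at e'
    have : x.x1 * (a u10).x9 = 0 := by linear_combination e'
    exact (mul_eq_zero.1 this).resolve_right h9
  · intro x hx
    exact mem_Q h hSE ⟨a, ha, haz⟩ fun o ho => (Z2_E1_comm (c4 o ho) hx).symm

/-- **Theorem I** -/
theorem thmI {Q : Subgroup P} {A : Set (P → P)} (h : Ctx Q A) (hSE : SE Q A Z1) (hmov : ∃ a ∈ A, a u10 ∉ Z1) :
    Q = E1 :=
  thmI_of (fun _ _ h hSE hmov _ _ hy hyQ hr hr3 hyr hyv => Cfsg.Agent.H38.ThT1.t1z h hSE hmov hy hyQ hr hr3 hyr hyv) h hSE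
    hmov

end Cfsg.Agent.H347.Th
end

-- part: H418/ThBeta0
section
/-!
Facts for "Theorem beta" on the model of the Sylow 3-subgroup of the Thompson group.
-/

set_option autoImplicit false
set_option linter.style.longLine false

namespace Cfsg.Agent.H418.ThB

open Subgroup Cfsg.Agent.H776.ThS

theorem Z2_le_N5 {x : P} (hx : x ∈ Z2) : x ∈ N5 := ⟨hx.1, hx.2.1, hx.2.2.1, hx.2.2.2.1, hx.2.2.2.2.1⟩
theorem Z2_le_E1 {x : P} (hx : x ∈ Z2) : x ∈ E1 := hx.1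
theorem N5_le_E1 {x : P} (hx : x ∈ N5) : x ∈ E1 := hx.1
theorem Z1_le_Z2 {x : P} (hx : x ∈ Z1) : x ∈ Z2 :=
  ⟨hx.1, hx.2.1, hx.2.2.1, hx.2.2.2.1, hx.2.2.2.2.1, hx.2.2.2.2.2.1, hx.2.2.2.2.2.2.1, hx.2.2.2.2.2.2.2.1⟩

/-- the commutator `[n, x]` for `n` in `N5` and `x` in `E1` -/
def dd (n x : P) : P := ⟨0, 0, 0, 0, 0, 0, 0, 0, (x.x2 - x.x4) * n.x6 - x.x3 * n.x7 - x.x2 * n.x8,
  (x.x5 + x.x3) * n.x6 + (x.x2 - x.x4) * n.x7 - x.x3 * n.x8⟩

theorem dd_mem (n x : P) : dd n x ∈ Z2 := ⟨rfl, rfl, rfl, rfl, rfl, rfl, rfl, rfl⟩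

theorem comm_N5 {m n : P} (hm : m ∈ N5) (hn : n ∈ N5) : m * n = n * m := by
  rw [mulN m n hn, mulN n m hm]
  obtain ⟨h1, h2, h3, h4, h5⟩ := hm
  obtain ⟨k1, k2, k3, k4, k5⟩ := hn
  ext <;> simp only [h1, h2, h3, h4, h5, k1, k2, k3, k4, k5] <;> ring

theorem N5_E1 {n x : P} (hn : n ∈ N5) (hx : x ∈ E1) : n * x = x * dd n x * n := by
  have hx1 : x.x1 = 0 := hx
  rw [N5_mul n x hn, mul_assoc, mulN _ _ (cx_mem n x), mulN (dd n x) n hn, mulN x _]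
  · ext <;> simp only [cx, dd, hx1] <;> ring
  · exact ⟨rfl, rfl, rfl, rfl, rfl⟩

theorem conj_N5 {n x : P} (hn : n ∈ N5) (hx : x ∈ E1) : n * x * n⁻¹ = x * dd n x := by
  rw [N5_E1 hn hx, mul_inv_cancel_right]

theorem comm_Z2 {w x : P} (hw : w ∈ Z2) (hx : x ∈ E1) : w * x = x * w := by
  rw [N5_E1 (Z2_le_N5 hw) hx]
  have : dd w x = 1 := by
    obtain ⟨-, -, -, -, -, h6, h7, h8⟩ := hw
    ext <;> simp [dd, h6, h7, h8, one_x1, one_x2, one_x3, one_x4, one_x5, one_x6, one_x7, one_x8, one_x9, one_x10]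
  rw [this, mul_one]

theorem u9_mem : u9 ∈ Z2 := ⟨rfl, rfl, rfl, rfl, rfl, rfl, rfl, rfl⟩
theorem u10_mem : u10 ∈ Z2 := ⟨rfl, rfl, rfl, rfl, rfl, rfl, rfl, rfl⟩
theorem u10_mem1 : u10 ∈ Z1 := ⟨rfl, rfl, rfl, rfl, rfl, rfl, rfl, rfl, rfl⟩

/-- `Z1` is central -/
theorem comm_Z1 {w x : P} (hw : w ∈ Z1) : w * x = x * w := by
  rw [N5_mul w x (Z2_le_N5 (Z1_le_Z2 hw))]
  congr 1
  obtain ⟨h1, h2, h3, h4, h5, h6, h7, h8, h9⟩ := hw
  ext <;> simp [cx, h1, h2, h3, h4, h5, h6, h7, h8, h9]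

theorem mem_E1_of_comm {x : P} (h : ∀ w ∈ Z2, w * x = x * w) : x ∈ E1 := by
  have h1 := h u9 u9_mem
  rw [N5_mul u9 x (Z2_le_N5 u9_mem), mul_right_inj] at h1
  have h2 : (cx u9 x).x10 = u9.x10 := by rw [h1]
  simp only [cx, u9] at h2
  rw [mem_E1]
  linear_combination h2

theorem mem_N5_of_comm {x : P} (hx : x ∈ E1) (h : ∀ n ∈ N5, n * x = x * n) : x ∈ N5 := by
  have key : ∀ n ∈ N5, dd n x = 1 := by
    intro n hn
    have h1 := h n hn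
    rw [N5_E1 hn hx, mul_left_inj] at h1
    simpa using h1
  have h6 := key u6 ⟨rfl, rfl, rfl, rfl, rfl⟩
  have h7 := key u7 ⟨rfl, rfl, rfl, rfl, rfl⟩
  have h8 := key u8 ⟨rfl, rfl, rfl, rfl, rfl⟩
  have a1 : (dd u6 x).x9 = 0 := by rw [h6]; rfl
  have a2 : (dd u6 x).x10 = 0 := by rw [h6]; rfl
  have b1 : (dd u7 x).x9 = 0 := by rw [h7]; rfl
  have c1 : (dd u8 x).x9 = 0 := by rw [h8]; rfl
  simp only [dd, u6, u7, u8] at a1 a2 b1 c1
  have e2 : x.x2 = 0 := by linear_combination -c1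
  have e3 : x.x3 = 0 := by linear_combination -b1
  have e4 : x.x4 = 0 := by linear_combination -a1 + e2
  have e5 : x.x5 = 0 := by linear_combination a2 - e3
  exact ⟨hx, e2, e3, e4, e5⟩

theorem mem_Z2_of_comm {x : P} (hx : x ∈ E1) (h : ∀ y ∈ E1, y * x = x * y) : x ∈ Z2 := by
  have hN := mem_N5_of_comm hx (fun n hn => h n (N5_le_E1 hn))
  have key : ∀ y ∈ E1, dd x y = 1 := by
    intro y hy
    have h1 := h y hy
    rw [N5_E1 hN hy] at h1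
    have h2 : y * x = y * (dd x y * x) := by rw [h1, mul_assoc]
    rw [mul_right_inj] at h2
    exact (right_eq_mul.1 h2)
  have h5 := key u5 rfl
  have h3 := key u3 rfl
  have a1 : (dd x u5).x10 = 0 := by rw [h5]; rfl
  have a2 : (dd x u3).x9 = 0 := by rw [h3]; rfl
  have a3 : (dd x u3).x10 = 0 := by rw [h3]; rfl
  simp only [dd, u5, u3] at a1 a2 a3
  have e6 : x.x6 = 0 := by linear_combination a1
  have e7 : x.x7 = 0 := by linear_combination -a2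
  have e8 : x.x8 = 0 := by linear_combination -a3 + e6
  exact ⟨hN.1, hN.2.1, hN.2.2.1, hN.2.2.2.1, hN.2.2.2.2, e6, e7, e8⟩

theorem mem_N5_of_comm_mod {x : P} (hx : x ∈ E1) (h : ∀ y ∈ E1, ∃ z ∈ Z2, x * y = y * x * z) : x ∈ N5 := by
  have key : ∀ y ∈ E1, ce x y ∈ Z2 := by
    intro y hy
    obtain ⟨z, hz, h1⟩ := h y hy
    rw [E1_mul x y hx hy, mul_right_inj] at h1
    rw [h1]
    exact hz
  have h2 := key u2 rfl
  have h5 := key u5 rfl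
  obtain ⟨-, -, -, -, -, a6, a7, -⟩ := h2
  obtain ⟨-, -, -, -, -, b6, b7, -⟩ := h5
  simp only [ce, u2, u5] at a6 a7 b6 b7
  have e5 : x.x5 = 0 := by linear_combination a6
  have e4 : x.x4 = 0 := by linear_combination -a7
  have e2 : x.x2 = 0 := by linear_combination -b6
  have e3 : x.x3 = 0 := by linear_combination -b7
  exact ⟨hx, e2, e3, e4, e5⟩

/-! ### elements of `P` acting on `E1` -/

theorem E1_normal (y : P) {x : P} (hx : x ∈ E1) : y * x * y⁻¹ ∈ E1 := by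
  have h : ∀ a b : P, (a * b).x1 = a.x1 + b.x1 := mul_x1
  have h1 : (y * y⁻¹).x1 = 0 := by rw [mul_inv_cancel]; rfl
  rw [mem_E1] at hx ⊢
  rw [h] at h1
  rw [h, h, hx, add_zero, h1]

theorem mem_normalizer_E1 (y : P) : y ∈ normalizer (E1 : Set P) := by
  rw [mem_normalizer_iff]
  intro x
  refine ⟨fun hx => E1_normal y hx, fun hx => ?_⟩
  have := E1_normal y⁻¹ hx
  simpa [mul_assoc] using this

theorem isPGroup_sub (H : Subgroup P) : IsPGroup 3 H := isPGroup_P.to_subgroup H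

/-- normalizers grow -/
theorem exists_norm {Q R : Subgroup P} (hQR : Q ≤ R) (hne : ∃ x ∈ R, x ∉ Q) :
    ∃ g ∈ R, g ∉ Q ∧ g ∈ normalizer (Q : Set P) := by
  have : Fact (Nat.Prime 3) := ⟨Nat.prime_three⟩
  have := (isPGroup_sub R).isNilpotent
  have hnc : NormalizerCondition R := Group.normalizerCondition_of_isNilpotent
  have hlt : Q.subgroupOf R < ⊤ := by
    rw [lt_top_iff_ne_top]
    intro h
    rw [Subgroup.subgroupOf_eq_top] at h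
    obtain ⟨x, hx, hxQ⟩ := hne
    exact hxQ (h hx)
  have h1 := hnc _ hlt
  obtain ⟨g, hg, hgQ⟩ := SetLike.exists_of_lt h1
  refine ⟨g, g.2, fun h => hgQ (mem_subgroupOf.2 h), ?_⟩
  rw [mem_normalizer_iff] at hg ⊢
  intro x
  constructor
  · intro hx
    exact mem_subgroupOf.1 ((hg ⟨x, hQR hx⟩).1 (mem_subgroupOf.2 hx))
  · intro hx
    have hxR : x ∈ R := by
      have h2 := mul_mem (mul_mem (inv_mem g.2) (hQR hx)) g.2
      simpa [mul_assoc] using h2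
    exact mem_subgroupOf.1 ((hg ⟨x, hxR⟩).2 (mem_subgroupOf.2 hx))

end Cfsg.Agent.H418.ThB
end

-- part: H418/ThBeta1
section
/-!
"Theorem beta" on the model of the Sylow 3-subgroup of the Thompson group: general lemmas.
-/

set_option autoImplicit false
set_option linter.style.longLine false

namespace Cfsg.Agent.H418.ThB

open Subgroup Cfsg.Agent.H776.ThS

/-! ### `Z2` as a vector space -/

/-- an element of `Z2` -/
def zz (a b : ZMod 3) : P := ⟨0, 0, 0, 0, 0, 0, 0, 0, a, b⟩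

theorem zz_mem (a b : ZMod 3) : zz a b ∈ Z2 := ⟨rfl, rfl, rfl, rfl, rfl, rfl, rfl, rfl⟩

theorem eq_zz {w : P} (hw : w ∈ Z2) : w = zz w.x9 w.x10 := by
  obtain ⟨h1, h2, h3, h4, h5, h6, h7, h8⟩ := hw
  ext <;> simp [zz, *]

theorem zz_mul (a b c d : ZMod 3) : zz a b * zz c d = zz (a + c) (b + d) := by
  rw [mulN _ _ (Z2_le_N5 (zz_mem c d))]
  ext <;> simp [zz]

theorem zz_one : zz 0 0 = 1 := rfl

theorem zz_pow (a b : ZMod 3) (n : ℕ) : zz a b ^ n = zz (n * a) (n * b) := by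
  induction n with
  | zero => rw [pow_zero, Nat.cast_zero, zero_mul, zero_mul, zz_one]
  | succ n ih =>
    rw [pow_succ, ih, zz_mul]
    push_cast
    congr 1 <;> ring

theorem zz_inj {a b c d : ZMod 3} (h : zz a b = zz c d) : a = c ∧ b = d :=
  ⟨congrArg V.x9 h, congrArg V.x10 h⟩

theorem zz_mem1 {a b : ZMod 3} : zz a b ∈ Z1 ↔ a = 0 :=
  ⟨fun h => h.2.2.2.2.2.2.2.2, fun h => ⟨rfl, rfl, rfl, rfl, rfl, rfl, rfl, rfl, h⟩⟩

theorem u10_eq : u10 = zz 0 1 := rfl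
theorem u9_eq : u9 = zz 1 0 := rfl

theorem lin1 : ∀ a b : ZMod 3, b ≠ 0 → ∃ j : ℕ, a = j * b := by
  intro a b hb
  refine ⟨(a * b⁻¹).val, ?_⟩
  rw [ZMod.natCast_zmod_val]
  field_simp

/-- generation of `Z1` -/
theorem Z1_pow {s t : P} (hs : s ∈ Z1) (ht : t ∈ Z1) (hs1 : s ≠ 1) : ∃ j : ℕ, t = s ^ j := by
  have e1 := eq_zz (Z1_le_Z2 hs)
  have e2 := eq_zz (Z1_le_Z2 ht)
  have s9 : s.x9 = 0 := hs.2.2.2.2.2.2.2.2
  have t9 : t.x9 = 0 := ht.2.2.2.2.2.2.2.2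
  rw [s9] at e1
  rw [t9] at e2
  have hs10 : s.x10 ≠ 0 := by
    intro h
    rw [h] at e1
    exact hs1 e1
  obtain ⟨j, hj⟩ := lin1 t.x10 s.x10 hs10
  refine ⟨j, ?_⟩
  rw [e1, e2, zz_pow, mul_zero]
  congr 1

theorem Z2_pow3 {w : P} (hw : w ∈ Z2) : w ^ 3 = 1 := by
  rw [eq_zz hw, zz_pow]
  have : ((3 : ℕ) : ZMod 3) = 0 := by decide
  rw [this, zero_mul, zero_mul, zz_one]

theorem det2 : ∀ a b c d : ZMod 3, (a ≠ 0 ∨ b ≠ 0) → a * d - b * c = 0 → ∃ k : ZMod 3, c = k * a ∧ d = k * b := by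
  decide

/-- generation of `Z2` -/
theorem Z2_span {s t : P} (hs : s ∈ Z2) (ht : t ∈ Z2) (hs1 : s ≠ 1) :
    (∃ j : ℕ, t = s ^ j) ∨ ∀ z ∈ Z2, ∃ i j : ℕ, z = s ^ i * t ^ j := by
  have e1 := eq_zz hs
  have e2 := eq_zz ht
  generalize s.x9 = a at e1
  generalize s.x10 = b at e1
  generalize t.x9 = c at e2
  generalize t.x10 = d at e2
  have hab : a ≠ 0 ∨ b ≠ 0 := by
    by_contra hc
    push Not at hc
    rw [hc.1, hc.2] at e1
    exact hs1 e1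
  by_cases hD : a * d - b * c = 0
  · left
    obtain ⟨k, h1, h2⟩ := det2 a b c d hab hD
    refine ⟨k.val, ?_⟩
    rw [e1, e2, zz_pow, ZMod.natCast_zmod_val, h1, h2]
  · right
    intro z hz
    have e3 := eq_zz hz
    generalize z.x9 = x at e3
    generalize z.x10 = y at e3
    refine ⟨((x * d - y * c) * (a * d - b * c)⁻¹).val, ((a * y - b * x) * (a * d - b * c)⁻¹).val, ?_⟩
    rw [e1, e2, e3, zz_pow, zz_pow, ZMod.natCast_zmod_val, ZMod.natCast_zmod_val, zz_mul]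
    have hDi : (a * d - b * c) * (a * d - b * c)⁻¹ = 1 := mul_inv_cancel₀ hD
    congr 1
    · linear_combination (-x) * hDi
    · linear_combination (-y) * hDi

section
variable {Q : Subgroup P} {A : Set (P → P)}

/-- the members `a Z2` are central in `Q` -/
theorem member_central (h : Ctx Q A) (hQ : Q ≤ E1) (hW : Z2 ≤ Q) {a : P → P} (ha : a ∈ A) {w : P} (hw : w ∈ Z2)
    {q : P} (hq : q ∈ Q) : a w * q = q * a w := by
  obtain ⟨g, hg, h1⟩ := h.inv a ha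
  have hgq := h.maps g hg q hq
  rw [← (h1 q hq).2, ← h.mul a ha _ (hW hw) _ hgq, ← h.mul a ha _ hgq _ (hW hw), comm_Z2 hw (hQ hgq)]

theorem mem_Q_of_comm (h : Ctx Q A) (hSE : SE Q A Z2) (hQ : Q ≤ E1) (hW : Z2 ≤ Q)
    (hmov : ∃ a ∈ A, ∃ w ∈ Z2, a w ∉ Z2) {x : P} (hx : ∀ a ∈ A, ∀ w ∈ Z2, x * a w = a w * x) : x ∈ Q := by
  by_contra hxQ
  set C : Subgroup P := centralizer {v | ∃ a ∈ A, ∃ w ∈ Z2, v = a w} with hC
  have hxC : x ∈ C := by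
    rw [hC, mem_centralizer_iff]
    rintro v ⟨a, ha, w, hw, rfl⟩
    exact (hx a ha w hw).symm
  have hQC : Q ≤ C := by
    intro q hq
    rw [hC, mem_centralizer_iff]
    rintro v ⟨a, ha, w, hw, rfl⟩
    exact member_central h hQ hW ha hw hq
  obtain ⟨n, hn, hnQ, hnn⟩ := exists_norm hQC ⟨x, hxC, hxQ⟩
  rw [hC, mem_centralizer_iff] at hn
  obtain ⟨a, ha, w, hw, haw⟩ := hmov
  have key : ∀ b ∈ A, ∀ w ∈ Z2, ∃ w' ∈ Z2, n * b w * n⁻¹ = b w' := by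
    intro b hb w hw
    refine ⟨w, hw, ?_⟩
    rw [← hn (b w) ⟨b, hb, w, hw, rfl⟩, mul_inv_cancel_right]
  obtain ⟨w', hw', e⟩ := SE.conj hSE h hnn hnQ ha h.id_mem (key a ha) (key _ h.id_mem) w hw
  rw [e] at haw
  exact haw hw'

/-- distinct members meet trivially if this is true for members meeting `Z2` -/
theorem meet (h : Ctx Q A) (hW : Z2 ≤ Q)
    (hI : ∀ a ∈ A, (∃ w ∈ Z2, w ≠ 1 ∧ a w ∈ Z2) → ∀ w ∈ Z2, a w ∈ Z2) {a b : P → P} (ha : a ∈ A) (hb : b ∈ A)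
    {w w' : P} (hw : w ∈ Z2) (hw1 : w ≠ 1) (hw' : w' ∈ Z2) (e : a w = b w') : ∀ x ∈ Z2, ∃ y ∈ Z2, a x = b y := by
  obtain ⟨g, hg, h1⟩ := h.inv b hb
  intro x hx
  have h2 := hI _ (h.comp g hg a ha) ⟨w, hw, hw1, by
    show g (a w) ∈ Z2
    rw [e, (h1 w' (hW hw')).1]
    exact hw'⟩ x hx
  exact ⟨_, h2, ((h1 _ (h.maps a ha x (hW hx))).2).symm⟩

/-- Lemma b -/
theorem lemma_b (h : Ctx Q A) (hSE : SE Q A Z2) (hW : Z2 ≤ Q) (hmov : ∃ a ∈ A, ∃ w ∈ Z2, a w ∉ Z2)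
    (Hb : ∀ r ∈ Z2, r ≠ 1 → ∃ u ∈ A, (∃ k : ℕ, ∀ x ∈ Q, u^[3 ^ k] x = x) ∧
      (¬ ∃ q ∈ Q, ∀ x ∈ Q, u x = q * x * q⁻¹) ∧ ∀ a ∈ A, ∀ w ∈ Z2, ∃ j : ℕ, u (a w) = a w * r ^ j) : False := by
  have hI : ∀ a ∈ A, (∃ w ∈ Z2, w ≠ 1 ∧ a w ∈ Z2) → ∀ w ∈ Z2, a w ∈ Z2 := by
    rintro a ha ⟨w0, hw0, hne, haw⟩
    have hr1 : a w0 ≠ 1 := by
      intro hh
      rw [← h.one ha] at hh
      exact hne (h.inj ha (hW hw0) (one_mem Q) hh)
    obtain ⟨u, hu, h3, hni, hj⟩ := Hb _ haw hr1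
    intro w hw
    obtain ⟨w', hw', e⟩ := hSE u hu h3 hni a ha _ h.id_mem (fun w hw => by
      obtain ⟨j, hj⟩ := hj a ha w hw
      refine ⟨w * w0 ^ j, mul_mem hw (pow_mem hw0 j), ?_⟩
      rw [hj, h.mul a ha _ (hW hw) _ (pow_mem (hW hw0) j), h.map_pow ha (hW hw0)]) (fun w hw => by
      obtain ⟨j, hj⟩ := hj _ h.id_mem w hw
      exact ⟨w * (a w0) ^ j, mul_mem hw (pow_mem haw j), hj⟩) w hw
    rw [e]
    exact hw'
  obtain ⟨a, ha, w0, hw0, haw0⟩ := hmov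
  obtain ⟨u, hu, h3, hni, hj⟩ := Hb u10 u10_mem (by decide)
  have hcen : ∀ x : P, u10 * x = x * u10 := fun x => comm_Z1 u10_mem1
  have hcomm : ∀ (x : P) (n : ℕ), u10 ^ n * x = x * u10 ^ n := fun x n =>
    comm_Z1 (pow_mem u10_mem1 n)
  -- a fixed element
  obtain ⟨w, hw, hw1, hfix⟩ : ∃ w ∈ Z2, w ≠ 1 ∧ u (a w) = a w := by
    obtain ⟨i, hi⟩ := hj a ha u9 u9_mem
    obtain ⟨j, hj'⟩ := hj a ha u10 u10_mem
    have hZ9 := h.maps a ha _ (hW u9_mem)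
    have hZ10 := h.maps a ha _ (hW u10_mem)
    by_cases hj3 : ((j : ℕ) : ZMod 3) = 0
    · refine ⟨u10, u10_mem, by decide, ?_⟩
      rw [hj', u10_eq, zz_pow, hj3, zero_mul, zero_mul, zz_one, mul_one]
    · obtain ⟨m, hm⟩ := lin1 (-(i : ZMod 3)) j hj3
      refine ⟨u9 * u10 ^ m, mul_mem u9_mem (pow_mem u10_mem m), ?_, ?_⟩
      · rw [u9_eq, u10_eq, zz_pow, zz_mul]
        intro h0
        have := (zz_inj (h0.trans zz_one.symm)).1
        simp at this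
      · have e1 : a (u9 * u10 ^ m) = a u9 * a u10 ^ m := by
          rw [h.mul a ha _ (hW u9_mem) _ (pow_mem (hW u10_mem) m), h.map_pow ha (hW u10_mem)]
        rw [e1, h.mul u hu _ hZ9 _ (pow_mem hZ10 m), h.map_pow hu hZ10, hi, hj', (show Commute (a u10) (u10 ^ j) from
          (hcomm _ j).symm).mul_pow, ← pow_mul, mul_assoc, ← mul_assoc (u10 ^ i), hcomm, mul_assoc, ← pow_add,
          ← mul_assoc]
        have : u10 ^ (i + j * m) = 1 := by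
          rw [u10_eq, zz_pow]
          have : ((i + j * m : ℕ) : ZMod 3) = 0 := by
            push_cast
            linear_combination -hm
          rw [this, zero_mul, zero_mul, zz_one]
        rw [this, mul_one]
  have hst := meet h hW hI (h.comp u hu a ha) ha hw hw1 hw hfix
  obtain ⟨w', hw', e⟩ := hSE u hu h3 hni a ha _ h.id_mem hst (fun w hw => by
    obtain ⟨j, hj⟩ := hj _ h.id_mem w hw
    exact ⟨w * u10 ^ j, mul_mem hw (pow_mem u10_mem j), hj⟩) w0 hw0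
  rw [e] at haw0
  exact haw0 hw'

/-- an element of `A` mapping `Z2` into itself has an inverse with the same property -/
theorem inv_Z2 (h : Ctx Q A) (hW : Z2 ≤ Q) {k : P → P} (hk : k ∈ A) (hkZ : ∀ w ∈ Z2, k w ∈ Z2) :
    ∃ g ∈ A, (∀ x ∈ Q, g (k x) = x ∧ k (g x) = x) ∧ ∀ w ∈ Z2, g w ∈ Z2 := by
  obtain ⟨g, hg, h1⟩ := h.inv k hk
  refine ⟨g, hg, h1, fun w hw => ?_⟩
  have hinj : Function.Injective (fun w : Z2 => (⟨k w, hkZ w w.2⟩ : Z2)) := by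
    intro x y hxy
    exact Subtype.ext (h.inj hk (hW x.2) (hW y.2) (congrArg Subtype.val hxy))
  obtain ⟨x, hx⟩ := (Finite.injective_iff_surjective.1 hinj) ⟨w, hw⟩
  have hx' : k x = w := congrArg Subtype.val hx
  rw [← hx', (h1 _ (hW x.2)).1]
  exact x.2

/-- conjugation by an inverse on `Z2` -/
theorem conj_zz (n : P) (a b : ZMod 3) : n⁻¹ * zz a b * (n⁻¹)⁻¹ = zz a (b + n.x1 * a) := by
  rw [inv_inv, N5_conj _ _ (Z2_le_N5 (zz_mem a b))]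
  ext <;> simp [cx, zz]

theorem pow_x1 (n : P) (j : ℕ) : (n ^ j).x1 = j * n.x1 := by
  induction j with
  | zero => simp [one_x1]
  | succ j ih =>
    rw [pow_succ, mul_x1, ih]
    push_cast
    ring

/-- moving any element of `Z2` into `Z1` -/
theorem exists_move (h : Ctx Q A) (hW : Z2 ≤ Q) {n : P} (hn : n ∈ normalizer (Q : Set P)) (hn1 : n.x1 ≠ 0)
    {k : P → P} (hk : k ∈ A) (hkZ : ∀ w ∈ Z2, k w ∈ Z2) (hk1 : k u10 ∉ Z1) {r : P} (hr : r ∈ Z2) :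
    ∃ s ∈ A, (∀ w ∈ Z2, s w ∈ Z2) ∧ s r ∈ Z1 := by
  obtain ⟨g, hg, h1, hgZ⟩ := inv_Z2 h hW hk hkZ
  have e0 := eq_zz hr
  generalize r.x9 = a at e0
  generalize r.x10 = b at e0
  have e1 := eq_zz (hkZ _ u10_mem)
  generalize (k u10).x9 = c at e1
  generalize (k u10).x10 = d at e1
  have hc : c ≠ 0 := by
    intro hc
    rw [e1, zz_mem1] at hk1
    exact hk1 hc
  by_cases ha : a = 0
  · refine ⟨_, h.id_mem, fun w hw => hw, ?_⟩
    show r ∈ Z1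
    rw [e0, zz_mem1]
    exact ha
  · obtain ⟨i, hi⟩ := lin1 a c hc
    obtain ⟨j, hj⟩ := lin1 (i * d - b) (n.x1 * a) (mul_ne_zero hn1 ha)
    have hm : (n ^ j)⁻¹ ∈ normalizer (Q : Set P) := inv_mem (pow_mem hn j)
    have hcZ : ∀ w ∈ Z2, (n ^ j)⁻¹ * w * ((n ^ j)⁻¹)⁻¹ ∈ Z2 := by
      intro w hw
      rw [eq_zz hw, conj_zz]
      exact zz_mem _ _
    refine ⟨_, h.comp g hg _ (h.conj _ hm), fun w hw => hgZ _ (hcZ w hw), ?_⟩
    show g ((n ^ j)⁻¹ * r * ((n ^ j)⁻¹)⁻¹) ∈ Z1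
    have e2 : (n ^ j)⁻¹ * r * ((n ^ j)⁻¹)⁻¹ = (k u10) ^ i := by
      rw [e0, e1, conj_zz, zz_pow, pow_x1, ← hi]
      congr 1
      linear_combination -hj
    rw [e2, h.map_pow hg (h.maps k hk _ (hW u10_mem)), (h1 _ (hW u10_mem)).1]
    exact pow_mem u10_mem1 i

end

/-! ### automorphisms of `E1` -/

section
variable {A1 : Set (P → P)}

theorem al_Z2 (h1 : Ctx E1 A1) {α : P → P} (hα : α ∈ A1) {w : P} (hw : w ∈ Z2) : α w ∈ Z2 := by
  obtain ⟨β, hβ, hi⟩ := h1.inv α hα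
  refine mem_Z2_of_comm (h1.maps α hα w (Z2_le_E1 hw)) fun y hy => ?_
  have hb := h1.maps β hβ y hy
  rw [← (hi y hy).2, ← h1.mul α hα _ hb _ (Z2_le_E1 hw), ← h1.mul α hα _ (Z2_le_E1 hw) _ hb, comm_Z2 hw hb]

theorem al_N5 (h1 : Ctx E1 A1) {α : P → P} (hα : α ∈ A1) {n : P} (hn : n ∈ N5) : α n ∈ N5 := by
  obtain ⟨β, hβ, hi⟩ := h1.inv α hα
  have hnE := N5_le_E1 hn
  refine mem_N5_of_comm_mod (h1.maps α hα n hnE) fun y hy => ?_
  have hb := h1.maps β hβ y hy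
  refine ⟨α (dd n (β y)), al_Z2 h1 hα (dd_mem _ _), ?_⟩
  have hd := Z2_le_E1 (dd_mem n (β y))
  have key : α (n * β y) = α (β y * n * dd n (β y)) := by
    rw [N5_E1 hn hb, mul_assoc, comm_Z2 (dd_mem _ _) hnE, ← mul_assoc]
  rw [h1.mul α hα _ (mul_mem hb hnE) _ hd, h1.mul α hα _ hb _ hnE, h1.mul α hα _ hnE _ hb, (hi y hy).2] at key
  exact key

end

end Cfsg.Agent.H418.ThB
end

-- part: H418/ThBeta2
section
/-!
"Theorem beta" on the model of the Sylow 3-subgroup of the Thompson group: the two main steps.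
-/

set_option autoImplicit false
set_option linter.style.longLine false

namespace Cfsg.Agent.H418.ThB

open Subgroup Cfsg.Agent.H776.ThS

theorem iter_conj (S : Subgroup P) (f g : P → P) (hg : ∀ x ∈ S, g x ∈ S) (hfg : ∀ x ∈ S, g (f x) = x ∧ f (g x) = x)
    (y : P) (hy : y ∈ normalizer (S : Set P)) (k : ℕ) (x : P) (hx : x ∈ S) :
    (fun x => f (y * g x * y⁻¹))^[k] x = f (y ^ k * g x * (y ^ k)⁻¹) := by
  induction k with
  | zero => simp [(hfg x hx).2]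
  | succ k ih =>
    rw [Function.iterate_succ_apply', ih]
    have h1 : y ^ k * g x * (y ^ k)⁻¹ ∈ S := (mem_normalizer_iff.1 (pow_mem hy k) _).1 (hg x hx)
    show f (y * g (f (y ^ k * g x * (y ^ k)⁻¹)) * y⁻¹) = _
    rw [(hfg _ h1).1]
    congr 1
    rw [pow_succ']
    group

/-- conjugation of an element of `N5` by an element of `E1` -/
theorem conj_E1 {c x : P} (hc : c ∈ N5) (hx : x ∈ E1) : x * c * x⁻¹ = c * (dd c x)⁻¹ := by
  have h1 := N5_E1 hc hx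
  have h2 : x * c = c * (dd c x)⁻¹ * x := by
    have h3 : x * dd c x * c = x * c * dd c x := by
      rw [mul_assoc, comm_Z2 (dd_mem c x) (N5_le_E1 hc), ← mul_assoc]
    rw [h3] at h1
    have h4 : (dd c x)⁻¹ * x = x * (dd c x)⁻¹ := comm_Z2 (inv_mem (dd_mem c x)) hx
    rw [mul_assoc, h4, ← mul_assoc, h1, mul_inv_cancel_right]
  rw [h2, mul_inv_cancel_right]

theorem dd_mul {m n x : P} (hn : n ∈ N5) : dd (m * n) x = dd m x * dd n x := by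
  rw [mulN m n hn]
  rw [eq_zz (dd_mem m x), eq_zz (dd_mem n x), zz_mul]
  ext <;> simp only [dd, zz] <;> ring

theorem dd_pow {n x : P} (hn : n ∈ N5) (i : ℕ) : dd (n ^ i) x = dd n x ^ i := by
  induction i with
  | zero =>
    rw [pow_zero, pow_zero]
    ext <;> simp [dd, one_x1, one_x2, one_x3, one_x4, one_x5, one_x6, one_x7, one_x8, one_x9, one_x10]
  | succ i ih => rw [pow_succ, dd_mul hn, ih, pow_succ]

theorem mem_normalizer_of_conj {Q : Subgroup P} {n : P} (h : ∀ x ∈ Q, n * x * n⁻¹ ∈ Q)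
    (h' : ∀ x ∈ Q, n⁻¹ * x * n⁻¹⁻¹ ∈ Q) : n ∈ normalizer (Q : Set P) := by
  rw [mem_normalizer_iff]
  intro x
  refine ⟨fun hx => h x hx, fun hx => ?_⟩
  have := h' _ hx
  simpa [mul_assoc] using this

theorem N5_normalizes {Q : Subgroup P} (hQ : Q ≤ E1) (hW : Z2 ≤ Q) {n : P} (hn : n ∈ N5) :
    n ∈ normalizer (Q : Set P) := by
  refine mem_normalizer_of_conj (fun x hx => ?_) (fun x hx => ?_)
  · rw [conj_N5 hn (hQ hx)]
    exact mul_mem hx (hW (dd_mem _ _))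
  · rw [conj_N5 (inv_mem hn) (hQ hx)]
    exact mul_mem hx (hW (dd_mem _ _))

theorem comm_X6 {x y : P} (hx : x ∈ X6) (hy : y ∈ X6) : x * y = y * x ↔ x.x6 * y.x5 = y.x6 * x.x5 := by
  obtain ⟨a1, a2, a3, a4⟩ := hx
  obtain ⟨b1, b2, b3, b4⟩ := hy
  constructor
  · intro h
    have h1 : (x * y).x10 = (y * x).x10 := by rw [h]
    rw [mulE_x10 _ _ b1, mulE_x10 _ _ a1, a2, a3, a4, b2, b3, b4] at h1
    linear_combination h1
  · intro h
    ext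
    · rw [mul_x1, mul_x1]; ring
    · rw [mul_x2, mul_x2]; ring
    · rw [mul_x3, mul_x3, a1, b1]; ring
    · rw [mul_x4, mul_x4, a1, b1]; ring
    · rw [mul_x5, mul_x5, a1, b1]; ring
    · rw [mul_x6, mul_x6, a1, b1, a2, b2]; ring
    · rw [mul_x7, mul_x7, a1, b1, a2, b2, a3, b3]; ring
    · rw [mul_x8, mul_x8, a1, b1, a3, b3, a4, b4]; ring
    · rw [mulE_x9 _ _ b1, mulE_x9 _ _ a1, a2, a3, a4, b2, b3, b4]; ring
    · rw [mulE_x10 _ _ b1, mulE_x10 _ _ a1, a2, a3, a4, b2, b3, b4]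
      linear_combination h

/-- the centralizer in `E1` of an element of `X6 \ N5` -/
theorem mem_X6_of_comm {x v : P} (hx : x ∈ E1) (hv : v ∈ X6) (hv5 : v.x5 ≠ 0) (h : x * v = v * x) : x ∈ X6 := by
  have hvE : v ∈ E1 := hv.1
  obtain ⟨b1, b2, b3, b4⟩ := hv
  rw [E1_mul x v hx hvE] at h
  have hc : ce x v = 1 := by simpa using h
  have c6 : (ce x v).x6 = 0 := by rw [hc]; rfl
  have c7 : (ce x v).x7 = 0 := by rw [hc]; rfl
  have c8 : (ce x v).x8 = 0 := by rw [hc]; rfl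
  simp only [ce, b2, b3, b4] at c6 c7 c8
  have e2 : x.x2 = 0 := by
    have : v.x5 * x.x2 = 0 := by linear_combination -c6
    exact (mul_eq_zero.1 this).resolve_left hv5
  have e3 : x.x3 = 0 := by
    have : v.x5 * x.x3 = 0 := by linear_combination -c7
    exact (mul_eq_zero.1 this).resolve_left hv5
  have e4 : x.x4 = 0 := by
    have : v.x5 * x.x4 = 0 := by linear_combination -c8
    exact (mul_eq_zero.1 this).resolve_left hv5
  exact ⟨hx, e2, e3, e4⟩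

/-- conjugation of elements of `X6` -/
theorem conj_X6 (n : P) {x : P} (hx : x ∈ X6) : n * x * n⁻¹ ∈ X6 ∧ (n * x * n⁻¹).x5 = x.x5 ∧
    (n * x * n⁻¹).x6 = x.x6 - x.x5 * n.x2 := by
  obtain ⟨a1, a2, a3, a4⟩ := hx
  generalize hy : n * x * n⁻¹ = y
  have e : y * n = n * x := by rw [← hy]; group
  have e1 : (y * n).x1 = (n * x).x1 := by rw [e]
  have e2 : (y * n).x2 = (n * x).x2 := by rw [e]
  have e3 : (y * n).x3 = (n * x).x3 := by rw [e]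
  have e4 : (y * n).x4 = (n * x).x4 := by rw [e]
  have e5 : (y * n).x5 = (n * x).x5 := by rw [e]
  have e6 : (y * n).x6 = (n * x).x6 := by rw [e]
  rw [mul_x1, mul_x1, a1] at e1
  have y1 : y.x1 = 0 := by linear_combination e1
  rw [mul_x2, mul_x2, a2] at e2
  have y2 : y.x2 = 0 := by linear_combination e2
  rw [mul_x3, mul_x3, a3, a1, y2] at e3
  have y3 : y.x3 = 0 := by linear_combination e3
  rw [mul_x4, mul_x4, a4, a1, y2, y3] at e4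
  have y4 : y.x4 = 0 := by linear_combination e4
  rw [mul_x5, mul_x5, a1, y2] at e5
  have y5 : y.x5 = x.x5 := by linear_combination e5
  rw [mul_x6, mul_x6, a1, a2, y2, y5] at e6
  exact ⟨⟨y1, y2, y3, y4⟩, y5, by linear_combination e6⟩

theorem card_E1_E2 : Nat.card E1 = Nat.card E2 := by
  refine Nat.card_congr ⟨fun x => ⟨⟨x.1.x2, x.1.x1, x.1.x3, x.1.x4, x.1.x5, x.1.x6, x.1.x7, x.1.x8, x.1.x9, x.1.x10⟩, x.2⟩,
    fun x => ⟨⟨x.1.x2, x.1.x1, x.1.x3, x.1.x4, x.1.x5, x.1.x6, x.1.x7, x.1.x8, x.1.x9, x.1.x10⟩, x.2⟩, fun x => rfl,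
    fun x => rfl⟩

section
variable {Q : Subgroup P} {A : Set (P → P)} {A1 : Set (P → P)}

/-- transport of a commutator through an automorphism of `E1` -/
theorem transp (h : Ctx Q A) (hSE : SE Q A Z2) (hQ : Q ≤ E1) (hW : Z2 ≤ Q)
    (hmov : ∃ a ∈ A, ∃ w ∈ Z2, a w ∉ Z2) (h1 : Ctx E1 A1)
    (htr : ∀ α ∈ A1, ∀ β ∈ A1, (∀ x ∈ E1, β (α x) = x) → ∀ y : P,
      (∀ x ∈ Q, ∃ x' ∈ Q, y * α x * y⁻¹ = α x') → (fun x => β (y * α x * y⁻¹)) ∈ A)
    {α β : P → P} (hα : α ∈ A1) (hβ : β ∈ A1) (hi : ∀ x ∈ E1, β (α x) = x ∧ α (β x) = x) {r : P} (hr : r ∈ Z2)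
    (hr1 : r ≠ 1) (hαr : α r ∈ Z1)
    {y : P} (hy : ∀ a ∈ A, ∀ w ∈ Z2, ∃ t ∈ Z1, y * α (a w) * y⁻¹ = α (a w) * t)
    (hy1 : ∃ a ∈ A, ∃ w ∈ Z2, y * α (a w) * y⁻¹ ≠ α (a w)) :
    ∃ u ∈ A, (∃ k : ℕ, ∀ x ∈ Q, u^[3 ^ k] x = x) ∧
      (¬ ∃ q ∈ Q, ∀ x ∈ Q, u x = q * x * q⁻¹) ∧ ∀ a ∈ A, ∀ w ∈ Z2, ∃ j : ℕ, u (a w) = a w * r ^ j := by
  have hrE : r ∈ E1 := Z2_le_E1 hr
  have hαr1 : α r ≠ 1 := by
    intro hh
    rw [← h1.one hα] at hh
    exact hr1 (h1.inj hα hrE (one_mem _) hh)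
  -- the value on members
  have hval : ∀ a ∈ A, ∀ w ∈ Z2, ∃ j : ℕ, β (y * α (a w) * y⁻¹) = a w * r ^ j := by
    intro a ha w hw
    have haE := hQ (h.maps a ha w (hW hw))
    obtain ⟨t, ht, e⟩ := hy a ha w hw
    obtain ⟨j, hj⟩ := Z1_pow hαr ht hαr1
    refine ⟨j, ?_⟩
    rw [e, hj, ← h1.map_pow hα hrE, ← h1.mul α hα _ haE _ (pow_mem hrE j), (hi _ (mul_mem haE (pow_mem hrE j))).1]
  refine ⟨fun x => β (y * α x * y⁻¹), ?_, ⟨10, ?_⟩, ?_, hval⟩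
  · refine htr α hα β hβ (fun x hx => (hi x hx).1) y fun x hx => ?_
    have hzE : y * α x * y⁻¹ ∈ E1 := E1_normal y (h1.maps α hα x (hQ hx))
    refine ⟨β (y * α x * y⁻¹), ?_, (hi _ hzE).2.symm⟩
    apply mem_Q_of_comm h hSE hQ hW hmov
    intro a ha w hw
    have hbz := h1.maps β hβ _ hzE
    have haE := hQ (h.maps a ha w (hW hw))
    obtain ⟨t, ht, e⟩ := hy a ha w hw
    apply h1.inj hα (mul_mem hbz haE) (mul_mem haE hbz)
    rw [h1.mul α hα _ hbz _ haE, h1.mul α hα _ haE _ hbz, (hi _ hzE).2]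
    have h2 : α (a w) * α x = α x * α (a w) := by
      rw [← h1.mul α hα _ haE _ (hQ hx), ← h1.mul α hα _ (hQ hx) _ haE, member_central h hQ hW ha hw hx]
    have h3 : (y * α x * y⁻¹) * (y * α (a w) * y⁻¹) = (y * α (a w) * y⁻¹) * (y * α x * y⁻¹) := by
      have e1 : (y * α x * y⁻¹) * (y * α (a w) * y⁻¹) = y * (α x * α (a w)) * y⁻¹ := by group
      have e2 : (y * α (a w) * y⁻¹) * (y * α x * y⁻¹) = y * (α (a w) * α x) * y⁻¹ := by group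
      rw [e1, e2, h2]
    rw [e] at h3
    have h4 : α (a w) * t * (y * α x * y⁻¹) = α (a w) * (y * α x * y⁻¹) * t := by
      rw [mul_assoc, comm_Z1 ht, ← mul_assoc]
    rw [h4, ← mul_assoc] at h3
    exact mul_right_cancel h3
  · intro x hx
    rw [iter_conj E1 β α (h1.maps α hα) (fun x hx => ⟨(hi x hx).2, (hi x hx).1⟩) y (mem_normalizer_E1 y) _ x (hQ hx),
      pow3_10]
    simp [(hi x (hQ hx)).1]
  · rintro ⟨q, hq, hc⟩
    obtain ⟨a, ha, w, hw, hne⟩ := hy1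
    have haQ := h.maps a ha w (hW hw)
    have h2 := hc _ haQ
    have h3 : q * a w * q⁻¹ = a w := by
      rw [← member_central h hQ hW ha hw hq, mul_inv_cancel_right]
    rw [h3] at h2
    have h2' : β (y * α (a w) * y⁻¹) = a w := h2
    apply hne
    have hzE : y * α (a w) * y⁻¹ ∈ E1 := E1_normal y (h1.maps α hα _ (hQ haQ))
    rw [← (hi _ hzE).2, h2']

/-- step 1: some member is not contained in `N5` -/
theorem step1 (h : Ctx Q A) (hSE : SE Q A Z2) (hQ : Q ≤ E1) (hW : Z2 ≤ Q)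
    (hmov : ∃ a ∈ A, ∃ w ∈ Z2, a w ∉ Z2) (h1 : Ctx E1 A1) (h1m : ∃ α ∈ A1, α u10 ∉ Z1)
    (htr : ∀ α ∈ A1, ∀ β ∈ A1, (∀ x ∈ E1, β (α x) = x) → ∀ y : P,
      (∀ x ∈ Q, ∃ x' ∈ Q, y * α x * y⁻¹ = α x') → (fun x => β (y * α x * y⁻¹)) ∈ A) :
    ∃ a ∈ A, ∃ w ∈ Z2, a w ∉ N5 := by
  by_contra hcc
  have hc : ∀ a ∈ A, ∀ w ∈ Z2, a w ∈ N5 := by
    intro a ha w hw
    by_contra hh
    exact hcc ⟨a, ha, w, hw, hh⟩
  clear hcc
  apply lemma_b h hSE hW hmov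
  intro r hr hr1
  obtain ⟨k, hk, hk1⟩ := h1m
  obtain ⟨α, hα, hαZ, hαr⟩ := exists_move h1 (fun x hx => Z2_le_E1 hx) (mem_normalizer_E1 u1)
    (by decide) hk (fun w hw => al_Z2 h1 hk hw) hk1 hr
  obtain ⟨β, hβ, hi⟩ := h1.inv α hα
  have hN : ∀ a ∈ A, ∀ w ∈ Z2, α (a w) ∈ N5 := fun a ha w hw => al_N5 h1 hα (hc a ha w hw)
  have d5 : ∀ c : P, dd c u5 = zz 0 c.x6 := by
    intro c
    ext <;> simp [dd, zz, u5]
  have d4 : ∀ c : P, dd c u4 = zz (-c.x6) (-c.x7) := by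
    intro c
    ext <;> simp [dd, zz, u4]
  have d3 : ∀ c : P, dd c u3 = zz (-c.x7) (c.x6 - c.x8) := by
    intro c
    ext <;> simp [dd, zz, u3]
  have hmoved : ∀ c y : P, c * (dd c y)⁻¹ = c → dd c y = 1 := by
    intro c y hh
    simpa using hh
  by_cases H6 : ∃ a ∈ A, ∃ w ∈ Z2, (α (a w)).x6 ≠ 0
  · refine transp h hSE hQ hW hmov h1 htr hα hβ hi hr hr1 hαr (y := u5) ?_ ?_
    · intro a ha w hw
      refine ⟨(dd (α (a w)) u5)⁻¹, inv_mem ?_, conj_E1 (hN a ha w hw) rfl⟩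
      rw [d5, zz_mem1]
    · obtain ⟨a, ha, w, hw, h6⟩ := H6
      refine ⟨a, ha, w, hw, fun hh => h6 ?_⟩
      rw [conj_E1 (hN a ha w hw) rfl] at hh
      have := hmoved _ _ hh
      rw [d5, ← zz_one] at this
      exact (zz_inj this).2
  have H6' : ∀ a ∈ A, ∀ w ∈ Z2, (α (a w)).x6 = 0 := by
    intro a ha w hw
    by_contra hh
    exact H6 ⟨a, ha, w, hw, hh⟩
  by_cases H7 : ∃ a ∈ A, ∃ w ∈ Z2, (α (a w)).x7 ≠ 0
  · refine transp h hSE hQ hW hmov h1 htr hα hβ hi hr hr1 hαr (y := u4) ?_ ?_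
    · intro a ha w hw
      refine ⟨(dd (α (a w)) u4)⁻¹, inv_mem ?_, conj_E1 (hN a ha w hw) rfl⟩
      rw [d4, zz_mem1, H6' a ha w hw, neg_zero]
    · obtain ⟨a, ha, w, hw, h6⟩ := H7
      refine ⟨a, ha, w, hw, fun hh => h6 ?_⟩
      rw [conj_E1 (hN a ha w hw) rfl] at hh
      have := hmoved _ _ hh
      rw [d4, ← zz_one] at this
      exact neg_eq_zero.1 (zz_inj this).2
  have H7' : ∀ a ∈ A, ∀ w ∈ Z2, (α (a w)).x7 = 0 := by
    intro a ha w hw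
    by_contra hh
    exact H7 ⟨a, ha, w, hw, hh⟩
  by_cases H8 : ∃ a ∈ A, ∃ w ∈ Z2, (α (a w)).x8 ≠ 0
  · refine transp h hSE hQ hW hmov h1 htr hα hβ hi hr hr1 hαr (y := u3) ?_ ?_
    · intro a ha w hw
      refine ⟨(dd (α (a w)) u3)⁻¹, inv_mem ?_, conj_E1 (hN a ha w hw) rfl⟩
      rw [d3, zz_mem1, H7' a ha w hw, neg_zero]
    · obtain ⟨a, ha, w, hw, h6⟩ := H8
      refine ⟨a, ha, w, hw, fun hh => h6 ?_⟩
      rw [conj_E1 (hN a ha w hw) rfl] at hh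
      have := hmoved _ _ hh
      rw [d3, ← zz_one, H6' a ha w hw, zero_sub] at this
      exact neg_eq_zero.1 (zz_inj this).2
  exfalso
  obtain ⟨a, ha, w, hw, hne⟩ := hmov
  apply hne
  have haE := hQ (h.maps a ha w (hW hw))
  have hZ : α (a w) ∈ Z2 := by
    obtain ⟨c1, c2, c3, c4, c5⟩ := hN a ha w hw
    refine ⟨c1, c2, c3, c4, c5, H6' a ha w hw, H7' a ha w hw, ?_⟩
    by_contra hh
    exact H8 ⟨a, ha, w, hw, hh⟩
  have := al_Z2 h1 hβ hZ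
  rwa [(hi _ haE).1] at this

end

end Cfsg.Agent.H418.ThB
end

-- part: H418/ThBeta
section
/-!
"Theorem beta" on the model of the Sylow 3-subgroup of the Thompson group.
-/

set_option autoImplicit false
set_option linter.style.longLine false

namespace Cfsg.Agent.H418.ThB

open Subgroup Cfsg.Agent.H776.ThS

section
variable {Q : Subgroup P} {A : Set (P → P)} {A1 : Set (P → P)}

/-- step 2 -/
theorem step2 (h : Ctx Q A) (hSE : SE Q A Z2) (hQ : Q ≤ E1) (hW : Z2 ≤ Q)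
    (hmov : ∃ a ∈ A, ∃ w ∈ Z2, a w ∉ Z2) (hk : ∃ k ∈ A, (∀ w ∈ Z2, k w ∈ Z2) ∧ k u10 ∉ Z1)
    (h1 : Ctx E1 A1) (h1m : ∃ α ∈ A1, α u10 ∉ Z1)
    (hfn : ∀ α ∈ A1, ∀ N : Subgroup P, (∀ n ∈ N, ∀ x ∈ Q, ∃ x' ∈ Q, n * α x * n⁻¹ = α x') →
      Nat.card N ≤ Nat.card (normalizer (Q : Set P)))
    {a : P → P} (ha : a ∈ A) {w : P} (hw : w ∈ Z2) (hN : a w ∉ N5) :
    ∀ z ∈ Z2, ∃ n ∈ N5, n * a w * n⁻¹ = a w * z := by
  have haQ := h.maps a ha w (hW hw)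
  have hvE : a w ∈ E1 := hQ haQ
  have hvc : ∀ q ∈ Q, a w * q = q * a w := fun q hq => member_central h hQ hW ha hw hq
  intro z hz
  by_contra hcc
  have hc : ∀ n ∈ N5, n * a w * n⁻¹ ≠ a w * z := fun n hn hh => hcc ⟨n, hn, hh⟩
  clear hcc
  -- an element of `N5` not commuting with `v`
  obtain ⟨y, hyN, hyv⟩ : ∃ y ∈ N5, y * a w ≠ a w * y := by
    by_contra hh
    apply hN
    apply mem_N5_of_comm hvE
    intro n hn
    by_contra h2
    exact hh ⟨n, hn, h2⟩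
  have hyE := N5_le_E1 hyN
  have hr01 : dd y (a w) ≠ 1 := by
    intro hh
    apply hyv
    rw [N5_E1 hyN hvE, hh, mul_one]
  have hr0Z := dd_mem y (a w)
  have hI : ∀ n ∈ N5, ∃ j : ℕ, dd n (a w) = dd y (a w) ^ j := by
    intro n hn
    rcases Z2_span hr0Z (dd_mem n (a w)) hr01 with h2 | h2
    · exact h2
    · exfalso
      obtain ⟨i, j, hij⟩ := h2 z hz
      have hm : y ^ i * n ^ j ∈ N5 := mul_mem (pow_mem hyN i) (pow_mem hn j)
      apply hc _ hm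
      rw [conj_N5 hm hvE, dd_mul (pow_mem hn j), dd_pow hyN, dd_pow hn, ← hij]
  generalize hr0 : dd y (a w) = r0 at hr01 hr0Z hI
  obtain ⟨k1, hk1, hk2⟩ := h1m
  obtain ⟨α, hα, hαZ, hαr⟩ := exists_move h1 (fun x hx => Z2_le_E1 hx) (mem_normalizer_E1 u1)
    (by decide) hk1 (fun w hw => al_Z2 h1 hk1 hw) hk2 hr0Z
  obtain ⟨β, hβ, hi⟩ := h1.inv α hα
  have hr0E : r0 ∈ E1 := Z2_le_E1 hr0Z
  have hαr1 : α r0 ≠ 1 := by
    intro hh
    rw [← h1.one hα] at hh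
    exact hr01 (h1.inj hα hr0E (one_mem _) hh)
  have hv'E : α (a w) ∈ E1 := h1.maps α hα _ hvE
  have hv'N : α (a w) ∉ N5 := by
    intro hh
    have := al_N5 h1 hβ hh
    rw [(hi _ hvE).1] at this
    exact hN this
  have hconj : ∀ (f : P → P), f ∈ A1 → ∀ x ∈ E1, ∀ y ∈ E1, f (x * y * x⁻¹) = f x * f y * (f x)⁻¹ := by
    intro f hf x hx y hy
    rw [h1.mul f hf _ (mul_mem hx hy) _ (inv_mem hx), h1.mul f hf _ hx _ hy, h1.map_inv hf hx]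
  have hdd : ∀ n ∈ N5, dd n (α (a w)) ∈ Z1 := by
    intro n hn
    have hbn := al_N5 h1 hβ hn
    obtain ⟨j, hj⟩ := hI _ hbn
    have e1 := hconj α hα (β n) (N5_le_E1 hbn) (a w) hvE
    rw [conj_N5 hbn hvE, hj, (hi n (N5_le_E1 hn)).2, conj_N5 hn hv'E,
      h1.mul α hα _ hvE _ (pow_mem hr0E j), h1.map_pow hα hr0E] at e1
    rw [← mul_left_cancel e1]
    exact pow_mem hαr j
  have hv'X : α (a w) ∈ X6 := by
    have h6 := (hdd u6 ⟨rfl, rfl, rfl, rfl, rfl⟩).2.2.2.2.2.2.2.2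
    have h7 := (hdd u7 ⟨rfl, rfl, rfl, rfl, rfl⟩).2.2.2.2.2.2.2.2
    have h8 := (hdd u8 ⟨rfl, rfl, rfl, rfl, rfl⟩).2.2.2.2.2.2.2.2
    simp only [dd, u6, u7, u8] at h6 h7 h8
    have e2 : (α (a w)).x2 = 0 := by linear_combination -h8
    have e3 : (α (a w)).x3 = 0 := by linear_combination -h7
    have e4 : (α (a w)).x4 = 0 := by linear_combination -h6 + e2
    exact ⟨hv'E, e2, e3, e4⟩
  have hv'5 : (α (a w)).x5 ≠ 0 := fun hh => hv'N ⟨hv'X.1, hv'X.2.1, hv'X.2.2.1, hv'X.2.2.2, hh⟩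
  -- the image of `Q`
  have hαQ : ∀ x ∈ Q, α x ∈ X6 ∧ (α x).x6 * (α (a w)).x5 = (α (a w)).x6 * (α x).x5 := by
    intro x hx
    have e1 : α x * α (a w) = α (a w) * α x := by
      rw [← h1.mul α hα _ hvE _ (hQ hx), ← h1.mul α hα _ (hQ hx) _ hvE, hvc x hx]
    have hX := mem_X6_of_comm (h1.maps α hα _ (hQ hx)) hv'X hv'5 e1
    exact ⟨hX, (comm_X6 hX hv'X).1 e1⟩
  have hD : ∀ x ∈ X6, x.x6 * (α (a w)).x5 = (α (a w)).x6 * x.x5 → ∃ q ∈ Q, x = α q := by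
    intro x hx hx6
    have hxE : x ∈ E1 := hx.1
    have hbE := h1.maps β hβ x hxE
    refine ⟨β x, ?_, (hi x hxE).2.symm⟩
    apply h.cent
    intro q hq
    obtain ⟨hqX, hq6⟩ := hαQ q hq
    apply h1.inj hα (mul_mem hbE (hQ hq)) (mul_mem (hQ hq) hbE)
    rw [h1.mul α hα _ hbE _ (hQ hq), h1.mul α hα _ (hQ hq) _ hbE, (hi x hxE).2, comm_X6 hx hqX]
    have h3 : (x.x6 * (α q).x5 - (α q).x6 * x.x5) * (α (a w)).x5 = 0 := by
      linear_combination (α q).x5 * hx6 - x.x5 * hq6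
    exact sub_eq_zero.1 ((mul_eq_zero.1 h3).resolve_right hv'5)
  -- the normalizer of `Q` is not contained in `E1`
  obtain ⟨n0, hn0, hn01⟩ : ∃ n ∈ normalizer (Q : Set P), n.x1 ≠ 0 := by
    by_contra hh
    have hle : normalizer (Q : Set P) ≤ E1 := by
      intro n hn
      by_contra h2
      exact hh ⟨n, hn, h2⟩
    have hcard := hfn α hα E2 (fun n hn x hx => by
      obtain ⟨hX, h6⟩ := hαQ x hx
      obtain ⟨g1, g5, g6⟩ := conj_X6 n hX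
      have hn2 : n.x2 = 0 := hn
      rw [hn2, mul_zero, sub_zero] at g6
      exact hD _ g1 (by rw [g6, g5]; exact h6))
    have heq : normalizer (Q : Set P) = E1 := by
      apply Subgroup.eq_of_le_of_card_ge hle
      rw [card_E1_E2]
      exact hcard
    have hbu : β u2 ∈ normalizer (Q : Set P) := by
      rw [heq]
      exact h1.maps β hβ u2 rfl
    have hbuE : β u2 ∈ E1 := h1.maps β hβ u2 rfl
    have h2 : β u2 * a w * (β u2)⁻¹ ∈ Q := (mem_normalizer_iff.1 hbu _).1 haQ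
    obtain ⟨g1, g2⟩ := hαQ _ h2
    rw [hconj α hα _ hbuE _ hvE, (hi u2 rfl).2] at g2
    obtain ⟨f1, f5, f6⟩ := conj_X6 u2 hv'X
    rw [f5, f6] at g2
    have h3 : (α (a w)).x5 * (α (a w)).x5 = 0 := by
      have h4 : u2.x2 = 1 := rfl
      rw [h4] at g2
      linear_combination -g2
    exact hv'5 (mul_self_eq_zero.1 h3)
  obtain ⟨k, hkA, hkZ, hk1'⟩ := hk
  have hmove : ∀ r ∈ Z2, ∃ s ∈ A, (∀ w ∈ Z2, s w ∈ Z2) ∧ s r ∈ Z1 := fun r hr =>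
    exists_move h hW hn0 hn01 hkA hkZ hk1' hr
  have hyQn : y ∈ normalizer (Q : Set P) := N5_normalizes hQ hW hyN
  have hyx : ∀ x ∈ Q, ∃ j : ℕ, y * x * y⁻¹ = x * r0 ^ j := by
    intro x hx
    have hdE := Z2_le_E1 (dd_mem y x)
    have hαx := (hαQ x hx).1
    have hαy := al_N5 h1 hα hyN
    have e1 := hconj α hα y hyE x (hQ hx)
    rw [conj_N5 hyN (hQ hx), h1.mul α hα _ (hQ hx) _ hdE, conj_N5 hαy (h1.maps α hα _ (hQ hx))] at e1
    have e2 := mul_left_cancel e1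
    have e3 : α (dd y x) ∈ Z1 := by
      rw [e2]
      refine ⟨rfl, rfl, rfl, rfl, rfl, rfl, rfl, rfl, ?_⟩
      simp [dd, hαx.2.1, hαx.2.2.1, hαx.2.2.2]
    obtain ⟨j, hj⟩ := Z1_pow hαr e3 hαr1
    refine ⟨j, ?_⟩
    rw [conj_N5 hyN (hQ hx)]
    congr 1
    apply h1.inj hα hdE (pow_mem hr0E j)
    rw [hj, h1.map_pow hα hr0E]
  apply lemma_b h hSE hW hmov
  intro r hr hr1
  obtain ⟨s1, hs1, hs1Z, hs1r⟩ := hmove r0 hr0Z
  obtain ⟨s2, hs2, hs2Z, hs2r⟩ := hmove r hr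
  obtain ⟨g2, hg2, hg2i, hg2Z⟩ := inv_Z2 h hW hs2 hs2Z
  have hs2r1 : s2 r ≠ 1 := by
    intro hh
    rw [← h.one hs2] at hh
    exact hr1 (h.inj hs2 (hW hr) (one_mem _) hh)
  obtain ⟨i, hi'⟩ := Z1_pow hs2r hs1r hs2r1
  -- `s = g2 ∘ s1`
  have hs := h.comp g2 hg2 s1 hs1
  have hsr : g2 (s1 r0) = r ^ i := by
    rw [hi', h.map_pow hg2 (h.maps s2 hs2 _ (hW hr)), (hg2i _ (hW hr)).1]
  have hsZ : ∀ w ∈ Z2, g2 (s1 w) ∈ Z2 := fun w hw => hg2Z _ (hs1Z w hw)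
  generalize hs' : (fun x => g2 (s1 x)) = s at hs
  have hsr' : s r0 = r ^ i := by rw [← hs', ← hsr]
  have hsZ' : ∀ w ∈ Z2, s w ∈ Z2 := by rw [← hs']; exact hsZ
  clear hsr hsZ hs'
  obtain ⟨g, hg, hgi, hgZ⟩ := inv_Z2 h hW hs hsZ'
  refine ⟨fun x => s (y * g x * y⁻¹), h.comp s hs _ (h.comp _ (h.conj y hyQn) g hg), ⟨10, ?_⟩, ?_, ?_⟩
  · intro x hx
    rw [iter_conj Q s g (h.maps g hg) (fun x hx => ⟨(hgi x hx).1, (hgi x hx).2⟩) y hyQn _ x hx, pow3_10]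
    simp [(hgi x hx).2]
  · rintro ⟨q, hq, hc'⟩
    have hsv := h.maps s hs _ haQ
    have h2 := hc' _ hsv
    have h3 : q * s (a w) * q⁻¹ = s (a w) := by
      have := member_central h hQ hW (h.comp s hs a ha) hw hq
      have h4 : s (a w) * q = q * s (a w) := this
      rw [← h4, mul_inv_cancel_right]
    rw [h3] at h2
    have h2' : s (y * g (s (a w)) * y⁻¹) = s (a w) := h2
    rw [(hgi _ haQ).1] at h2'
    have h5 : y * a w * y⁻¹ ∈ Q := (mem_normalizer_iff.1 hyQn _).1 haQ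
    have h6 := h.inj hs h5 haQ h2'
    apply hyv
    rw [← mul_inv_eq_iff_eq_mul]
    exact h6
  · intro b hb x hx
    have hbx := h.maps b hb x (hW hx)
    have hgb := h.maps g hg _ hbx
    obtain ⟨j, hj⟩ := hyx _ hgb
    refine ⟨i * j, ?_⟩
    show s (y * g (b x) * y⁻¹) = _
    rw [hj, h.mul s hs _ hgb _ (pow_mem (hW hr0Z) j), h.map_pow hs (hW hr0Z), (hgi _ hbx).2, hsr', ← pow_mul]

/-- "Theorem beta" -/
theorem thmBeta {Q : Subgroup P} {A : Set (P → P)} (h : Ctx Q A) (hSE : SE Q A Z2) (hQ : Q ≤ E1) (hW : Z2 ≤ Q)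
    (hmov : ∃ a ∈ A, ∃ w ∈ Z2, a w ∉ Z2) (hk : ∃ k ∈ A, (∀ w ∈ Z2, k w ∈ Z2) ∧ k u10 ∉ Z1)
    {A1 : Set (P → P)} (h1 : Ctx E1 A1) (h1m : ∃ α ∈ A1, α u10 ∉ Z1)
    (htr : ∀ α ∈ A1, ∀ β ∈ A1, (∀ x ∈ E1, β (α x) = x) → ∀ y : P,
      (∀ x ∈ Q, ∃ x' ∈ Q, y * α x * y⁻¹ = α x') → (fun x => β (y * α x * y⁻¹)) ∈ A)
    (hfn : ∀ α ∈ A1, ∀ N : Subgroup P, (∀ n ∈ N, ∀ x ∈ Q, ∃ x' ∈ Q, n * α x * n⁻¹ = α x') →
      Nat.card N ≤ Nat.card (normalizer (Q : Set P))) :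
    ∀ a ∈ A, (∃ w ∈ Z2, a w ∉ Z2) → ∀ w ∈ Z2, w ≠ 1 → a w ∉ N5 ∧ ∀ z ∈ Z2, ∃ n ∈ N5, n * a w * n⁻¹ = a w * z := by
  obtain ⟨a0, ha0, w0, hw0, h0N⟩ := step1 h hSE hQ hW hmov h1 h1m htr
  have h2 : ∀ a ∈ A, ∀ w ∈ Z2, a w ∉ N5 → ∀ z ∈ Z2, ∃ n ∈ N5, n * a w * n⁻¹ = a w * z :=
    fun a ha w hw hN => step2 h hSE hQ hW hmov hk h1 h1m hfn ha hw hN
  -- an element of `N5` outside `Q`
  obtain ⟨n0, hn0, hn0Q⟩ : ∃ n ∈ N5, n ∉ Q := by
    obtain ⟨n, hn, e⟩ := h2 a0 ha0 w0 hw0 h0N u10 u10_mem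
    refine ⟨n, hn, fun hnQ => ?_⟩
    rw [← member_central h hQ hW ha0 hw0 hnQ, mul_inv_cancel_right] at e
    have h3 : u10 = 1 := by simpa using e
    exact absurd h3 (by decide)
  have hn0n := N5_normalizes hQ hW hn0
  have hn0Z : ∀ w ∈ Z2, n0 * w * n0⁻¹ = w := by
    intro w hw
    rw [← comm_Z2 hw (N5_le_E1 hn0), mul_inv_cancel_right]
  have hI : ∀ a ∈ A, (∃ w ∈ Z2, w ≠ 1 ∧ a w ∈ Z2) → ∀ w ∈ Z2, a w ∈ Z2 := by
    rintro a ha ⟨w1, hw1, hw11, haw1⟩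
    -- `w2` with `Z2 = <w1, w2>`
    obtain ⟨w2, hw2, hspan⟩ : ∃ w2 ∈ Z2, ∀ z ∈ Z2, ∃ i j : ℕ, z = w1 ^ i * w2 ^ j := by
      rcases Z2_span hw1 u9_mem hw11 with ⟨i, hi⟩ | h3
      · rcases Z2_span hw1 u10_mem hw11 with ⟨j, hj⟩ | h3
        · exfalso
          -- both are powers of `w1`
          have e1 := eq_zz hw1
          rw [e1, u9_eq, zz_pow] at hi
          rw [e1, u10_eq, zz_pow] at hj
          have a1 := (zz_inj hi).1
          have a2 := (zz_inj hi).2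
          have b1 := (zz_inj hj).1
          have b2 := (zz_inj hj).2
          have : (1 : ZMod 3) = 0 := by
            have e3 : ((i : ZMod 3) * w1.x9) * ((j : ZMod 3) * w1.x10) = ((i : ZMod 3) * w1.x10) * ((j : ZMod 3) * w1.x9) := by
              ring
            rw [← a1, ← a2, ← b1, ← b2] at e3
            simp at e3
          exact absurd this (by decide)
        · exact ⟨u10, u10_mem, h3⟩
      · exact ⟨u9, u9_mem, h3⟩
    have hval : ∀ i j : ℕ, a (w1 ^ i * w2 ^ j) = a w1 ^ i * a w2 ^ j := by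
      intro i j
      rw [h.mul a ha _ (pow_mem (hW hw1) i) _ (pow_mem (hW hw2) j), h.map_pow ha (hW hw1), h.map_pow ha (hW hw2)]
    by_cases hN : a w2 ∈ N5
    · intro w hw
      obtain ⟨w', hw', e⟩ := SE.conj hSE h hn0n hn0Q ha h.id_mem (fun w hw => by
        refine ⟨w, hw, ?_⟩
        obtain ⟨i, j, rfl⟩ := hspan w hw
        have hm : a (w1 ^ i * w2 ^ j) ∈ N5 := by
          rw [hval]
          exact mul_mem (pow_mem (Z2_le_N5 haw1) i) (pow_mem hN j)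
        rw [comm_N5 hn0 hm, mul_inv_cancel_right]) (fun w hw => ⟨w, hw, hn0Z w hw⟩) w hw
      rw [e]
      exact hw'
    · obtain ⟨n, hn, e⟩ := h2 a ha w2 hw2 hN (a w1) haw1
      have hnQ : n ∉ Q := by
        intro hnQ
        rw [← member_central h hQ hW ha hw2 hnQ, mul_inv_cancel_right] at e
        have h3 : a w1 = 1 := by simpa using e
        rw [← h.one ha] at h3
        exact hw11 (h.inj ha (hW hw1) (one_mem _) h3)
      have hnZ : ∀ w ∈ Z2, n * w * n⁻¹ = w := by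
        intro w hw
        rw [← comm_Z2 hw (N5_le_E1 hn), mul_inv_cancel_right]
      have hcomm : Commute (a w2) (a w1) := member_central h hQ hW ha hw2 (h.maps a ha _ (hW hw1))
      intro w hw
      obtain ⟨w', hw', e'⟩ := SE.conj hSE h (N5_normalizes hQ hW hn) hnQ ha h.id_mem (fun w hw => by
        obtain ⟨i, j, rfl⟩ := hspan w hw
        refine ⟨w1 ^ (i + j) * w2 ^ j, mul_mem (pow_mem hw1 _) (pow_mem hw2 _), ?_⟩
        rw [hval, hval]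
        have e3 : n * (a w1 ^ i * a w2 ^ j) * n⁻¹ = (n * a w1 * n⁻¹) ^ i * (n * a w2 * n⁻¹) ^ j := by
          rw [conj_pow, conj_pow]
          group
        rw [e3, hnZ _ haw1, e, hcomm.mul_pow, (hcomm.pow_pow j j).eq, ← mul_assoc, ← pow_add])
        (fun w hw => ⟨w, hw, hnZ w hw⟩) w hw
      rw [e']
      exact hw'
  intro a ha hne w hw hw1
  have hN : a w ∉ N5 := by
    intro hN
    obtain ⟨x, hx, hax⟩ := hne
    have hb := h.comp _ (h.conj n0 hn0n) a ha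
    have e0 : (fun x => n0 * x * n0⁻¹) (a w) = a w := by
      show n0 * a w * n0⁻¹ = a w
      rw [comm_N5 hn0 hN, mul_inv_cancel_right]
    have h3 := meet h hW hI hb ha hw hw1 hw e0
    obtain ⟨w', hw', e⟩ := SE.conj hSE h hn0n hn0Q ha h.id_mem h3 (fun w hw => ⟨w, hw, hn0Z w hw⟩) x hx
    rw [e] at hax
    exact hax hw'
  exact ⟨hN, h2 a ha w hw hN⟩

end

end Cfsg.Agent.H418.ThB
end

-- part: H12/FusFr
section
/-!
# Frattini extension of an inverting automorphism; p-elements of `Aut_F(S)` are inner (helper12, for S5228)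
-/

set_option autoImplicit false

namespace Cfsg.Agent.H12.FusFr

open Subgroup Cfsg Cfsg.FusionSystem Cfsg.Agent.H752 Cfsg.Agent.H802

theorem isFullyNormalized_of_normal {Ω : Type*} [Group Ω] {S : Subgroup Ω} [Finite S]
    {F : FusionSystem S} {E : Subgroup Ω} (hES : E ≤ S)
    (hEn : ∀ s ∈ S, ∀ x ∈ E, s * x * s⁻¹ ∈ E) : F.IsFullyNormalized E ∧ normalizerIn S E = S := by
  have h1 : normalizerIn S E = S := by
    refine le_antisymm inf_le_left fun s hs => ⟨hs, ?_⟩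
    refine Subgroup.mem_normalizer_iff.2 ?_
    intro x
    refine ⟨fun hx => hEn s hs x hx, fun hx => ?_⟩
    have := hEn s⁻¹ (inv_mem hs) _ hx
    have h2 : s⁻¹ * (s * x * s⁻¹) * s⁻¹⁻¹ = x := by group
    rwa [h2] at this
  refine ⟨⟨hES, fun Q _ => ?_⟩, h1⟩
  rw [h1]
  exact Subgroup.card_le_of_le inf_le_left

theorem frattini_ext {Ω : Type*} [Group Ω] {S : Subgroup Ω} [Finite S] {p : ℕ} [Fact p.Prime] (hS : IsPGroup p S)
    {F : FusionSystem S} (hF : F.IsSaturated p) {E U : Subgroup Ω} (hES : E ≤ S)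
    (hEn : ∀ s ∈ S, ∀ x ∈ E, s * x * s⁻¹ ∈ E) (hUE : U ≤ E)
    (hUA : ∀ f : Ω → Ω, Mp F E f → (∀ x ∈ E, f x ∈ E) → ∀ x ∈ U, f x ∈ U)
    (M : Set (Ω → Ω)) (hM : ∀ f ∈ M, Mp F E f ∧ ∀ x ∈ E, f x ∈ E)
    (hMc : ∀ f ∈ M, ∀ g ∈ M, (fun x => f (g x)) ∈ M) (hMe : ∀ f ∈ M, ∀ g : Ω → Ω, (∀ x ∈ E, g x = f x) → g ∈ M)
    (hMi : ∀ f ∈ M, ∃ g ∈ M, ∀ x ∈ E, g (f x) = x ∧ f (g x) = x)
    (hMn : ∀ f ∈ M, ∀ a b : Ω → Ω, Mp F E a → Mp F E b → (∀ x ∈ E, a x ∈ E) → (∀ x ∈ E, b x ∈ E) →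
      (∀ x ∈ E, b (a x) = x ∧ a (b x) = x) → (fun x => a (f (b x))) ∈ M)
    {m : Ω → Ω} (hm : m ∈ M) (hmU : ∀ x ∈ U, m x = x⁻¹) :
    ∃ j : Ω → Ω, Mp F S j ∧ j ∈ M ∧ ∀ x ∈ U, j x = x⁻¹ := by
  have hfinE : Finite E := finite_of_le hES
  obtain ⟨hfn, hNS⟩ := isFullyNormalized_of_normal (F := F) hES hEn
  have hfa := isFullyAutomized_of_isFullyNormalized hS hF hfn
  have hrec := isReceptive_of_isFullyNormalized hS hF hfn
  have hB := hfa.2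
  -- the function of an automorphism
  let fn : MulAut E → Ω → Ω := fun α => ex fun x => ((α x : E) : Ω)
  have fn_apply : ∀ (α : MulAut E) (x : Ω) (hx : x ∈ E), fn α x = (α ⟨x, hx⟩ : E) :=
    fun α x hx => ex_apply _ hx
  have fn_mem : ∀ (α : MulAut E) (x : Ω), x ∈ E → fn α x ∈ E := fun α x hx => by
    rw [fn_apply α x hx]; exact (α ⟨x, hx⟩).2
  have fn_mp : ∀ α ∈ F.autGroup E, Mp F E (fn α) := fun α hα => (mp_iff_autGroup hES α).1 hα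
  have fn_mul : ∀ (α β : MulAut E) (x : Ω), x ∈ E → fn (α * β) x = fn α (fn β x) := by
    intro α β x hx
    have h1 : fn β x = ((β ⟨x, hx⟩ : E) : Ω) := fn_apply β x hx
    rw [h1, fn_apply (α * β) x hx, fn_apply α _ (β ⟨x, hx⟩).2]
    rfl
  have fn_one : ∀ x : Ω, x ∈ E → fn 1 x = x := by
    intro x hx
    rw [fn_apply 1 x hx]
    rfl
  -- the membership in M as a property of automorphisms
  have hMul : ∀ α β : MulAut E, fn α ∈ M → fn β ∈ M → fn (α * β) ∈ M := fun α β hα hβ =>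
    hMe _ (hMc _ hα _ hβ) _ (fun x hx => fn_mul α β x hx)
  have hInv : ∀ α : MulAut E, fn α ∈ M → fn α⁻¹ ∈ M := by
    intro α hα
    obtain ⟨g, hg, hgx⟩ := hMi _ hα
    refine hMe g hg _ fun x hx => ?_
    have h1 : fn α (fn α⁻¹ x) = x := by
      rw [← fn_mul α α⁻¹ x hx, mul_inv_cancel, fn_one x hx]
    have h2 : fn α (g x) = x := (hgx x hx).2
    have hgE : g x ∈ E := (hM g hg).2 x hx
    exact (hM _ hα).1.inj (fn_mem _ _ hx) hgE (h1.trans h2.symm)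
  have hOne : fn 1 ∈ M := by
    obtain ⟨g, hg, hgx⟩ := hMi _ hm
    exact hMe _ (hMc _ hg _ hm) _ fun x hx => (fn_one x hx).trans (hgx x hx).1.symm
  have hConj : ∀ α : MulAut E, fn α ∈ M → ∀ β ∈ F.autGroup E, fn (β * α * β⁻¹) ∈ M := by
    intro α hα β hβ
    refine hMe _ (hMn _ hα (fn β) (fn β⁻¹) (fn_mp β hβ) (fn_mp _ (inv_mem hβ)) (fn_mem β) (fn_mem _)
      fun x hx => ⟨?_, ?_⟩) _ fun x hx => ?_
    · rw [← fn_mul _ _ x hx, inv_mul_cancel, fn_one x hx]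
    · rw [← fn_mul _ _ x hx, mul_inv_cancel, fn_one x hx]
    · rw [fn_mul _ _ x hx, fn_mul _ _ _ (fn_mem _ _ hx)]
  have hAut : ∀ α : MulAut E, fn α ∈ M → α ∈ F.autGroup E := fun α hα =>
    (mp_iff_autGroup hES α).2 (hM _ hα).1
  -- U is invariant
  have hUinv : ∀ α ∈ F.autGroup E, ∀ x ∈ U, fn α x ∈ U := fun α hα x hx =>
    hUA _ (fn_mp α hα) (fn_mem α) x hx
  -- m as an automorphism
  obtain ⟨μ, hμA, hμ⟩ := (hM m hm).1.exists_aut (hM m hm).2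
  have hμM : fn μ ∈ M := hMe m hm _ fun x hx => by rw [fn_apply μ x hx, hμ x hx]
  have hμU : ∀ x ∈ U, fn μ x = x⁻¹ := fun x hx => by
    rw [fn_apply μ x (hUE hx), ← hμ x (hUE hx), hmU x hx]
  have hμinvU : ∀ x ∈ U, fn μ⁻¹ x = x⁻¹ := by
    intro x hx
    have h1 : fn μ⁻¹ (fn μ x⁻¹) = x⁻¹ := by
      rw [← fn_mul _ _ _ (hUE (inv_mem hx)), inv_mul_cancel, fn_one _ (hUE (inv_mem hx))]
    rw [hμU _ (inv_mem hx), inv_inv] at h1
    exact h1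
  -- the subgroup K
  let K : Subgroup (MulAut E) :=
    { carrier := {α | fn α ∈ M ∧ ∀ x ∈ U, fn α x = x}
      mul_mem' := by
        rintro α β ⟨ha, ha'⟩ ⟨hb, hb'⟩
        refine ⟨hMul α β ha hb, fun x hx => ?_⟩
        rw [fn_mul _ _ x (hUE hx), hb' x hx, ha' x hx]
      one_mem' := ⟨hOne, fun x hx => fn_one x (hUE hx)⟩
      inv_mem' := by
        rintro α ⟨ha, ha'⟩
        refine ⟨hInv α ha, fun x hx => ?_⟩
        conv_lhs => rw [← ha' x hx]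
        rw [← fn_mul _ _ x (hUE hx), inv_mul_cancel, fn_one x (hUE hx)] }
  have hKmem : ∀ α, α ∈ K ↔ fn α ∈ M ∧ ∀ x ∈ U, fn α x = x := fun α => Iff.rfl
  have hKA : K ≤ F.autGroup E := fun α hα => hAut α ((hKmem α).1 hα).1
  have hKn : ∀ a ∈ F.autGroup E, ∀ k ∈ K, a * k * a⁻¹ ∈ K := by
    intro a ha k hk
    obtain ⟨hk1, hk2⟩ := (hKmem k).1 hk
    refine (hKmem _).2 ⟨hConj k hk1 a ha, fun x hx => ?_⟩
    have hxE := hUE hx
    have h1 : fn a⁻¹ x ∈ U := hUinv _ (inv_mem ha) x hx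
    rw [fn_mul _ _ x hxE, fn_mul _ _ _ (fn_mem _ _ hxE), hk2 _ h1, ← fn_mul _ _ x hxE,
      mul_inv_cancel, fn_one x hxE]
  -- H = μ B μ⁻¹
  set B := autInducedBy S E with hBdef
  have hBA : B ≤ F.autGroup E := autInducedBy_le_autGroup F hES
  have hBp : IsPGroup p B := isPGroup_autInducedBy hS E
  let H : Subgroup (MulAut E) := B.map (MulAut.conj μ).toMonoidHom
  have hHp : IsPGroup p H := hBp.map _
  have hle : ∀ h ∈ H, ∃ k ∈ K, ∃ b ∈ B, b ∈ F.autGroup E ∧ h = k * b := by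
    rintro _ ⟨b, hb, rfl⟩
    refine ⟨μ * (b * μ⁻¹ * b⁻¹), ?_, b, hb, hBA hb, ?_⟩
    · refine (hKmem _).2 ⟨hMul _ _ hμM (hConj _ (hInv _ hμM) b (hBA hb)), fun x hx => ?_⟩
      have hxE := hUE hx
      have h1 : fn b⁻¹ x ∈ U := hUinv _ (inv_mem (hBA hb)) x hx
      have h2 : fn (b * μ⁻¹ * b⁻¹) x = x⁻¹ := by
        rw [fn_mul _ _ x hxE, fn_mul _ _ _ (fn_mem _ _ hxE), hμinvU _ h1,
          ← (fn_mp b⁻¹ (inv_mem (hBA hb))).inv hxE, ← fn_mul _ _ _ (inv_mem hxE), mul_inv_cancel,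
          fn_one _ (inv_mem hxE)]
      rw [fn_mul _ _ x hxE, h2, hμU _ (inv_mem hx), inv_inv]
    · show μ * b * μ⁻¹ = _
      group
  obtain ⟨c, hc, hcB⟩ := H759.exists_conj_le_of_le_sup' (A := F.autGroup E) B hB K hKA hKn H hHp hle
  obtain ⟨hc1, hc2⟩ := (hKmem c).1 hc
  have hj0 : ∀ δ ∈ B, (c * μ) * δ * (c * μ)⁻¹ ∈ B := by
    intro δ hδ
    have h1 := hcB (μ * δ * μ⁻¹) ⟨δ, hδ, rfl⟩
    have h2 : (c * μ) * δ * (c * μ)⁻¹ = c * (μ * δ * μ⁻¹) * c⁻¹ := by group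
    rw [h2]
    exact h1
  have hjA : c * μ ∈ F.autGroup E := mul_mem (hKA hc) hμA
  obtain ⟨ψ, hψ, hψe⟩ := exists_extension_of_normalizes hrec hjA hj0
  have hψM : ∀ x (hx : x ∈ E), ex ψ x = fn (c * μ) x := by
    intro x hx
    have hx' : x ∈ normalizerIn S E := by rw [hNS]; exact hES hx
    rw [ex_apply ψ hx', hψe x hx hx', fn_apply _ x hx]
  have hMpN : Mp F (normalizerIn S E) (ex ψ) := mp_ex hψ
  have hMpN : Mp F S (ex ψ) := hMpN.res hNS.ge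
  refine ⟨ex ψ, hMpN, hMe _ (hMul c μ hc1 hμM) _ hψM, fun x hx => ?_⟩
  rw [hψM x (hUE hx), fn_mul _ _ x (hUE hx), hμU x hx, hc2 _ (inv_mem hx)]

theorem inner_of_pelement {Ω : Type*} [Group Ω] {S : Subgroup Ω} [Finite S] {p : ℕ} [Fact p.Prime] (hS : IsPGroup p S)
    {F : FusionSystem S} (hF : F.IsSaturated p) {g : Ω → Ω} (hg : Mp F S g) (hgp : ∃ k : ℕ, ∀ x ∈ S, g^[p ^ k] x = x) :
    ∃ s ∈ S, ∀ x ∈ S, g x = s * x * s⁻¹ := by
  obtain ⟨hfn, -⟩ := isFullyNormalized_of_normal (F := F) (E := S) le_rfl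
    (fun s hs x hx => mul_mem (mul_mem hs hx) (inv_mem hs))
  obtain ⟨-, R, hR⟩ := isFullyAutomized_of_isFullyNormalized hS hF hfn
  obtain ⟨α, hα, hαg⟩ := hg.exists_aut fun x hx => hg.mem hx
  have hIn : autInducedBy S S = Inn S := by
    refine le_antisymm ?_ (H744.inn_le_autInducedBy le_rfl)
    intro α hα
    obtain ⟨g, hg, h⟩ := (mem_autInducedBy_iff S S α).1 hα
    exact ⟨⟨g, hg⟩, MulEquiv.ext fun x => Subtype.ext (h x).symm⟩
  have hnorm : ((R : Subgroup (F.autGroup S))).Normal := by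
    rw [hR, hIn]
    exact H744.inn_normal F S
  have hpow : ∀ n : ℕ, ∀ (x : Ω) (hx : x ∈ S), g^[n] x = ((α ^ n) ⟨x, hx⟩ : S) := by
    intro n
    induction n with
    | zero => intro x hx; rfl
    | succ n ih =>
      intro x hx
      rw [Function.iterate_succ_apply', ih x hx, hαg _ ((α ^ n) ⟨x, hx⟩).2, pow_succ']
      rfl
  obtain ⟨k, hk⟩ := hgp
  have hαk : α ^ p ^ k = 1 := by
    apply MulEquiv.ext
    intro x
    apply Subtype.ext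
    have := hk x x.2
    rw [hpow _ _ x.2] at this
    exact this
  let a : F.autGroup S := ⟨α, hα⟩
  have hak : a ^ p ^ k = 1 := Subtype.ext hαk
  have hzp : IsPGroup p (Subgroup.zpowers a) := by
    rintro ⟨x, hx⟩
    obtain ⟨n, rfl⟩ := Subgroup.mem_zpowers_iff.1 hx
    refine ⟨k, Subtype.ext ?_⟩
    show (a ^ n) ^ p ^ k = 1
    rw [← zpow_natCast, ← zpow_mul, mul_comm, zpow_mul, zpow_natCast, hak, one_zpow]
  have hsup : IsPGroup p ↥((R : Subgroup (F.autGroup S)) ⊔ Subgroup.zpowers a) := by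
    have h1 := hzp.to_sup_of_normal_right (K := (R : Subgroup (F.autGroup S))) R.isPGroup'
    rwa [sup_comm] at h1
  have hmem : a ∈ (R : Subgroup (F.autGroup S)) := by
    have h2 := R.is_maximal' hsup le_sup_left
    rw [← h2]
    exact Subgroup.mem_sup_right (Subgroup.mem_zpowers a)
  rw [hR, Subgroup.mem_subgroupOf] at hmem
  obtain ⟨s, hs, h⟩ := (mem_autInducedBy_iff S S α).1 hmem
  exact ⟨s, hs, fun x hx => by rw [hαg x hx, h]⟩

end Cfsg.Agent.H12.FusFr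
end

-- part: H573/ThSigns
section
/-!
# Automorphisms of the Sylow 3-subgroup of `Th` which fix or invert the second centre (helper573, for helper776)
-/

set_option autoImplicit false
set_option linter.style.longLine false

namespace Cfsg.Agent.H573.ThSigns

open Subgroup Cfsg.Agent.H776.ThS

theorem mem_N5_of_Z2 {n : P} (h : n ∈ Z2) : n ∈ N5 := ⟨h.1, h.2.1, h.2.2.1, h.2.2.2.1, h.2.2.2.2.1⟩
theorem mem_N5_of_Z3 {n : P} (h : n ∈ Z3) : n ∈ N5 := ⟨h.1, h.2.1, h.2.2.1, h.2.2.2.1, h.2.2.2.2.1⟩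
theorem mem_N5_of_Z4 {n : P} (h : n ∈ Z4) : n ∈ N5 := ⟨h.1, h.2.1, h.2.2.1, h.2.2.2.1, h.2.2.2.2.1⟩

/-- an element of `N5` -/
def n5 (p q r a b : ZMod 3) : P := ⟨0, 0, 0, 0, 0, p, q, r, a, b⟩

/-- an element of `Z2` -/
def z2 (a b : ZMod 3) : P := ⟨0, 0, 0, 0, 0, 0, 0, 0, a, b⟩

theorem z2_mem (a b : ZMod 3) : z2 a b ∈ Z2 := ⟨rfl, rfl, rfl, rfl, rfl, rfl, rfl, rfl⟩

theorem eq_z2 {n : P} (h : n ∈ Z2) : n = z2 n.x9 n.x10 := by
  obtain ⟨h1, h2, h3, h4, h5, h6, h7, h8⟩ := h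
  apply V.ext <;> first | assumption | rfl

theorem u6_mem : u6 ∈ N5 := ⟨rfl, rfl, rfl, rfl, rfl⟩
theorem u7_mem : u7 ∈ N5 := ⟨rfl, rfl, rfl, rfl, rfl⟩
theorem u8_mem : u8 ∈ N5 := ⟨rfl, rfl, rfl, rfl, rfl⟩

theorem u2_x1 : u2.x1 = 0 := rfl
theorem u2_x2 : u2.x2 = 1 := rfl
theorem u2_x3 : u2.x3 = 0 := rfl
theorem u2_x4 : u2.x4 = 0 := rfl
theorem u2_x5 : u2.x5 = 0 := rfl
theorem u2_x6 : u2.x6 = 0 := rfl
theorem u2_x7 : u2.x7 = 0 := rfl
theorem u2_x8 : u2.x8 = 0 := rfl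
theorem u2_x9 : u2.x9 = 0 := rfl
theorem u2_x10 : u2.x10 = 0 := rfl
theorem u3_x1 : u3.x1 = 0 := rfl
theorem u3_x2 : u3.x2 = 0 := rfl
theorem u3_x3 : u3.x3 = 1 := rfl
theorem u3_x4 : u3.x4 = 0 := rfl
theorem u3_x5 : u3.x5 = 0 := rfl
theorem u3_x6 : u3.x6 = 0 := rfl
theorem u3_x7 : u3.x7 = 0 := rfl
theorem u3_x8 : u3.x8 = 0 := rfl
theorem u3_x9 : u3.x9 = 0 := rfl
theorem u3_x10 : u3.x10 = 0 := rfl
theorem u4_x1 : u4.x1 = 0 := rfl
theorem u4_x2 : u4.x2 = 0 := rfl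
theorem u4_x3 : u4.x3 = 0 := rfl
theorem u4_x4 : u4.x4 = 1 := rfl
theorem u4_x5 : u4.x5 = 0 := rfl
theorem u4_x6 : u4.x6 = 0 := rfl
theorem u4_x7 : u4.x7 = 0 := rfl
theorem u4_x8 : u4.x8 = 0 := rfl
theorem u4_x9 : u4.x9 = 0 := rfl
theorem u4_x10 : u4.x10 = 0 := rfl
theorem u5_x1 : u5.x1 = 0 := rfl
theorem u5_x2 : u5.x2 = 0 := rfl
theorem u5_x3 : u5.x3 = 0 := rfl
theorem u5_x4 : u5.x4 = 0 := rfl
theorem u5_x5 : u5.x5 = 1 := rfl
theorem u5_x6 : u5.x6 = 0 := rfl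
theorem u5_x7 : u5.x7 = 0 := rfl
theorem u5_x8 : u5.x8 = 0 := rfl
theorem u5_x9 : u5.x9 = 0 := rfl
theorem u5_x10 : u5.x10 = 0 := rfl
theorem u6_x1 : u6.x1 = 0 := rfl
theorem u6_x2 : u6.x2 = 0 := rfl
theorem u6_x3 : u6.x3 = 0 := rfl
theorem u6_x4 : u6.x4 = 0 := rfl
theorem u6_x5 : u6.x5 = 0 := rfl
theorem u6_x6 : u6.x6 = 1 := rfl
theorem u6_x7 : u6.x7 = 0 := rfl
theorem u6_x8 : u6.x8 = 0 := rfl
theorem u6_x9 : u6.x9 = 0 := rfl
theorem u6_x10 : u6.x10 = 0 := rfl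
theorem u7_x1 : u7.x1 = 0 := rfl
theorem u7_x2 : u7.x2 = 0 := rfl
theorem u7_x3 : u7.x3 = 0 := rfl
theorem u7_x4 : u7.x4 = 0 := rfl
theorem u7_x5 : u7.x5 = 0 := rfl
theorem u7_x6 : u7.x6 = 0 := rfl
theorem u7_x7 : u7.x7 = 1 := rfl
theorem u7_x8 : u7.x8 = 0 := rfl
theorem u7_x9 : u7.x9 = 0 := rfl
theorem u7_x10 : u7.x10 = 0 := rfl
theorem u8_x1 : u8.x1 = 0 := rfl
theorem u8_x2 : u8.x2 = 0 := rfl
theorem u8_x3 : u8.x3 = 0 := rfl
theorem u8_x4 : u8.x4 = 0 := rfl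
theorem u8_x5 : u8.x5 = 0 := rfl
theorem u8_x6 : u8.x6 = 0 := rfl
theorem u8_x7 : u8.x7 = 0 := rfl
theorem u8_x8 : u8.x8 = 1 := rfl
theorem u8_x9 : u8.x9 = 0 := rfl
theorem u8_x10 : u8.x10 = 0 := rfl

/-- powers in `N5` -/
theorem powN {n : P} (hn : n ∈ N5) (k : ℕ) : n ^ k = n5 (k * n.x6) (k * n.x7) (k * n.x8) (k * n.x9) (k * n.x10) := by
  induction k with
  | zero => rw [pow_zero]; apply V.ext <;> simp [n5, one_x1, one_x2, one_x3, one_x4, one_x5, one_x6, one_x7, one_x8, one_x9, one_x10]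
  | succ k ih =>
    rw [pow_succ, ih, mulN _ _ hn]
    apply V.ext <;> simp [n5] <;> ring

/-- multiples in `ZMod 3` -/
theorem val_cast (a : ZMod 3) : ((a.val : ℕ) : ZMod 3) = a := by revert a; decide

theorem decomp {n : P} (hn : n ∈ N5) : n = u6 ^ n.x6.val * (u7 ^ n.x7.val * (u8 ^ n.x8.val * z2 n.x9 n.x10)) := by
  obtain ⟨h1, h2, h3, h4, h5⟩ := hn
  rw [mulN _ _ (mul_mem (pow_mem u7_mem _) (mul_mem (pow_mem u8_mem _) (mem_N5_of_Z2 (z2_mem _ _)))),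
    mulN _ _ (mul_mem (pow_mem u8_mem _) (mem_N5_of_Z2 (z2_mem _ _))), mulN _ _ (mem_N5_of_Z2 (z2_mem _ _)),
    powN u6_mem, powN u7_mem, powN u8_mem, val_cast, val_cast, val_cast]
  apply V.ext <;> simp [n5, z2, u6, u7, u8, h1, h2, h3, h4, h5]

/-- the hypotheses -/
structure Hyp (g : P → P) (δ : ZMod 3) : Prop where
  mul : ∀ x y, g (x * y) = g x * g y
  surj : Function.Surjective g
  ne : δ ≠ 0
  z : ∀ a b, g (z2 a b) = z2 (δ * a) (δ * b)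

variable {g : P → P} {δ : ZMod 3}

/-- coordinates of `w` commuting with `u1` and `u2` modulo `N`: -/
theorem coords {w n m : P} (hn : n ∈ N5) (hm : m ∈ N5) (e1 : w * u1 = u1 * w * n) (e2 : w * u2 = u2 * w * m) :
    w.x1 = 0 ∧ w.x2 = 0 ∧ w.x3 = 0 ∧ w.x5 = m.x6 ∧ w.x4 = -m.x7 ∧ w.x6 = n.x7 ∧ w.x7 = w.x6 - n.x8 := by
  rw [mulN _ _ hn] at e1
  rw [mulN _ _ hm] at e2
  have a3 : (w * u1).x3 = (u1 * w).x3 := by rw [e1]
  have a4 : (w * u1).x4 = (u1 * w).x4 := by rw [e1]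
  have a7 : (w * u1).x7 = (u1 * w).x7 + n.x7 := by rw [e1]
  have a8 : (w * u1).x8 = (u1 * w).x8 + n.x8 := by rw [e1]
  have b3 : (w * u2).x3 = (u2 * w).x3 := by rw [e2]
  have b6 : (w * u2).x6 = (u2 * w).x6 + m.x6 := by rw [e2]
  have b7 : (w * u2).x7 = (u2 * w).x7 + m.x7 := by rw [e2]
  simp only [mul_x3, mul_x4, mul_x6, mul_x7, mul_x8, u1, u2] at a3 a4 a7 a8 b3 b6 b7
  have c2 : w.x2 = 0 := by linear_combination a3
  have c1 : w.x1 = 0 := by linear_combination -b3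
  rw [c2] at a4 a7 a8 b6 b7
  rw [c1] at a8 b6 b7
  have c3 : w.x3 = 0 := by linear_combination -a4
  rw [c3] at a7 a8 b7
  refine ⟨c1, c2, c3, ?_, ?_, ?_, ?_⟩
  · linear_combination b6
  · linear_combination -b7
  · linear_combination a7
  · linear_combination -a8

/-- the commutator of `c` and `x` -/
theorem cx_split (c x : P) (hc : c ∈ N5) : cx c x = c * n5 0 (x.x1 * c.x6) (- x.x1 * c.x7 + x.x1 ^ 2 * c.x6)
  ((cx c x).x9 - c.x9) ((cx c x).x10 - c.x10) := by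
  rw [mulN _ _ ⟨rfl, rfl, rfl, rfl, rfl⟩]
  obtain ⟨h1, h2, h3, h4, h5⟩ := hc
  apply V.ext <;> simp [n5, cx, h1, h2, h3, h4, h5]
  ring

theorem Hyp.one (H : Hyp g δ) : g 1 = 1 := by
  have h1 := H.mul 1 1
  rw [mul_one] at h1
  exact left_eq_mul.1 h1

theorem Hyp.pow (H : Hyp g δ) (x : P) (n : ℕ) : g (x ^ n) = g x ^ n := by
  induction n with
  | zero => rw [pow_zero, pow_zero, H.one]
  | succ n ih => rw [pow_succ, pow_succ, H.mul, ih]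

theorem Hyp.cx (H : Hyp g δ) {c x : P} (hc : c ∈ N5) (hgc : g c ∈ N5) : g (cx c x) = cx (g c) (g x) := by
  have h := congrArg g (N5_mul c x hc)
  rw [H.mul, H.mul, N5_mul _ _ hgc] at h
  exact (mul_left_cancel h).symm

/-- the first coordinate -/
theorem Hyp.x1 (H : Hyp g δ) (x : P) : (g x).x1 = x.x1 := by
  have h1 := H.cx (c := z2 1 0) (x := x) (mem_N5_of_Z2 (z2_mem _ _)) (by rw [H.z]; exact mem_N5_of_Z2 (z2_mem _ _))
  have h2 : Cfsg.Agent.H776.ThS.cx (z2 1 0) x = z2 1 x.x1 := by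
    apply V.ext <;> simp [Cfsg.Agent.H776.ThS.cx, z2]
  rw [h2, H.z, H.z] at h1
  have h3 := congrArg V.x10 h1
  have h4 : δ * x.x1 = δ * (g x).x1 := by
    simpa [Cfsg.Agent.H776.ThS.cx, z2, mul_comm] using h3
  exact (mul_left_cancel₀ H.ne h4).symm

/-- `w = g c` and its commutators -/
theorem Hyp.comm (H : Hyp g δ) {c : P} (hc : c ∈ N5) (y : P) : ∃ x, x.x1 = y.x1 ∧ g x = y ∧ g c * y = y * g c *
    g (n5 0 (x.x1 * c.x6) (- x.x1 * c.x7 + x.x1 ^ 2 * c.x6) ((Cfsg.Agent.H776.ThS.cx c x).x9 - c.x9)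
      ((Cfsg.Agent.H776.ThS.cx c x).x10 - c.x10)) := by
  obtain ⟨x, rfl⟩ := H.surj y
  refine ⟨x, (H.x1 x).symm, rfl, ?_⟩
  rw [mul_assoc, ← H.mul, ← H.mul, ← H.mul, ← cx_split c x hc, N5_mul c x hc]

theorem n5_z2 (a b : ZMod 3) : n5 0 0 0 a b = z2 a b := rfl

theorem Hyp.u8_mem (H : Hyp g δ) : g u8 ∈ Z3 := by
  obtain ⟨x, -, -, e1⟩ := H.comm ThSigns.u8_mem u1
  obtain ⟨y, -, -, e2⟩ := H.comm ThSigns.u8_mem u2
  have a1 : u8.x6 = 0 := rfl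
  have a2 : u8.x7 = 0 := rfl
  rw [a1, a2, mul_zero, mul_zero, mul_zero, add_zero, n5_z2, H.z] at e1 e2
  obtain ⟨h1, h2, h3, h4, h5, h6, h7⟩ := coords (mem_N5_of_Z2 (z2_mem _ _)) (mem_N5_of_Z2 (z2_mem _ _)) e1 e2
  simp only [z2, neg_zero] at h4 h5 h6 h7
  exact ⟨h1, h2, h3, h5, h4, h6, by rw [h7, h6, sub_zero]⟩

/-- `g` on `Z3` -/
theorem Hyp.z3 (H : Hyp g δ) (c a b : ZMod 3) : g (n5 0 0 c a b) = n5 0 0 (c * (g u8).x8)
    (c * (g u8).x9 + δ * a) (c * (g u8).x10 + δ * b) := by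
  have hu := H.u8_mem
  have hN := mem_N5_of_Z3 hu
  obtain ⟨-, -, -, -, -, h6, h7⟩ := hu
  rw [decomp (n := n5 0 0 c a b) ⟨rfl, rfl, rfl, rfl, rfl⟩]
  simp only [n5, ZMod.val_zero, pow_zero, one_mul]
  rw [H.mul, H.pow, H.z, powN hN, mulN _ _ (mem_N5_of_Z2 (z2_mem _ _)), val_cast]
  apply V.ext <;> simp [n5, z2, h6, h7]

theorem Hyp.u7_mem (H : Hyp g δ) : g u7 ∈ Z4 := by
  obtain ⟨x, -, -, e1⟩ := H.comm ThSigns.u7_mem u1
  obtain ⟨y, -, -, e2⟩ := H.comm ThSigns.u7_mem u2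
  have a1 : u7.x6 = 0 := rfl
  rw [a1, mul_zero, H.z3] at e1 e2
  obtain ⟨h1, h2, h3, h4, h5, h6, h7⟩ := coords ⟨rfl, rfl, rfl, rfl, rfl⟩ ⟨rfl, rfl, rfl, rfl, rfl⟩ e1 e2
  simp only [n5, neg_zero] at h4 h5 h6 h7
  exact ⟨h1, h2, h3, h5, h4, h6⟩

/-- `g` on `Z4` -/
theorem Hyp.z4 (H : Hyp g δ) (d c a b : ZMod 3) : g (n5 0 d c a b) = n5 0 (d * (g u7).x7)
    (d * (g u7).x8 + c * (g u8).x8) (d * (g u7).x9 + c * (g u8).x9 + δ * a)
    (d * (g u7).x10 + c * (g u8).x10 + δ * b) := by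
  have hu := H.u7_mem
  have hN := mem_N5_of_Z4 hu
  obtain ⟨-, -, -, -, -, h6⟩ := hu
  have e : n5 0 d c a b = u7 ^ d.val * n5 0 0 c a b := by
    rw [powN ThSigns.u7_mem, mulN _ _ ⟨rfl, rfl, rfl, rfl, rfl⟩, val_cast]
    apply V.ext <;> simp [n5, u7]
  rw [e, H.mul, H.pow, H.z3, powN hN, mulN _ _ ⟨rfl, rfl, rfl, rfl, rfl⟩, val_cast]
  apply V.ext <;> simp [n5, h6]
  all_goals ring

theorem Hyp.u6_mem (H : Hyp g δ) : g u6 ∈ N5 := by
  obtain ⟨x, -, -, e1⟩ := H.comm ThSigns.u6_mem u1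
  obtain ⟨y, hy, -, e2⟩ := H.comm ThSigns.u6_mem u2
  have a1 : u6.x6 = 1 := rfl
  have a2 : u6.x7 = 0 := rfl
  have a3 : u2.x1 = 0 := rfl
  rw [a3] at hy
  rw [hy] at e2
  rw [H.z4] at e1 e2
  obtain ⟨h1, h2, h3, h4, h5, h6, h7⟩ := coords ⟨rfl, rfl, rfl, rfl, rfl⟩ ⟨rfl, rfl, rfl, rfl, rfl⟩ e1 e2
  simp only [n5, zero_mul, neg_zero] at h4 h5 h6 h7
  exact ⟨h1, h2, h3, h5, h4⟩

/-- `g` on `N5` -/
theorem Hyp.n5 (H : Hyp g δ) (p d c a b : ZMod 3) : g (n5 p d c a b) = ThSigns.n5 (p * (g u6).x6)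
    (p * (g u6).x7 + d * (g u7).x7)
    (p * (g u6).x8 + d * (g u7).x8 + c * (g u8).x8) (p * (g u6).x9 + d * (g u7).x9 + c * (g u8).x9 + δ * a)
    (p * (g u6).x10 + d * (g u7).x10 + c * (g u8).x10 + δ * b) := by
  have hu := H.u6_mem
  have e : ThSigns.n5 p d c a b = u6 ^ p.val * ThSigns.n5 0 d c a b := by
    rw [powN ThSigns.u6_mem, mulN _ _ ⟨rfl, rfl, rfl, rfl, rfl⟩, val_cast]
    apply V.ext <;> simp [ThSigns.n5, u6]
  rw [e, H.mul, H.pow, H.z4, powN hu, mulN _ _ ⟨rfl, rfl, rfl, rfl, rfl⟩, val_cast]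
  apply V.ext <;> simp [ThSigns.n5]
  all_goals ring

theorem eq_n5 {n : P} (h : n ∈ N5) : n = n5 n.x6 n.x7 n.x8 n.x9 n.x10 := by
  obtain ⟨h1, h2, h3, h4, h5⟩ := h
  apply V.ext <;> first | assumption | rfl

/-- relations from `u8` -/
theorem Hyp.r8 (H : Hyp g δ) (x : P) : (g x).x2 * (g u8).x8 = δ * x.x2 ∧
    (g x).x3 * (g u8).x8 = δ * x.x3 + x.x1 * (g u8).x9 := by
  have hu := H.u8_mem
  have h := H.cx (c := u8) (x := x) ThSigns.u8_mem (mem_N5_of_Z3 hu)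
  rw [eq_n5 (cx_mem u8 x), H.n5] at h
  have h9 := congrArg V.x9 h
  have h10 := congrArg V.x10 h
  have hx := H.x1 x
  obtain ⟨-, -, -, -, -, h6, h7⟩ := hu
  simp only [Cfsg.Agent.H776.ThS.cx, ThSigns.n5] at h9 h10
  rw [h6, h7, hx] at h9 h10
  simp only [u8_x6, u8_x7, u8_x8, u8_x9, u8_x10] at h9 h10
  constructor
  · linear_combination h9
  · linear_combination h10

/-- relations from `u7` -/
theorem Hyp.r7 (H : Hyp g δ) (x : P) (hx : x.x1 = 0) : δ * x.x3 = (g x).x3 * (g u7).x7 + (g x).x2 * (g u7).x8 ∧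
    δ * (x.x2 - x.x4) = - (g x).x4 * (g u7).x7 - (g x).x3 * (g u7).x8 + (g x).x2 * (g u7).x7 := by
  have hu := H.u7_mem
  have h := H.cx (c := u7) (x := x) ThSigns.u7_mem (mem_N5_of_Z4 hu)
  rw [eq_n5 (cx_mem u7 x), H.n5] at h
  have h9 := congrArg V.x9 h
  have h10 := congrArg V.x10 h
  have hx := H.x1 x
  obtain ⟨-, -, -, -, -, h6⟩ := hu
  simp only [Cfsg.Agent.H776.ThS.cx, ThSigns.n5] at h9 h10
  rw [h6, hx] at h9 h10
  simp only [u7_x6, u7_x7, u7_x8, u7_x9, u7_x10] at h9 h10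
  simp only [‹x.x1 = 0›] at h9 h10
  constructor
  · linear_combination -h9
  · linear_combination h10

/-- relations from `u6` -/
theorem Hyp.r6 (H : Hyp g δ) (x : P) (hx : x.x1 = 0) : δ * (x.x2 - x.x4) = - (g x).x4 * (g u6).x6
    - (g x).x3 * (g u6).x7 - (g x).x2 * (g u6).x8 + (g x).x2 * (g u6).x6 ∧
    δ * (x.x5 + x.x3) = (g x).x5 * (g u6).x6 - (g x).x4 * (g u6).x7 - (g x).x3 * (g u6).x8
      + (g x).x3 * (g u6).x6 + (g x).x2 * (g u6).x7 := by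
  have hu := H.u6_mem
  have h := H.cx (c := u6) (x := x) ThSigns.u6_mem hu
  rw [eq_n5 (cx_mem u6 x), H.n5] at h
  have h9 := congrArg V.x9 h
  have h10 := congrArg V.x10 h
  have hx := H.x1 x
  simp only [Cfsg.Agent.H776.ThS.cx, ThSigns.n5] at h9 h10
  rw [hx] at h9 h10
  simp only [u6_x6, u6_x7, u6_x8, u6_x9, u6_x10] at h9 h10
  simp only [‹x.x1 = 0›] at h9 h10
  constructor
  · linear_combination h9
  · linear_combination h10

theorem sq_one {e : ZMod 3} (h : e ≠ 0) : e * e = 1 := by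
  revert e; decide

/-- the coefficients -/
theorem Hyp.coef (H : Hyp g δ) : (g u8).x8 = 1 ∧ (g u7).x7 = 1 ∧ (g u7).x8 = 0 ∧ (g u6).x6 = 1 ∧ (g u6).x7 = 0 ∧
    (g u6).x8 = 0 ∧ ∀ x : P, x.x1 = 0 → (g x).x2 = δ * x.x2 ∧ (g x).x3 = δ * x.x3 ∧ (g x).x4 = δ * x.x4 ∧
      (g x).x5 = δ * x.x5 := by
  have hδ := sq_one H.ne
  have he : (g u8).x8 ≠ 0 := by
    intro h
    have h1 := (H.r8 u2).1
    rw [h, mul_zero] at h1
    simp only [u2_x2, mul_one] at h1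
    exact H.ne h1.symm
  have hee := sq_one he
  set e := (g u8).x8 with e_def
  have g2 : ∀ x : P, (g x).x2 = δ * e * x.x2 := fun x => by
    have h1 := (H.r8 x).1
    linear_combination e * h1 - (g x).x2 * hee
  have g3 : ∀ x : P, x.x1 = 0 → (g x).x3 = δ * e * x.x3 := fun x hx => by
    have h1 := (H.r8 x).2
    rw [hx] at h1
    linear_combination e * h1 - (g x).x3 * hee
  -- u7
  have c8 : (g u7).x8 = 0 := by
    have h1 := (H.r7 u2 rfl).1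
    rw [g2, g3 _ rfl] at h1
    simp only [u2_x2, u2_x3] at h1
    linear_combination -e * δ * h1 - (g u7).x8 * δ * δ * hee - (g u7).x8 * hδ
  have f1 : (g u7).x7 = e := by
    have h1 := (H.r7 u3 rfl).1
    rw [g2, g3 _ rfl] at h1
    simp only [u3_x2, u3_x3] at h1
    linear_combination -e * δ * h1 - (g u7).x7 * δ * δ * hee + (e - (g u7).x7) * hδ
  have g4 : ∀ x : P, x.x1 = 0 → (g x).x4 = δ * e * x.x4 := fun x hx => by
    have h1 := (H.r7 x hx).2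
    rw [f1, c8, g2] at h1
    linear_combination e * h1 + (δ * e * x.x2 - (g x).x4) * hee
  -- u6
  have r4 := (H.r6 u4 rfl).1
  have r3 := (H.r6 u3 rfl).1
  have r2 := (H.r6 u2 rfl).1
  rw [g2, g3 _ rfl, g4 _ rfl] at r4 r3 r2
  simp only [u4_x2, u4_x3, u4_x4, u3_x2, u3_x3, u3_x4, u2_x2, u2_x3, u2_x4] at r4 r3 r2
  have h1 : (g u6).x6 = e := by
    linear_combination e * δ * r4 - (g u6).x6 * δ * δ * hee + (e - (g u6).x6) * hδ
  have a7 : (g u6).x7 = 0 := by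
    linear_combination e * δ * r3 - (g u6).x7 * δ * δ * hee - (g u6).x7 * hδ
  have a8 : (g u6).x8 = 0 := by
    rw [h1] at r2
    linear_combination e * δ * r2 - ((g u6).x8 - e) * δ * δ * hee - (g u6).x8 * hδ
  have g5 : ∀ x : P, x.x1 = 0 → (g x).x5 = δ * e * x.x5 := fun x hx => by
    have h2 := (H.r6 x hx).2
    rw [h1, a7, a8, g3 x hx] at h2
    linear_combination - e * h2 - (δ * e * x.x3 + (g x).x5) * hee
  have e1 : e = 1 := by
    have hc := congrArg g (E1_mul u5 u2 rfl rfl)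
    rw [H.mul, H.mul, H.mul, E1_mul (g u5) (g u2) (H.x1 _) (H.x1 _)] at hc
    have hc' := mul_left_cancel hc
    rw [eq_n5 (ce_mem u5 u2), H.n5, h1] at hc'
    have h6 := congrArg V.x6 hc'
    simp only [ce, ThSigns.n5] at h6
    rw [g2, g2, g5 _ rfl, g5 _ rfl] at h6
    simp only [u5_x2, u5_x5, u2_x2, u2_x5] at h6
    linear_combination -h6 + δ * δ * hee + hδ
  rw [e1] at g2 g3 g4 g5 h1 f1
  refine ⟨e1, f1, c8, h1, a7, a8, fun x hx => ⟨?_, ?_, ?_, ?_⟩⟩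
  · rw [g2, mul_one]
  · rw [g3 x hx, mul_one]
  · rw [g4 x hx, mul_one]
  · rw [g5 x hx, mul_one]

/-- an automorphism of order prime to 3 fixing `C` and an element modulo `C` -/
theorem fix_of {γ : P ≃* P} {m : ℕ} (hm : Nat.Coprime m 3) (h1 : γ ^ m = 1) (C : Subgroup P) (hC : ∀ c ∈ C, γ c = c)
    {x : P} (hx : x⁻¹ * γ x ∈ C) : γ x = x := by
  set c := x⁻¹ * γ x with c_def
  have e : γ x = x * c := by rw [c_def, mul_inv_cancel_left]
  have hk : ∀ k : ℕ, (γ ^ k) x = x * c ^ k := fun k => by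
    induction k with
    | zero => simp
    | succ k ih => rw [pow_succ', MulAut.mul_apply, ih, map_mul, e, map_pow, hC c hx, mul_assoc, ← pow_succ']
  have h2 := hk m
  rw [h1, MulAut.one_apply, left_eq_mul] at h2
  have h3 : c = 1 := by
    have ho := orderOf_dvd_of_pow_eq_one h2
    have ho' := orderOf_dvd_of_pow_eq_one (pow3_10 c)
    have h4 := Nat.dvd_gcd ho ho'
    rw [Nat.Coprime.gcd_eq_one (Nat.Coprime.pow_right _ hm), Nat.dvd_one] at h4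
    exact orderOf_eq_one_iff.1 h4
  rw [e, h3, mul_one]

/-- an automorphism of order prime to 3 fixing the second centre is trivial -/
theorem eq_one_of {γ : P ≃* P} {m : ℕ} (hm : Nat.Coprime m 3) (h1 : γ ^ m = 1) (hZ : ∀ x ∈ Z2, γ x = x) (x : P) :
    γ x = x := by
  have H : Hyp γ 1 := ⟨fun x y => map_mul γ x y, γ.surjective, one_ne_zero, fun a b => by
    rw [hZ _ (z2_mem _ _), one_mul, one_mul]⟩
  obtain ⟨e, f, c8, h, a7, a8, hE⟩ := H.coef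
  have inZ2 : ∀ {u w : P}, u ∈ N5 → w ∈ N5 → w.x6 = u.x6 → w.x7 = u.x7 → w.x8 = u.x8 → u⁻¹ * w ∈ Z2 := by
    intro u w hu hw h6 h7 h8
    have h' : w = u * z2 (w.x9 - u.x9) (w.x10 - u.x10) := by
      rw [mulN _ _ (mem_N5_of_Z2 (z2_mem _ _))]
      obtain ⟨a1, a2, a3, a4, a5⟩ := hu
      obtain ⟨b1, b2, b3, b4, b5⟩ := hw
      apply V.ext <;> simp [z2, *]
    rw [h', inv_mul_cancel_left]
    exact z2_mem _ _
  have hu8 := H.u8_mem
  have hu7 := H.u7_mem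
  have hu6 := H.u6_mem
  have k8 : γ u8 = u8 := fix_of hm h1 Z2 hZ (inZ2 u8_mem (mem_N5_of_Z3 hu8) hu8.2.2.2.2.2.1 hu8.2.2.2.2.2.2 e)
  have k7 : γ u7 = u7 := fix_of hm h1 Z2 hZ (inZ2 u7_mem (mem_N5_of_Z4 hu7) hu7.2.2.2.2.2 f c8)
  have k6 : γ u6 = u6 := fix_of hm h1 Z2 hZ (inZ2 u6_mem hu6 h a7 a8)
  have kN : ∀ n ∈ N5, γ n = n := fun n hn => by
    conv_lhs => rw [decomp hn]
    rw [map_mul, map_mul, map_mul, map_pow, map_pow, map_pow, k6, k7, k8, hZ _ (z2_mem _ _), ← decomp hn]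
  have kE : ∀ x ∈ E1, γ x = x := fun x hx => by
    obtain ⟨e2, e3, e4, e5⟩ := hE x hx
    rw [one_mul] at e2 e3 e4 e5
    apply fix_of hm h1 N5 kN
    rw [exists_N5 (γ x) x (H.x1 x) e2 e3 e4 e5, inv_mul_cancel_left]
    exact ⟨rfl, rfl, rfl, rfl, rfl⟩
  apply fix_of hm h1 E1 kE
  show (x⁻¹ * γ x).x1 = 0
  have h3 := mul_x1 x (x⁻¹ * γ x)
  rw [mul_inv_cancel_left, H.x1 x] at h3
  exact left_eq_add.1 h3

/-- an automorphism fixing the second centre is a 3-element -/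
theorem signs_one (g : P → P) (hm : ∀ x y, g (x * y) = g x * g y) (hi : Function.Injective g)
    (hZ : ∀ x ∈ Z2, g x = x) : ∃ k : ℕ, ∀ x, g^[3 ^ k] x = x := by
  let γ : P ≃* P := MulEquiv.ofBijective (MonoidHom.mk' g hm) (Finite.injective_iff_bijective.1 hi)
  have hγ : ∀ x, γ x = g x := fun x => rfl
  obtain ⟨k, m, hm3, ho⟩ := Nat.exists_eq_pow_mul_and_not_dvd (orderOf_pos γ).ne' 3 (by norm_num)
  refine ⟨k, fun x => ?_⟩
  have hpow : ∀ n : ℕ, ∀ y, (γ ^ n) y = g^[n] y := fun n => by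
    induction n with
    | zero => intro y; simp
    | succ n ih => intro y; rw [pow_succ', MulAut.mul_apply, ih, Function.iterate_succ_apply', hγ]
  rw [← hpow]
  apply eq_one_of (m := m) (γ := γ ^ 3 ^ k) ((Nat.Prime.coprime_iff_not_dvd Nat.prime_three).2 hm3).symm
  · rw [← pow_mul, ← ho, pow_orderOf_eq_one]
  · intro y hy
    rw [hpow]
    exact Function.iterate_fixed (hZ y hy) _

/-- an automorphism inverting the second centre acts as `-1` on `E1 / N5` -/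
theorem signs_neg (g : P → P) (hm : ∀ x y, g (x * y) = g x * g y) (hi : Function.Injective g)
    (hZ : ∀ x ∈ Z2, g x = x⁻¹) :
    (∀ x ∈ E1, g x * x ∈ Z6) ∧ (∀ x ∈ Z6, g x * x ∈ Y7) ∧ (∀ x ∈ Y7, g x * x ∈ X6) ∧ (∀ x ∈ X6, g x * x ∈ N5) := by
  have hz2 : ∀ a b : ZMod 3, (z2 a b)⁻¹ = z2 (-a) (-b) := fun a b => by
    rw [inv_eq_iff_mul_eq_one, mulN _ _ (mem_N5_of_Z2 (z2_mem _ _))]
    apply V.ext <;> simp [z2, one_x1, one_x2, one_x3, one_x4, one_x5, one_x6, one_x7, one_x8, one_x9, one_x10]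
  have H : Hyp g (-1) := ⟨hm, (Finite.injective_iff_bijective.1 hi).2, by decide, fun a b => by
    rw [hZ _ (z2_mem _ _), hz2, neg_one_mul, neg_one_mul]⟩
  obtain ⟨-, -, -, -, -, -, hE⟩ := H.coef
  refine ⟨fun x hx => ?_, fun x hx => ?_, fun x hx => ?_, fun x hx => ?_⟩
  · rw [mem_E1] at hx
    obtain ⟨e2, e3, e4, e5⟩ := hE x hx
    have e1 := H.x1 x
    rw [mem_Z6, mul_x1, mul_x2, e1, e2, hx]
    constructor <;> ring
  · obtain ⟨h1, h2⟩ := hx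
    obtain ⟨e2, e3, e4, e5⟩ := hE x h1
    have e1 := H.x1 x
    rw [mem_Y7, mul_x1, mul_x2, mul_x3, e1, e2, e3, h1, h2]
    refine ⟨?_, ?_, ?_⟩ <;> ring
  · obtain ⟨h1, h2, h3⟩ := hx
    obtain ⟨e2, e3, e4, e5⟩ := hE x h1
    have e1 := H.x1 x
    rw [mem_X6, mul_x1, mul_x2, mul_x3, mul_x4, e1, e2, e3, e4, h1, h2, h3]
    refine ⟨?_, ?_, ?_, ?_⟩ <;> ring
  · obtain ⟨h1, h2, h3, h4⟩ := hx
    obtain ⟨e2, e3, e4, e5⟩ := hE x h1
    have e1 := H.x1 x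
    rw [mem_N5, mul_x1, mul_x2, mul_x3, mul_x4, mul_x5, e1, e2, e3, e4, e5, h1, h2, h3, h4]
    refine ⟨?_, ?_, ?_, ?_, ?_⟩ <;> ring

end Cfsg.Agent.H573.ThSigns
end

-- part: H776/ThIn
section
/-!
The inputs of the fusion argument, proved in the imported modules.
-/

set_option autoImplicit false
set_option linter.style.longLine false

namespace Cfsg.Agent.H776.ThS
open Subgroup Cfsg Cfsg.Agent.H752

theorem thmI {Q : Subgroup P} {A : Set (P → P)} (h : Ctx Q A) (hSE : SE Q A Z1) (hmov : ∃ a ∈ A, a u10 ∉ Z1) :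
    Q = E1 :=
  Cfsg.Agent.H347.Th.thmI h hSE hmov

theorem thmII {Q : Subgroup P} {A : Set (P → P)} (h : Ctx Q A) (hSE : SE Q A Z2) (hcore : Core Q A) (hW : Z2 ≤ Q)
    (hfix : ∀ a ∈ A, a u10 ∈ Z1) (hmov : ∃ a ∈ A, a u9 ∉ Z2) :
    Q = E2 ∧ ∀ a ∈ A, ∀ w ∈ Z2, a w ∈ Z3 :=
  Cfsg.Agent.H835.Th2.thmII h hSE hcore hW hfix hmov

theorem thmBeta {Q : Subgroup P} {A : Set (P → P)} (h : Ctx Q A) (hSE : SE Q A Z2) (hQ : Q ≤ E1) (hW : Z2 ≤ Q)
    (hmov : ∃ a ∈ A, ∃ w ∈ Z2, a w ∉ Z2) (hk : ∃ k ∈ A, (∀ w ∈ Z2, k w ∈ Z2) ∧ k u10 ∉ Z1)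
    {A1 : Set (P → P)} (h1 : Ctx E1 A1) (h1m : ∃ α ∈ A1, α u10 ∉ Z1)
    (htr : ∀ α ∈ A1, ∀ β ∈ A1, (∀ x ∈ E1, β (α x) = x) → ∀ y : P,
      (∀ x ∈ Q, ∃ x' ∈ Q, y * α x * y⁻¹ = α x') → (fun x => β (y * α x * y⁻¹)) ∈ A)
    (hfn : ∀ α ∈ A1, ∀ N : Subgroup P, (∀ n ∈ N, ∀ x ∈ Q, ∃ x' ∈ Q, n * α x * n⁻¹ = α x') →
      Nat.card N ≤ Nat.card (normalizer (Q : Set P))) :
    ∀ a ∈ A, (∃ w ∈ Z2, a w ∉ Z2) → ∀ w ∈ Z2, w ≠ 1 → a w ∉ N5 ∧ ∀ z ∈ Z2, ∃ n ∈ N5, n * a w * n⁻¹ = a w * z :=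
  Cfsg.Agent.H418.ThB.thmBeta h hSE hQ hW hmov hk h1 h1m htr hfn

/-- F1 -/
theorem exists_bad {Ω : Type*} [Group Ω] {S : Subgroup Ω} [Finite S] {p : ℕ} [Fact p.Prime] (hS : IsPGroup p S)
    {F : FusionSystem S} (hF : F.IsSaturated p) {W : Subgroup Ω} (hWS : W ≤ S)
    (hWtop : ∀ f : Ω → Ω, Mp F S f → ∀ x ∈ W, f x ∈ W) (hW : ¬ F.StronglyClosed W) :
    ∃ Q : Subgroup Ω, Q < S ∧ F.IsEssential p Q ∧ F.IsFullyAutomized p Q ∧ F.IsReceptive Q ∧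
      (∃ f : Ω → Ω, Mp F Q f ∧ (∀ x ∈ Q, f x ∈ Q) ∧ ∃ x ∈ Q, x ∈ W ∧ f x ∉ W) ∧
      (∀ (R : Subgroup Ω) (f : Ω → Ω), Nat.card Q < Nat.card R → Mp F R f → ∀ x ∈ R, (x ∈ W ↔ f x ∈ W)) :=
  Cfsg.Agent.H184.FusBad.exists_bad hS hF hWS hWtop hW

/-- F2 -/
theorem se_of_essential {Ω : Type*} [Group Ω] {S : Subgroup Ω} [Finite S] {p : ℕ} [Fact p.Prime] (hS : IsPGroup p S)
    {F : FusionSystem S} (hF : F.IsSaturated p) {Q U : Subgroup Ω} (hQS : Q < S) (hQ : F.IsEssential p Q) (hU : U ≤ Q)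
    (hext : ∀ (R : Subgroup Ω) (f : Ω → Ω), Q < R → Mp F R f → (∀ x ∈ Q, f x ∈ Q) → ∀ x ∈ U, f x ∈ U)
    (hmov : ∃ f : Ω → Ω, Mp F Q f ∧ (∀ x ∈ Q, f x ∈ Q) ∧ ∃ x ∈ U, f x ∉ U)
    {u a b : Ω → Ω} (hu : Mp F Q u) (huQ : ∀ x ∈ Q, u x ∈ Q) (hup : ∃ k : ℕ, ∀ x ∈ Q, u^[p ^ k] x = x)
    (hui : ¬ ∃ q ∈ Q, ∀ x ∈ Q, u x = q * x * q⁻¹) (ha : Mp F Q a) (haQ : ∀ x ∈ Q, a x ∈ Q)
    (hb : Mp F Q b) (hbQ : ∀ x ∈ Q, b x ∈ Q) (hua : ∀ w ∈ U, ∃ w' ∈ U, u (a w) = a w')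
    (hub : ∀ w ∈ U, ∃ w' ∈ U, u (b w) = b w') : ∀ w ∈ U, ∃ w' ∈ U, a w = b w' :=
  Cfsg.Agent.H184.FusBad.se_of_essential hS hF hQS hQ hU hext hmov hu huQ hup hui ha haQ hb hbQ hua hub

theorem core_of_essential {Ω : Type*} [Group Ω] {S : Subgroup Ω} [Finite S] {p : ℕ} [Fact p.Prime] (hS : IsPGroup p S)
    {F : FusionSystem S} {Q D : Subgroup Ω} (hQ : F.IsEssential p Q) (hD : D ≤ Q)
    (hDA : ∀ f : Ω → Ω, Mp F Q f → (∀ x ∈ Q, f x ∈ Q) → ∀ d ∈ D, f d ∈ D) {n : Ω} (hnS : n ∈ S)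
    (hn : n ∈ normalizer (Q : Set Ω)) (h1 : ∀ q ∈ Q, n * q * n⁻¹ * q⁻¹ ∈ D) (h2 : ∀ d ∈ D, n * d = d * n) : n ∈ Q :=
  Cfsg.Agent.H184.FusBad.core_of_essential hS hQ hD hDA hnS hn h1 h2

/-- F3 -/
theorem frattini_ext {Ω : Type*} [Group Ω] {S : Subgroup Ω} [Finite S] {p : ℕ} [Fact p.Prime] (hS : IsPGroup p S)
    {F : FusionSystem S} (hF : F.IsSaturated p) {E U : Subgroup Ω} (hES : E ≤ S)
    (hEn : ∀ s ∈ S, ∀ x ∈ E, s * x * s⁻¹ ∈ E) (hUE : U ≤ E)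
    (hUA : ∀ f : Ω → Ω, Mp F E f → (∀ x ∈ E, f x ∈ E) → ∀ x ∈ U, f x ∈ U)
    (M : Set (Ω → Ω)) (hM : ∀ f ∈ M, Mp F E f ∧ ∀ x ∈ E, f x ∈ E)
    (hMc : ∀ f ∈ M, ∀ g ∈ M, (fun x => f (g x)) ∈ M) (hMe : ∀ f ∈ M, ∀ g : Ω → Ω, (∀ x ∈ E, g x = f x) → g ∈ M)
    (hMi : ∀ f ∈ M, ∃ g ∈ M, ∀ x ∈ E, g (f x) = x ∧ f (g x) = x)
    (hMn : ∀ f ∈ M, ∀ a b : Ω → Ω, Mp F E a → Mp F E b → (∀ x ∈ E, a x ∈ E) → (∀ x ∈ E, b x ∈ E) →
      (∀ x ∈ E, b (a x) = x ∧ a (b x) = x) → (fun x => a (f (b x))) ∈ M)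
    {m : Ω → Ω} (hm : m ∈ M) (hmU : ∀ x ∈ U, m x = x⁻¹) :
    ∃ j : Ω → Ω, Mp F S j ∧ j ∈ M ∧ ∀ x ∈ U, j x = x⁻¹ :=
  Cfsg.Agent.H12.FusFr.frattini_ext hS hF hES hEn hUE hUA M hM hMc hMe hMi hMn hm hmU

theorem inner_of_pelement {Ω : Type*} [Group Ω] {S : Subgroup Ω} [Finite S] {p : ℕ} [Fact p.Prime] (hS : IsPGroup p S)
    {F : FusionSystem S} (hF : F.IsSaturated p) {g : Ω → Ω} (hg : Mp F S g) (hgp : ∃ k : ℕ, ∀ x ∈ S, g^[p ^ k] x = x) :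
    ∃ s ∈ S, ∀ x ∈ S, g x = s * x * s⁻¹ :=
  Cfsg.Agent.H12.FusFr.inner_of_pelement hS hF hg hgp

/-- F4 -/
theorem signs_one (g : P → P) (hm : ∀ x y, g (x * y) = g x * g y) (hi : Function.Injective g)
    (hZ : ∀ x ∈ Z2, g x = x) : ∃ k : ℕ, ∀ x, g^[3 ^ k] x = x :=
  Cfsg.Agent.H573.ThSigns.signs_one g hm hi hZ

theorem signs_neg (g : P → P) (hm : ∀ x y, g (x * y) = g x * g y) (hi : Function.Injective g)
    (hZ : ∀ x ∈ Z2, g x = x⁻¹) : (∀ x ∈ E1, g x * x ∈ Z6) ∧ (∀ x ∈ Z6, g x * x ∈ Y7) ∧ (∀ x ∈ Y7, g x * x ∈ X6) ∧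
      (∀ x ∈ X6, g x * x ∈ N5) :=
  Cfsg.Agent.H573.ThSigns.signs_neg g hm hi hZ

end Cfsg.Agent.H776.ThS
end
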